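import Mathlib
import Cfsg.Agent.Inv.AL4A

/-! Computed facts about the group `W` of signed permutations of four letters. -/

set_option autoImplicit false

namespace Cfsg.Agent.Inv.AL4

open R

def lt2 (a b : Fin 8) : Bool := Nat.ble (res a) (res b)
/-- odd permutation -/
def od (r : R) : Bool :=
  xor (xor (xor (lt2 r.x1 r.x0) (lt2 r.x2 r.x0)) (xor (lt2 r.x3 r.x0) (lt2 r.x2 r.x1)))
    (xor (lt2 r.x3 r.x1) (lt2 r.x3 r.x2))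
/-- odd number of signs -/
def ns (r : R) : Bool := xor (xor (sgn r.x0) (sgn r.x1)) (xor (sgn r.x2) (sgn r.x3))
/-- determinant `-1` -/
def dt (r : R) : Bool := xor (od r) (ns r)
def v4 (r : R) : Bool :=
  Nat.beq (res r.x1) (Nat.xor (res r.x0) 1) && Nat.beq (res r.x2) (Nat.xor (res r.x0) 2)
def inU (r : R) : Bool := v4 r && !ns r
def inA (r : R) : Bool :=
  v4 r && !(xor (sgn r.x0) (sgn r.x1)) && !(xor (sgn r.x0) (sgn r.x2)) &&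
    !(xor (sgn r.x0) (sgn r.x3))
def dR : R := ⟨f0, f5, f6, f7⟩
def xR : R := ⟨f0, f2, f3, f1⟩
def sR : R := ⟨f0, f5, f7, f6⟩
def tR : R := ⟨f0, f1, f3, f2⟩
def pR : R := ⟨f1, f0, f3, f2⟩
def qR : R := ⟨f2, f3, f0, f1⟩
def uR : R := ⟨f1, f0, f2, f3⟩
def rR : R := ⟨f1, f4, f2, f3⟩
def inB (r : R) : Bool := inA (mul (mul dR r) dR)
def inV (r : R) : Bool := beq r one || beq r neg
def inT (r : R) : Bool := Nat.beq (Nat.div (res r.x0) 2) (Nat.div (res r.x1) 2)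
def isbad (r : R) : Bool :=
  Nat.beq (res r.x0) 0 && Nat.beq (res r.x1) 1 && Nat.beq (res r.x2) 2 &&
    !(beq r one) && !(beq r neg) && !(beq r dR) && !(beq r ⟨f4, f1, f6, f7⟩) &&
    !(beq r ⟨f4, f5, f2, f7⟩) && !(beq r ⟨f4, f5, f6, f3⟩)
def gd (r : R) : Bool := beq (mul r r) one && !(beq r one) && !(isbad r)
def pt (r : R) : Bool := gd r && inU r && !(inV r)

def e12 : Cl := ⟨true, true, false, false, false⟩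
def e23 : Cl := ⟨false, true, true, false, false⟩
def e34 : Cl := ⟨false, false, true, true, false⟩
def e13 : Cl := ⟨true, false, true, false, false⟩

def LT : List R :=
  [⟨f0, f1, f2, f3⟩, ⟨f0, f1, f2, f7⟩, ⟨f0, f1, f3, f2⟩, ⟨f0, f1, f3, f6⟩, ⟨f0, f1, f6, f3⟩, ⟨f0,
  f1, f6, f7⟩, ⟨f0, f1, f7, f2⟩, ⟨f0, f1, f7, f6⟩, ⟨f0, f5, f2, f3⟩, ⟨f0, f5, f2, f7⟩, ⟨f0, f5,
  f3, f2⟩, ⟨f0, f5, f3, f6⟩, ⟨f0, f5, f6, f3⟩, ⟨f0, f5, f6, f7⟩, ⟨f0, f5, f7, f2⟩, ⟨f0, f5, f7,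
  f6⟩, ⟨f1, f0, f2, f3⟩, ⟨f1, f0, f2, f7⟩, ⟨f1, f0, f3, f2⟩, ⟨f1, f0, f3, f6⟩, ⟨f1, f0, f6, f3⟩,
  ⟨f1, f0, f6, f7⟩, ⟨f1, f0, f7, f2⟩, ⟨f1, f0, f7, f6⟩, ⟨f1, f4, f2, f3⟩, ⟨f1, f4, f2, f7⟩, ⟨f1,
  f4, f3, f2⟩, ⟨f1, f4, f3, f6⟩, ⟨f1, f4, f6, f3⟩, ⟨f1, f4, f6, f7⟩, ⟨f1, f4, f7, f2⟩, ⟨f1, f4,
  f7, f6⟩, ⟨f2, f3, f0, f1⟩, ⟨f2, f3, f0, f5⟩, ⟨f2, f3, f1, f0⟩, ⟨f2, f3, f1, f4⟩, ⟨f2, f3, f4,
  f1⟩, ⟨f2, f3, f4, f5⟩, ⟨f2, f3, f5, f0⟩, ⟨f2, f3, f5, f4⟩, ⟨f2, f7, f0, f1⟩, ⟨f2, f7, f0, f5⟩,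
  ⟨f2, f7, f1, f0⟩, ⟨f2, f7, f1, f4⟩, ⟨f2, f7, f4, f1⟩, ⟨f2, f7, f4, f5⟩, ⟨f2, f7, f5, f0⟩, ⟨f2,
  f7, f5, f4⟩, ⟨f3, f2, f0, f1⟩, ⟨f3, f2, f0, f5⟩, ⟨f3, f2, f1, f0⟩, ⟨f3, f2, f1, f4⟩, ⟨f3, f2,
  f4, f1⟩, ⟨f3, f2, f4, f5⟩, ⟨f3, f2, f5, f0⟩, ⟨f3, f2, f5, f4⟩, ⟨f3, f6, f0, f1⟩, ⟨f3, f6, f0,
  f5⟩, ⟨f3, f6, f1, f0⟩, ⟨f3, f6, f1, f4⟩, ⟨f3, f6, f4, f1⟩, ⟨f3, f6, f4, f5⟩, ⟨f3, f6, f5, f0⟩,
  ⟨f3, f6, f5, f4⟩, ⟨f4, f1, f2, f3⟩, ⟨f4, f1, f2, f7⟩, ⟨f4, f1, f3, f2⟩, ⟨f4, f1, f3, f6⟩, ⟨f4,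
  f1, f6, f3⟩, ⟨f4, f1, f6, f7⟩, ⟨f4, f1, f7, f2⟩, ⟨f4, f1, f7, f6⟩, ⟨f4, f5, f2, f3⟩, ⟨f4, f5,
  f2, f7⟩, ⟨f4, f5, f3, f2⟩, ⟨f4, f5, f3, f6⟩, ⟨f4, f5, f6, f3⟩, ⟨f4, f5, f6, f7⟩, ⟨f4, f5, f7,
  f2⟩, ⟨f4, f5, f7, f6⟩, ⟨f5, f0, f2, f3⟩, ⟨f5, f0, f2, f7⟩, ⟨f5, f0, f3, f2⟩, ⟨f5, f0, f3, f6⟩,
  ⟨f5, f0, f6, f3⟩, ⟨f5, f0, f6, f7⟩, ⟨f5, f0, f7, f2⟩, ⟨f5, f0, f7, f6⟩, ⟨f5, f4, f2, f3⟩, ⟨f5,
  f4, f2, f7⟩, ⟨f5, f4, f3, f2⟩, ⟨f5, f4, f3, f6⟩, ⟨f5, f4, f6, f3⟩, ⟨f5, f4, f6, f7⟩, ⟨f5, f4,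
  f7, f2⟩, ⟨f5, f4, f7, f6⟩, ⟨f6, f3, f0, f1⟩, ⟨f6, f3, f0, f5⟩, ⟨f6, f3, f1, f0⟩, ⟨f6, f3, f1,
  f4⟩, ⟨f6, f3, f4, f1⟩, ⟨f6, f3, f4, f5⟩, ⟨f6, f3, f5, f0⟩, ⟨f6, f3, f5, f4⟩, ⟨f6, f7, f0, f1⟩,
  ⟨f6, f7, f0, f5⟩, ⟨f6, f7, f1, f0⟩, ⟨f6, f7, f1, f4⟩, ⟨f6, f7, f4, f1⟩, ⟨f6, f7, f4, f5⟩, ⟨f6,
  f7, f5, f0⟩, ⟨f6, f7, f5, f4⟩, ⟨f7, f2, f0, f1⟩, ⟨f7, f2, f0, f5⟩, ⟨f7, f2, f1, f0⟩, ⟨f7, f2,
  f1, f4⟩, ⟨f7, f2, f4, f1⟩, ⟨f7, f2, f4, f5⟩, ⟨f7, f2, f5, f0⟩, ⟨f7, f2, f5, f4⟩, ⟨f7, f6, f0,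
  f1⟩, ⟨f7, f6, f0, f5⟩, ⟨f7, f6, f1, f0⟩, ⟨f7, f6, f1, f4⟩, ⟨f7, f6, f4, f1⟩, ⟨f7, f6, f4, f5⟩,
  ⟨f7, f6, f5, f0⟩, ⟨f7, f6, f5, f4⟩]

def LU : List R :=
  [⟨f0, f1, f2, f3⟩, ⟨f0, f1, f6, f7⟩, ⟨f0, f5, f2, f7⟩, ⟨f0, f5, f6, f3⟩, ⟨f1, f0, f3, f2⟩, ⟨f1,
  f0, f7, f6⟩, ⟨f1, f4, f3, f6⟩, ⟨f1, f4, f7, f2⟩, ⟨f2, f3, f0, f1⟩, ⟨f2, f3, f4, f5⟩, ⟨f2, f7,
  f0, f5⟩, ⟨f2, f7, f4, f1⟩, ⟨f3, f2, f1, f0⟩, ⟨f3, f2, f5, f4⟩, ⟨f3, f6, f1, f4⟩, ⟨f3, f6, f5,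
  f0⟩, ⟨f4, f1, f2, f7⟩, ⟨f4, f1, f6, f3⟩, ⟨f4, f5, f2, f3⟩, ⟨f4, f5, f6, f7⟩, ⟨f5, f0, f3, f6⟩,
  ⟨f5, f0, f7, f2⟩, ⟨f5, f4, f3, f2⟩, ⟨f5, f4, f7, f6⟩, ⟨f6, f3, f0, f5⟩, ⟨f6, f3, f4, f1⟩, ⟨f6,
  f7, f0, f1⟩, ⟨f6, f7, f4, f5⟩, ⟨f7, f2, f1, f4⟩, ⟨f7, f2, f5, f0⟩, ⟨f7, f6, f1, f0⟩, ⟨f7, f6,
  f5, f4⟩]

def LA : List R :=
  [⟨f0, f1, f2, f3⟩, ⟨f1, f0, f3, f2⟩, ⟨f2, f3, f0, f1⟩, ⟨f3, f2, f1, f0⟩, ⟨f4, f5, f6, f7⟩, ⟨f5,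
  f4, f7, f6⟩, ⟨f6, f7, f4, f5⟩, ⟨f7, f6, f5, f4⟩]

theorem mem_LT : ∀ r ∈ LR, inT r = true → r ∈ LT := by decide +kernel
theorem mem_LU : ∀ r ∈ LR, inU r = true → r ∈ LU := by decide +kernel
theorem mem_LG : ∀ r ∈ LR, gd r = true → r ∈ LG := by decide +kernel
theorem LA_ok : ∀ r ∈ LA, r.ok = true ∧ inA r = true := by decide +kernel

theorem T_mul : ∀ a ∈ LT, ∀ b ∈ LT, inT (mul a b) = true := by decide +kernel
theorem U_mul : ∀ a ∈ LU, ∀ b ∈ LU, inU (mul a b) = true ∧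
    (inA a = true → inA b = true → inA (mul a b) = true) ∧
    (inB a = true → inB b = true → inB (mul a b) = true) ∧
    (inV a = true → inV b = true → inV (mul a b) = true) := by decide +kernel
theorem sub_inv : ∀ a ∈ LR, (inT a = true → inT (inv a) = true) ∧
    (inU a = true → inU (inv a) = true) ∧ (inA a = true → inA (inv a) = true) ∧
    (inB a = true → inB (inv a) = true) ∧ (inV a = true → inV (inv a) = true) := by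
  decide +kernel
theorem incl : ∀ a ∈ LR, (inA a = true → inU a = true) ∧ (inB a = true → inU a = true) ∧
    (inV a = true → inA a = true ∧ inB a = true) ∧ (inU a = true → inT a = true) ∧
    (inA a = true → inB a = true → inV a = true) ∧
    (pt a = true → inA a = true ∨ inB a = true) ∧
    (inA a = true ∨ inB a = true → inV a = true ∨ pt a = true) ∧
    (inU a = true → dt a = false ∧ inV (mul a a) = true) := by decide +kernel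

def sel4 (k : ℕ) (a b c d : Bool) : Bool :=
  cond (Nat.ble k 1) (cond (Nat.ble k 0) a b) (cond (Nat.ble k 2) c d)

theorem sgn_flip (y : Fin 8) : sgn (flip y) = !sgn y := by revert y; decide

theorem sgn_at (a : R) (k : Fin 8) : sgn (a.at' k) =
    xor (sgn k) (sel4 (res k) (sgn a.x0) (sgn a.x1) (sgn a.x2) (sgn a.x3)) := by
  fin_cases k <;> first
    | exact (Bool.false_xor _).symm
    | exact (sgn_flip _).trans (Bool.true_xor _).symm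

theorem ns_aux : ∀ b ∈ LR, ∀ p q r s : Bool,
    xor (xor (xor (sgn b.x0) (sel4 (res b.x0) p q r s)) (xor (sgn b.x1) (sel4 (res b.x1) p q r s)))
      (xor (xor (sgn b.x2) (sel4 (res b.x2) p q r s)) (xor (sgn b.x3) (sel4 (res b.x3) p q r s))) =
    xor (xor (xor p q) (xor r s)) (ns b) := by decide +kernel

theorem ns_mul (a b : W) : ns (a * b).1 = xor (ns a.1) (ns b.1) := by
  rw [W.val_mul, mul_eq]
  simp only [ns, sgn_at]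
  exact ns_aux _ b.mem _ _ _ _

theorem F_app : ∀ r ∈ LR, app r g0 = cond (dt r) (g0 * cz) g0 := by decide +kernel

theorem F_bad : ∀ r ∈ LR, isbad r = true → ∃ c ∈ LC, innR c = r ∧ c * c = cz := by
  decide +kernel

def frcL {α β : Type} : List α → (List α → β) → β
  | [], k => k []
  | x :: l, k => frcL l fun m => k (x :: m)

theorem frcL_eq {α β : Type} (l : List α) (k : List α → β) : frcL l k = k l := by
  induction l generalizing k with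
  | nil => rfl
  | cons x l ih => exact ih _

def chk9 (a : R) : Bool :=
  inU a || frcL (LG.filter fun b => gd (mul a b)) fun l => l.all fun b => l.all fun c =>
    !(gd (mul b c)) || !(gd (mul (mul a b) c)) ||
      (dt a && (beq b neg || beq c neg || beq (mul a b) neg || beq (mul a c) neg ||
        beq (mul b c) neg || beq (mul (mul a b) c) neg))

theorem chk9_all : ∀ a ∈ LG, chk9 a = true := by decide +kernel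

theorem F9 (a b c : W) (ha : gd a.1 = true) (hb : gd b.1 = true) (hc : gd c.1 = true)
    (hab : gd (a * b).1 = true) (hac : gd (a * c).1 = true) (hbc : gd (b * c).1 = true)
    (habc : gd (a * b * c).1 = true) (hU : inU a.1 = false) :
    dt a.1 = true ∧ (b.1 = neg ∨ c.1 = neg ∨ (a * b).1 = neg ∨ (a * c).1 = neg ∨
      (b * c).1 = neg ∨ (a * b * c).1 = neg) := by
  have h := chk9_all _ (mem_LG _ a.mem ha)
  simp only [chk9, frcL_eq, hU, Bool.false_or, List.all_eq_true, List.mem_filter] at h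
  have h2 := h b.1 ⟨mem_LG _ b.mem hb, hab⟩ c.1 ⟨mem_LG _ c.mem hc, hac⟩
  simp only [W.val_mul] at hbc habc ⊢
  simpa only [hbc, habc, Bool.not_true, Bool.false_or, Bool.and_eq_true, Bool.or_eq_true,
    beq_iff, or_assoc] using h2

def LC1 : List Cl :=
  [L f0, L f1, L f2, L f3, ⟨true, true, true, false, false⟩, ⟨true, true, false, true, false⟩,
    ⟨true, false, true, true, false⟩, ⟨false, true, true, true, false⟩, e23, e34, e12, e13]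

theorem F1 : ∀ r ∈ LR, mul r r = one → inU r = false → ∃ c ∈ LC1, app r c = c ∧
    ∃ d ∈ LC1, app r d = d ∧ c * d * c⁻¹ * d⁻¹ = cz := by decide +kernel

theorem F2 : ∀ r ∈ LR, mul r r = one → dt r = false → ns r = false → inU r = true := by
  decide +kernel

theorem F_pt : ∀ r ∈ LR, mul r r = one → inU r = true →
    inV r = true ∨ isbad r = true ∨ pt r = true := by decide +kernel

theorem F4 : ∀ r ∈ LR, pt r = true → ∃ c ∈ LR, mul c pR = mul r c := by decide +kernel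

theorem F5 : ∀ r ∈ LR, mul r r = one → dt r = false → mul r pR = mul pR r → inU r = true := by
  decide +kernel

theorem F_ord3 : ∀ r ∈ LR, mul r (mul r r) = one → r ≠ one →
    ∃ c ∈ LR, dt c = false ∧ mul c r = mul xR c := by decide +kernel

theorem F_Cx : ∀ r ∈ LR, dt r = false → mul r xR = mul xR r →
    inV r = true ∨ inV (mul r xR) = true ∨ inV (mul (mul r xR) xR) = true := by decide +kernel

theorem F_CU3 : ∀ r ∈ LR, mul r (mul r r) = one → r ≠ one →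
    ∀ u ∈ LU, mul u r = mul r u → inV u = true := by decide +kernel

def cube (r : R) : R := mul r (mul r r)

theorem F_nine : ∀ r ∈ LR, cube (cube r) = one → cube r = one := by decide +kernel

theorem F_ZW : ∀ r ∈ LR, mul r xR = mul xR r → mul r pR = mul pR r → inV r = true := by
  decide +kernel

theorem F_ZT : ∀ r ∈ LR, mul r tR = mul tR r → mul r qR = mul qR r → mul r dR = mul dR r →
    inV r = true := by decide +kernel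

theorem F_Cs : ∀ r ∈ LR, mul r sR = mul sR r → mul r r = one := by decide +kernel

theorem F_H0 : ∀ r ∈ LR, mul r r = one → dt r = false →
    inU r = true ∨ ∃ c ∈ LR, mul c sR = mul r c := by decide +kernel

theorem F_H1 : ∀ r ∈ LR, mul r r = one → od r = false →
    inU r = true ∨ isbad r = true ∨ ∃ k : Fin 8, r = innR (L k) := by decide +kernel

theorem F_trans : ∀ k : Fin 8, ∃ c ∈ LR, c.at' f0 = k := by decide +kernel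

theorem F_Tcos : ∀ r ∈ LR, inT r = true → inU r = true ∨ inU (mul r sR) = true ∨
    inU (mul r dR) = true ∨ inU (mul r tR) = true := by decide +kernel

theorem F_NT : ∀ r ∈ LR, inT (mul (mul r tR) (inv r)) = true → inT r = true := by decide +kernel

def sq (r : R) : R := mul r r

theorem F_T8 : ∀ r ∈ LR, inT r = true → sq (sq (sq r)) = one := by decide +kernel

theorem F_UAB : ∀ r ∈ LR, inU r = true → ∃ a ∈ LA, inB (mul a r) = true := by decide +kernel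

theorem F_move : ∀ r ∈ LR, r ≠ one → ∃ c ∈ LC, app r c ≠ c := by decide +kernel

theorem F_cz : ∀ c ∈ LC, c ≠ 1 → c = cz ∨ ∃ d ∈ LC, c * d * c⁻¹ * d⁻¹ = cz := by decide +kernel

theorem F_norm : ∀ p ∈ LR, (∀ h ∈ [xR, sR, pR, qR, mul xR xR, mul sR pR, mul pR xR],
    sq (sq (sq (mul p (mul (mul h p) (inv h))))) = one) → sq (sq (sq p)) = one →
    dt p = false → inU p = true := by decide +kernel

end Cfsg.Agent.Inv.AL4
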