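import Mathlib
import Cfsg.Agent.Inv.AL4B

/-! The centraliser `2^(1+4)_-.S4` coded by letters: basic tools. -/

set_option autoImplicit false

namespace Cfsg.Agent.Inv.AL4

open R Subgroup

/-- `C(z)` contains the Clifford group and acts on its letters as the full group `W`. -/
structure St (G : Type*) [Group G] where
  z : G
  ι : Cl →* G
  φ : G → W
  ι_inj : Function.Injective ι
  ι_z : ι cz = z
  φ_mul : ∀ a ∈ centralizer ({z} : Set G), ∀ b ∈ centralizer ({z} : Set G), φ (a * b) = φ a * φ b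
  act : ∀ h ∈ centralizer ({z} : Set G), ∀ k, h * ι (L k) * h⁻¹ = ι (L ((φ h).1.at' k))
  ker : ∀ h ∈ centralizer ({z} : Set G), φ h = 1 → h = 1 ∨ h = z
  surj : ∀ w, ∃ h ∈ centralizer ({z} : Set G), φ h = w
  solv : Group.IsSolvable (centralizer ({z} : Set G))

def dW : W := ⟨dR, by decide⟩
def xW : W := ⟨xR, by decide⟩
def sW : W := ⟨sR, by decide⟩
def tW : W := ⟨tR, by decide⟩
def pW : W := ⟨pR, by decide⟩
def qW : W := ⟨qR, by decide⟩
def uW : W := ⟨uR, by decide⟩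
def rW : W := ⟨rR, by decide⟩
def nW : W := ⟨neg, by decide⟩

def mkW (r : R) (h : r ∈ LR) : W := ⟨r, ok_LR r h⟩

def TW : Subgroup W where
  carrier := {w | inT w.1 = true}
  one_mem' := by show inT R.one = true; decide
  mul_mem' := fun {a b} ha hb => T_mul _ (mem_LT _ a.mem ha) _ (mem_LT _ b.mem hb)
  inv_mem' := fun {a} ha => (sub_inv _ a.mem).1 ha

def UW : Subgroup W where
  carrier := {w | inU w.1 = true}
  one_mem' := by show inU R.one = true; decide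
  mul_mem' := fun {a b} ha hb => (U_mul _ (mem_LU _ a.mem ha) _ (mem_LU _ b.mem hb)).1
  inv_mem' := fun {a} ha => (sub_inv _ a.mem).2.1 ha

def AW : Subgroup W where
  carrier := {w | inA w.1 = true}
  one_mem' := by show inA R.one = true; decide
  mul_mem' := fun {a b} ha hb => (U_mul _ (mem_LU _ a.mem ((incl _ a.mem).1 ha)) _
    (mem_LU _ b.mem ((incl _ b.mem).1 hb))).2.1 ha hb
  inv_mem' := fun {a} ha => (sub_inv _ a.mem).2.2.1 ha

def BW : Subgroup W where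
  carrier := {w | inB w.1 = true}
  one_mem' := by show inB R.one = true; decide
  mul_mem' := fun {a b} ha hb => (U_mul _ (mem_LU _ a.mem ((incl _ a.mem).2.1 ha)) _
    (mem_LU _ b.mem ((incl _ b.mem).2.1 hb))).2.2.1 ha hb
  inv_mem' := fun {a} ha => (sub_inv _ a.mem).2.2.2.1 ha

def VW : Subgroup W where
  carrier := {w | inV w.1 = true}
  one_mem' := by show inV R.one = true; decide
  mul_mem' := fun {a b} ha hb =>
    (U_mul _ (mem_LU _ a.mem ((incl _ a.mem).1 ((incl _ a.mem).2.2.1 ha).1)) _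
      (mem_LU _ b.mem ((incl _ b.mem).1 ((incl _ b.mem).2.2.1 hb).1))).2.2.2 ha hb
  inv_mem' := fun {a} ha => (sub_inv _ a.mem).2.2.2.2 ha

theorem card_UW : Nat.card UW = 32 := (card_filter inU).trans (by decide +kernel)
theorem card_AW : Nat.card AW = 8 := (card_filter inA).trans (by decide +kernel)
theorem card_BW : Nat.card BW = 8 := (card_filter inB).trans (by decide +kernel)
theorem card_VW : Nat.card VW = 2 := (card_filter inV).trans (by decide +kernel)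

theorem inV_iff (w : W) : inV w.1 = true ↔ w = 1 ∨ w = nW := by
  simp only [inV, Bool.or_eq_true, beq_iff]
  exact or_congr ⟨fun h => W.ext h, fun h => congrArg Subtype.val h⟩
    ⟨fun h => W.ext h, fun h => congrArg Subtype.val h⟩

theorem W_ext_at {a b : W} (h : ∀ k, a.1.at' k = b.1.at' k) : a = b := by
  apply W.ext
  rcases a with ⟨⟨a0, a1, a2, a3⟩, _⟩
  rcases b with ⟨⟨b0, b1, b2, b3⟩, _⟩
  have h0 : a0 = b0 := h f0
  have h1 : a1 = b1 := h f1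
  have h2 : a2 = b2 := h f2
  have h3 : a3 = b3 := h f3
  simp only [h0, h1, h2, h3]

namespace St

variable {G : Type*} [Group G] (s : St G)

def H : Subgroup G := centralizer ({s.z} : Set G)

theorem mem_H {h : G} : h ∈ s.H ↔ h * s.z = s.z * h := mem_centralizer_singleton_iff

theorem zz : s.z * s.z = 1 := by rw [← s.ι_z, ← map_mul, ← map_one s.ι]; rfl

theorem z_ne : s.z ≠ 1 := by
  rw [← s.ι_z, ← map_one s.ι]
  exact fun h => absurd (s.ι_inj h) (by decide)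

theorem z_inv : s.z⁻¹ = s.z := inv_eq_of_mul_eq_one_right s.zz

theorem orderOf_z : orderOf s.z = 2 :=
  orderOf_eq_prime (by rw [pow_two, s.zz]) s.z_ne

theorem ι_mem (c : Cl) : s.ι c ∈ s.H := by
  rw [mem_H, ← s.ι_z, ← map_mul, ← map_mul, cz_comm c (mem_LC c)]

theorem z_mem : s.z ∈ s.H := s.mem_H.2 rfl

theorem conj_z {h : G} (hh : h ∈ s.H) : h * s.z * h⁻¹ = s.z := by
  rw [s.mem_H.1 hh, mul_inv_cancel_right]

theorem mem_of_conj_z {h : G} (hh : h * s.z * h⁻¹ = s.z) : h ∈ s.H := by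
  rw [mem_H]; exact mul_inv_eq_iff_eq_mul.1 hh

theorem φm {a b : G} (ha : a ∈ s.H) (hb : b ∈ s.H) : s.φ (a * b) = s.φ a * s.φ b :=
  s.φ_mul a ha b hb

def φh : s.H →* W := MonoidHom.mk' (fun h => s.φ h) fun a b => s.φm a.2 b.2

theorem φ_one : s.φ 1 = 1 := map_one s.φh

theorem φ_inv {a : G} (ha : a ∈ s.H) : s.φ a⁻¹ = (s.φ a)⁻¹ := map_inv s.φh ⟨a, ha⟩

theorem φ_pow {a : G} (ha : a ∈ s.H) (n : ℕ) : s.φ (a ^ n) = s.φ a ^ n := map_pow s.φh ⟨a, ha⟩ n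

theorem φ_conj {a b : G} (ha : a ∈ s.H) (hb : b ∈ s.H) :
    s.φ (a * b * a⁻¹) = s.φ a * s.φ b * (s.φ a)⁻¹ := by
  rw [s.φm (s.H.mul_mem ha hb) (s.H.inv_mem ha), s.φm ha hb, s.φ_inv ha]

theorem φ_comm {a b : G} (ha : a ∈ s.H) (hb : b ∈ s.H) (h : a * b = b * a) :
    mul (s.φ a).1 (s.φ b).1 = mul (s.φ b).1 (s.φ a).1 := by
  rw [← W.val_mul, ← W.val_mul, ← s.φm ha hb, ← s.φm hb ha, h]

theorem φ_sq {a : G} (ha : a ∈ s.H) (h : a * a = 1) : mul (s.φ a).1 (s.φ a).1 = R.one := by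
  rw [← W.val_mul, ← s.φm ha ha, h, s.φ_one]; rfl

theorem act' {h : G} (hh : h ∈ s.H) (c : Cl) : h * s.ι c * h⁻¹ = s.ι (app (s.φ h).1 c) := by
  have k : ∀ (b : Bool) (x y : Cl), h * s.ι x * h⁻¹ = s.ι y →
      MulAut.conj h (s.ι (cond b x 1)) = s.ι (cond b y 1) := by
    intro b x y e
    cases b
    · simp
    · simpa using e
  have e : MulAut.conj h (s.ι c) = s.ι (app (s.φ h).1 c) := by
    conv_lhs => rw [← hm_self c (mem_LC c)]
    simp only [app, hm, map_mul]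
    rw [k _ _ _ (s.act h hh f0), k _ _ _ (s.act h hh f1), k _ _ _ (s.act h hh f2),
      k _ _ _ (s.act h hh f3), k _ cz cz (by rw [s.ι_z, s.conj_z hh])]
    rfl
  simpa using e

theorem φ_ι (c : Cl) : s.φ (s.ι c) = inn c := by
  refine W_ext_at fun k => L_inj (s.ι_inj ?_)
  rw [← s.act _ (s.ι_mem c), ← map_inv, ← map_mul, ← map_mul]
  exact congrArg s.ι (at_inn c (mem_LC c) k).symm

theorem φ_z : s.φ s.z = 1 := by rw [← s.ι_z, φ_ι]; decide +kernel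

theorem φ_mul_z {h : G} (hh : h ∈ s.H) : s.φ (h * s.z) = s.φ h := by
  rw [s.φm hh s.z_mem, φ_z, mul_one]

theorem fib {h k : G} (hh : h ∈ s.H) (hk : k ∈ s.H) (e : s.φ h = s.φ k) :
    h = k ∨ h = k * s.z := by
  rcases s.ker (k⁻¹ * h) (s.H.mul_mem (s.H.inv_mem hk) hh)
    (by rw [s.φm (s.H.inv_mem hk) hh, s.φ_inv hk, e, inv_mul_cancel]) with e1 | e1
  · left; exact (inv_mul_eq_one.1 e1).symm
  · right; rw [← e1, mul_inv_cancel_left]

theorem sq_mul_z {h : G} (hh : h ∈ s.H) : h * s.z * (h * s.z) = h * h := by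
  rw [mul_assoc, ← mul_assoc s.z, ← s.mem_H.1 hh, mul_assoc, s.zz, mul_one]

theorem fib_sq {h k : G} (hh : h ∈ s.H) (hk : k ∈ s.H) (e : s.φ h = s.φ k) : h * h = k * k := by
  rcases s.fib hh hk e with rfl | rfl
  · rfl
  · exact s.sq_mul_z hk

/-- preimage of a subgroup of `W` -/
def pre (X : Subgroup W) : Subgroup G := (X.comap s.φh).map s.H.subtype

theorem mem_pre {X : Subgroup W} {g : G} : g ∈ s.pre X ↔ g ∈ s.H ∧ s.φ g ∈ X := by
  constructor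
  · rintro ⟨h, hh, rfl⟩; exact ⟨h.2, hh⟩
  · rintro ⟨h1, h2⟩; exact ⟨⟨g, h1⟩, h2, rfl⟩

theorem φh_surj : Function.Surjective s.φh := fun w =>
  let ⟨h, hh, e⟩ := s.surj w; ⟨⟨h, hh⟩, e⟩

theorem card_ker : Nat.card s.φh.ker = 2 := by
  have e : s.φh.ker = zpowers (⟨s.z, s.z_mem⟩ : s.H) := by
    apply le_antisymm
    · intro h hh
      rcases s.ker h h.2 hh with e | e
      · rw [show h = 1 from Subtype.ext e]; exact one_mem _
      · rw [show h = ⟨s.z, s.z_mem⟩ from Subtype.ext e]; exact mem_zpowers _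
    · rw [zpowers_le]; exact s.φ_z
  rw [e, Nat.card_zpowers, ← s.orderOf_z, ← Subgroup.orderOf_coe]

theorem card_H : Nat.card s.H = 768 := by
  have h := card_mul_index s.φh.ker
  rw [index_ker, s.card_ker, MonoidHom.range_eq_top.2 s.φh_surj, card_top, card_W] at h
  exact h.symm

theorem card_pre (X : Subgroup W) : Nat.card (s.pre X) = 2 * Nat.card X := by
  rw [pre, card_map_of_injective s.H.subtype_injective]
  have h1 := card_mul_index (X.comap s.φh)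
  have h2 := card_mul_index X
  rw [index_comap_of_surjective _ s.φh_surj, s.card_H] at h1
  rw [card_W] at h2
  have h3 : X.index ≠ 0 := fun h => by rw [h] at h2; omega
  apply Nat.eq_of_mul_eq_mul_right (Nat.pos_of_ne_zero h3)
  rw [h1, mul_assoc, h2]
  rfl

def a : G := s.ι g0
def b : G := s.ι (L f0)
def T : Subgroup G := s.pre TW
def U : Subgroup G := s.pre UW
def A : Subgroup G := s.pre AW
def B : Subgroup G := s.pre BW
def V : Subgroup G := s.pre VW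

theorem mem_T {g : G} : g ∈ s.T ↔ g ∈ s.H ∧ inT (s.φ g).1 = true := s.mem_pre
theorem mem_U {g : G} : g ∈ s.U ↔ g ∈ s.H ∧ inU (s.φ g).1 = true := s.mem_pre
theorem mem_A {g : G} : g ∈ s.A ↔ g ∈ s.H ∧ inA (s.φ g).1 = true := s.mem_pre
theorem mem_B {g : G} : g ∈ s.B ↔ g ∈ s.H ∧ inB (s.φ g).1 = true := s.mem_pre
theorem mem_V' {g : G} : g ∈ s.V ↔ g ∈ s.H ∧ inV (s.φ g).1 = true := s.mem_pre

theorem card_U : Nat.card s.U = 64 := by rw [U, card_pre, card_UW]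
theorem card_A : Nat.card s.A = 16 := by rw [A, card_pre, card_AW]
theorem card_B : Nat.card s.B = 16 := by rw [B, card_pre, card_BW]
theorem card_V : Nat.card s.V = 4 := by rw [V, card_pre, card_VW]

theorem a_mem : s.a ∈ s.H := s.ι_mem _
theorem b_mem : s.b ∈ s.H := s.ι_mem _
theorem φ_a : s.φ s.a = nW := by rw [a, φ_ι]; decide +kernel
theorem φ_b : s.φ s.b = dW := by rw [b, φ_ι]; decide +kernel
theorem aa : s.a * s.a = 1 := by rw [a, ← map_mul, ← map_one s.ι]; rfl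
theorem bb : s.b * s.b = 1 := by rw [b, ← map_mul, ← map_one s.ι]; rfl
theorem b_inv : s.b⁻¹ = s.b := inv_eq_of_mul_eq_one_right s.bb
theorem a_ne_one : s.a ≠ 1 := by
  rw [a, ← map_one s.ι]; exact fun h => absurd (s.ι_inj h) (by decide)
theorem a_ne_z : s.a ≠ s.z := by
  rw [a, ← s.ι_z]; exact fun h => absurd (s.ι_inj h) (by decide)
theorem az_ne_a : s.a * s.z ≠ s.a := fun h => s.z_ne (mul_left_cancel (h.trans (mul_one _).symm))
theorem az_ne_z : s.a * s.z ≠ s.z := fun h => s.a_ne_one (mul_right_cancel (h.trans (one_mul _).symm))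
theorem az_ne_one : s.a * s.z ≠ 1 := fun h =>
  s.a_ne_z (mul_right_cancel (h.trans s.zz.symm))

theorem mem_V {g : G} : g ∈ s.V ↔ g = 1 ∨ g = s.z ∨ g = s.a ∨ g = s.a * s.z := by
  rw [mem_V', inV_iff]
  constructor
  · rintro ⟨h1, h2 | h2⟩
    · rcases s.ker g h1 h2 with e | e <;> simp [e]
    · rcases s.fib h1 s.a_mem (h2.trans s.φ_a.symm) with e | e <;> simp [e]
  · rintro (rfl | rfl | rfl | rfl)
    · exact ⟨one_mem _, Or.inl s.φ_one⟩
    · exact ⟨s.z_mem, Or.inl s.φ_z⟩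
    · exact ⟨s.a_mem, Or.inr s.φ_a⟩
    · exact ⟨s.H.mul_mem s.a_mem s.z_mem, Or.inr ((s.φ_mul_z s.a_mem).trans s.φ_a)⟩

theorem V_le_A : s.V ≤ s.A := fun _ h =>
  s.mem_A.2 ⟨(s.mem_V'.1 h).1, ((incl _ (W.mem _)).2.2.1 (s.mem_V'.1 h).2).1⟩
theorem V_le_B : s.V ≤ s.B := fun _ h =>
  s.mem_B.2 ⟨(s.mem_V'.1 h).1, ((incl _ (W.mem _)).2.2.1 (s.mem_V'.1 h).2).2⟩
theorem A_le_U : s.A ≤ s.U := fun _ h =>
  s.mem_U.2 ⟨(s.mem_A.1 h).1, (incl _ (W.mem _)).1 (s.mem_A.1 h).2⟩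
theorem B_le_U : s.B ≤ s.U := fun _ h =>
  s.mem_U.2 ⟨(s.mem_B.1 h).1, (incl _ (W.mem _)).2.1 (s.mem_B.1 h).2⟩
theorem U_le_T : s.U ≤ s.T := fun _ h =>
  s.mem_T.2 ⟨(s.mem_U.1 h).1, (incl _ (W.mem _)).2.2.2.1 (s.mem_U.1 h).2⟩
theorem U_le_H : s.U ≤ s.H := fun _ h => (s.mem_U.1 h).1
theorem T_le_H : s.T ≤ s.H := fun _ h => (s.mem_T.1 h).1
theorem V_le_U : s.V ≤ s.U := s.V_le_A.trans s.A_le_U
theorem z_mem_V : s.z ∈ s.V := s.mem_V.2 (Or.inr (Or.inl rfl))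
theorem a_mem_V : s.a ∈ s.V := s.mem_V.2 (Or.inr (Or.inr (Or.inl rfl)))
theorem mem_V_of_AB {g : G} (h1 : g ∈ s.A) (h2 : g ∈ s.B) : g ∈ s.V :=
  s.mem_V'.2 ⟨(s.mem_A.1 h1).1, (incl _ (W.mem _)).2.2.2.2.1 (s.mem_A.1 h1).2 (s.mem_B.1 h2).2⟩

theorem conj_a {h : G} (hh : h ∈ s.H) :
    h * s.a * h⁻¹ = cond (dt (s.φ h).1) (s.a * s.z) s.a := by
  rw [a, s.act' hh, F_app _ (W.mem _)]
  cases dt (s.φ h).1
  · rfl
  · simp only [cond_true, map_mul, s.ι_z]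

theorem dt_false_iff {h : G} (hh : h ∈ s.H) : dt (s.φ h).1 = false ↔ h * s.a = s.a * h := by
  have e := s.conj_a hh
  rw [← mul_inv_eq_iff_eq_mul]
  cases hd : dt (s.φ h).1 <;> rw [hd] at e
  · simpa using e
  · simp only [cond_true] at e
    simp only [Bool.true_eq_false, false_iff, e]
    exact s.az_ne_a

theorem conj_a_of_dt {h : G} (hh : h ∈ s.H) (hd : dt (s.φ h).1 = true) :
    h * s.a * h⁻¹ = s.a * s.z := by rw [s.conj_a hh, hd]; rfl

theorem dt_mul {h k : G} (hh : h ∈ s.H) (hk : k ∈ s.H) :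
    dt (s.φ (h * k)).1 = xor (dt (s.φ h).1) (dt (s.φ k).1) := by
  have e := s.conj_a (s.H.mul_mem hh hk)
  have e1 := s.conj_a hh
  have e2 := s.conj_a hk
  have e3 : h * k * s.a * (h * k)⁻¹ = h * (k * s.a * k⁻¹) * h⁻¹ := by group
  have e4 : h * (s.a * s.z) * h⁻¹ = h * s.a * h⁻¹ * s.z := by
    rw [← mul_assoc h, mul_assoc _ s.z, ← s.mem_H.1 (s.H.inv_mem hh), ← mul_assoc]
  rw [e3, e2] at e
  have n1 := s.az_ne_a
  cases hd : dt (s.φ (h * k)).1 <;> cases h1 : dt (s.φ h).1 <;> cases h2 : dt (s.φ k).1 <;>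
    simp only [hd, h1, h2, cond_true, cond_false, e4, e1, mul_assoc, s.zz, mul_one] at e ⊢ <;>
    first | rfl | exact absurd e n1 | exact absurd e.symm n1

theorem od_mul {h k : G} (hh : h ∈ s.H) (hk : k ∈ s.H) :
    od (s.φ (h * k)).1 = xor (od (s.φ h).1) (od (s.φ k).1) := by
  have e1 := s.dt_mul hh hk
  have e2 := ns_mul (s.φ h) (s.φ k)
  rw [← s.φm hh hk] at e2
  simp only [dt] at e1
  revert e1 e2
  generalize od (s.φ (h * k)).1 = p1, od (s.φ h).1 = p2, od (s.φ k).1 = p3,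
    ns (s.φ (h * k)).1 = q1, ns (s.φ h).1 = q2, ns (s.φ k).1 = q3
  revert p1 p2 p3 q1 q2 q3
  decide

/-- kernel of a sign character of `H` -/
def kerB (f : G → Bool) (hf : ∀ h ∈ s.H, ∀ k ∈ s.H, f (h * k) = xor (f h) (f k)) : Subgroup G where
  carrier := {h | h ∈ s.H ∧ f h = false}
  one_mem' := ⟨one_mem _, by
    have := hf 1 (one_mem _) 1 (one_mem _)
    rw [mul_one, Bool.xor_self] at this; exact this⟩
  mul_mem' := fun {x y} hx hy => ⟨s.H.mul_mem hx.1 hy.1, by rw [hf x hx.1 y hy.1, hx.2, hy.2]; rfl⟩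
  inv_mem' := fun {x} hx => ⟨s.H.inv_mem hx.1, by
    have h1 := hf 1 (one_mem _) 1 (one_mem _)
    have h2 := hf x hx.1 x⁻¹ (s.H.inv_mem hx.1)
    rw [mul_one, Bool.xor_self] at h1
    rw [mul_inv_cancel, h1, hx.2, Bool.false_xor] at h2; exact h2.symm⟩

theorem relIndex_kerB (f : G → Bool) (hf : ∀ h ∈ s.H, ∀ k ∈ s.H, f (h * k) = xor (f h) (f k))
    {c : G} (hc : c ∈ s.H) (hfc : f c = true) : (s.kerB f hf).relIndex s.H = 2 := by
  rw [relIndex, index_eq_two_iff]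
  refine ⟨⟨c, hc⟩, fun h => ?_⟩
  simp only [mem_subgroupOf, coe_mul]
  show Xor ((h : G) * c ∈ s.H ∧ f (h * c) = false) ((h : G) ∈ s.H ∧ f h = false)
  rw [hf h h.2 c hc, hfc]
  have := s.H.mul_mem h.2 hc
  cases f h <;> simp [Xor, this]

theorem comm_kerB (f : G → Bool) (hf : ∀ h ∈ s.H, ∀ k ∈ s.H, f (h * k) = xor (f h) (f k))
    {h k : G} (hh : h ∈ s.H) (hk : k ∈ s.H) : f (h * k * h⁻¹ * k⁻¹) = false := by
  have i : ∀ x ∈ s.H, f x⁻¹ = f x := fun x hx => by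
    have h1 := hf 1 (one_mem _) 1 (one_mem _)
    have h2 := hf x hx x⁻¹ (s.H.inv_mem hx)
    rw [mul_one, Bool.xor_self] at h1
    rw [mul_inv_cancel, h1] at h2
    revert h2; cases f x <;> cases f x⁻¹ <;> simp
  rw [hf _ (s.H.mul_mem (s.H.mul_mem hh hk) (s.H.inv_mem hh)) _ (s.H.inv_mem hk),
    hf _ (s.H.mul_mem hh hk) _ (s.H.inv_mem hh), hf _ hh _ hk, i h hh, i k hk]
  cases f h <;> cases f k <;> rfl

def H0 : Subgroup G := s.kerB (fun h => dt (s.φ h).1) fun _ hh _ hk => s.dt_mul hh hk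
def H1 : Subgroup G := s.kerB (fun h => od (s.φ h).1) fun _ hh _ hk => s.od_mul hh hk

theorem mem_H0 {h : G} : h ∈ s.H0 ↔ h ∈ s.H ∧ dt (s.φ h).1 = false := Iff.rfl
theorem mem_H1 {h : G} : h ∈ s.H1 ↔ h ∈ s.H ∧ od (s.φ h).1 = false := Iff.rfl

theorem mem_H0' {h : G} : h ∈ s.H0 ↔ h * s.z = s.z * h ∧ h * s.a = s.a * h := by
  rw [mem_H0, ← mem_H]
  exact and_congr_right fun hh => s.dt_false_iff hh

theorem relIndex_H0 : s.H0.relIndex s.H = 2 :=
  s.relIndex_kerB _ _ s.b_mem (by rw [φ_b]; decide)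

theorem relIndex_H1 : s.H1.relIndex s.H = 2 := by
  obtain ⟨h, hh, e⟩ := s.surj tW
  exact s.relIndex_kerB _ _ hh (by rw [e]; decide)

theorem U_le_H0 : s.U ≤ s.H0 := fun _ h =>
  ⟨(s.mem_U.1 h).1, ((incl _ (W.mem _)).2.2.2.2.2.2.2 (s.mem_U.1 h).2).1⟩

theorem sq_mem_V {u : G} (h : u ∈ s.U) : u * u ∈ s.V := by
  have hh := s.U_le_H h
  refine s.mem_V'.2 ⟨s.H.mul_mem hh hh, ?_⟩
  rw [s.φm hh hh]
  exact ((incl _ (W.mem _)).2.2.2.2.2.2.2 (s.mem_U.1 h).2).2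

theorem V_comm {h v : G} (hh : h ∈ s.H0) (hv : v ∈ s.V) : h * v = v * h := by
  obtain ⟨h1, h2⟩ := s.mem_H0'.1 hh
  rcases s.mem_V.1 hv with rfl | rfl | rfl | rfl
  · simp
  · exact h1
  · exact h2
  · rw [← mul_assoc, h2, mul_assoc, h1, mul_assoc]

theorem V_sq {v : G} (hv : v ∈ s.V) : v * v = 1 := by
  rcases s.mem_V.1 hv with rfl | rfl | rfl | rfl
  · simp
  · exact s.zz
  · exact s.aa
  · rw [s.sq_mul_z s.a_mem, s.aa]

/-- an involutive commutator of `H` lies in `U` -/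
theorem comm_mem_U {h k : G} (hh : h ∈ s.H) (hk : k ∈ s.H)
    (h2 : h * k * h⁻¹ * k⁻¹ * (h * k * h⁻¹ * k⁻¹) = 1) : h * k * h⁻¹ * k⁻¹ ∈ s.U := by
  have m : h * k * h⁻¹ * k⁻¹ ∈ s.H :=
    s.H.mul_mem (s.H.mul_mem (s.H.mul_mem hh hk) (s.H.inv_mem hh)) (s.H.inv_mem hk)
  refine s.mem_U.2 ⟨m, F2 _ (W.mem _) (s.φ_sq m h2) ?_ ?_⟩
  · exact s.comm_kerB (fun h => dt (s.φ h).1) (fun _ a _ b => s.dt_mul a b) hh hk
  · exact s.comm_kerB (fun h => ns (s.φ h).1)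
      (fun _ a _ b => by rw [s.φm a b]; exact ns_mul _ _) hh hk

theorem not_bad {h : G} (hh : h ∈ s.H) (h2 : h * h = 1) : isbad (s.φ h).1 = false := by
  by_contra hb
  obtain ⟨c, _, e1, e2⟩ := F_bad _ (W.mem _) (Bool.eq_true_of_not_eq_false hb)
  have e : s.φ h = s.φ (s.ι c) := by rw [φ_ι]; exact W.ext e1.symm
  have := s.fib_sq hh (s.ι_mem c) e
  rw [h2, ← map_mul, e2, s.ι_z] at this
  exact s.z_ne this.symm

theorem gd_of {h : G} (hh : h ∈ s.H) (h2 : h * h = 1) (h1 : h ≠ 1) (hz : h ≠ s.z) :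
    gd (s.φ h).1 = true := by
  have e : beq (s.φ h).1 R.one = false := by
    by_contra hb
    rcases s.ker h hh (W.ext ((beq_iff _ _).1 (Bool.eq_true_of_not_eq_false hb))) with e | e
    exacts [h1 e, hz e]
  simp only [gd, s.not_bad hh h2, e, (beq_iff _ _).2 (s.φ_sq hh h2), Bool.not_false,
    Bool.and_self]

theorem pt_of {u : G} (hu : u ∈ s.U) (h2 : u * u = 1) (hV : u ∉ s.V) : pt (s.φ u).1 = true := by
  have hh := s.U_le_H hu
  rcases F_pt _ (W.mem _) (s.φ_sq hh h2) (s.mem_U.1 hu).2 with e | e | e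
  · exact absurd (s.mem_V'.2 ⟨hh, e⟩) hV
  · rw [s.not_bad hh h2] at e; exact absurd e (by decide)
  · exact e

theorem mem_AB {u : G} (hu : u ∈ s.U) (h2 : u * u = 1) : u ∈ s.A ∨ u ∈ s.B := by
  by_cases hV : u ∈ s.V
  · exact Or.inl (s.V_le_A hV)
  · rcases (incl _ (W.mem _)).2.2.2.2.2.1 (s.pt_of hu h2 hV) with e | e
    · exact Or.inl (s.mem_A.2 ⟨s.U_le_H hu, e⟩)
    · exact Or.inr (s.mem_B.2 ⟨s.U_le_H hu, e⟩)

/-- a nontrivial subgroup of `H` normalised by the letters contains `z` -/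
theorem z_mem_of_normal {Y : Subgroup G} (hY : ∀ c, ∀ y ∈ Y, s.ι c * y * (s.ι c)⁻¹ ∈ Y)
    {y : G} (hy : y ∈ Y) (hH : y ∈ s.H) (h1 : y ≠ 1) : s.z ∈ Y := by
  by_cases hz : y = s.z
  · exact hz ▸ hy
  have hw : (s.φ y).1 ≠ R.one := fun e => (s.ker y hH (W.ext e)).elim h1 hz
  obtain ⟨c, _, hc⟩ := F_move _ (W.mem _) hw
  have m : s.ι (app (s.φ y).1 c * c⁻¹) ∈ Y := by
    rw [map_mul, ← s.act' hH, map_inv]
    have := Y.mul_mem hy (Y.inv_mem (hY c y hy))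
    simpa only [mul_inv_rev, inv_inv, mul_assoc] using this
  rcases F_cz _ (mem_LC _) (fun e => hc (mul_inv_eq_one.1 e)) with e | ⟨d, _, e⟩
  · rwa [e, s.ι_z] at m
  · rw [← s.ι_z, ← e]
    have := Y.mul_mem m (Y.inv_mem (hY d _ m))
    simpa only [map_mul, map_inv, mul_inv_rev, inv_inv, mul_assoc] using this

end St

end Cfsg.Agent.Inv.AL4
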