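import Mathlib
import Cfsg.Agent.Inv.AL4C
import Cfsg.Agent.GT.PGroupExtraTwo
import Cfsg.Agent.Spor.ESBasic
import Cfsg.Agent.S0144

/-! Letters for a centraliser `2^(1+4)_-.S4`: construction of `St`. -/

set_option autoImplicit false

namespace Cfsg.Agent.Inv.AL4

open R Subgroup

theorem cl_center : ∀ c ∈ LC, (∀ k : Fin 8, c * L k = L k * c) → c = 1 ∨ c = cz := by
  decide +kernel

theorem cl_comm : ∀ c ∈ LC, ∀ d ∈ LC, c * d = d * c ∨ c * d = cz * (d * c) := by decide +kernel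

theorem cl_sq : ∀ c ∈ LC, c * c = 1 ∨ c * c = cz := by decide +kernel

theorem cl_rank : ∀ c ∈ LC, c * c = 1 → c ≠ 1 → c ≠ cz → ∀ d ∈ LC, d * d = 1 → c * d = d * c →
    d = 1 ∨ d = cz ∨ d = c ∨ d = c * cz := by decide +kernel

theorem extraspecial_Cl : Cfsg.IsExtraspecial 2 Cl := by
  rw [← GT.PG.isExtraspecial_top_iff]
  refine Spor.ES2.isExtraspecial (z := cz) ⟨mem_top _, by decide, by decide,
    fun q _ => cz_comm q (mem_LC q), fun x _ y _ => cl_comm x (mem_LC x) y (mem_LC y),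
    fun x _ h => cl_center x (mem_LC x) fun k => h _ (mem_top _),
    ⟨L f0, mem_top _, L f1, mem_top _, by decide⟩⟩

theorem card_le_four {α : Type*} [Group α] [Finite α] (A : Subgroup α) (a b c d : α)
    (h : ∀ x ∈ A, x = a ∨ x = b ∨ x = c ∨ x = d) : Nat.card A ≤ 4 := by
  classical
  have h1 : (A : Set α) ⊆ (({a, b, c, d} : Finset α) : Set α) := fun x hx => by
    simpa using h x hx
  have h2 := Set.ncard_le_ncard h1
  rw [Set.ncard_coe_finset] at h2
  exact h2.trans Finset.card_le_four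

theorem rank_Cl : Cfsg.PRankLE 2 2 Cl := by
  intro A hA h2
  by_cases h : ∃ c ∈ A, c ≠ 1 ∧ c ≠ cz
  · obtain ⟨c, hc, h1, hz⟩ := h
    exact card_le_four A _ _ _ _ fun d hd => cl_rank c (mem_LC c) (by rw [← pow_two, h2 c hc])
      h1 hz d (mem_LC d) (by rw [← pow_two, h2 d hd]) (setLike_mul_comm (s := A) hc hd)
  · push Not at h
    exact card_le_four A 1 cz 1 1 fun d hd => by
      by_cases e : d = 1
      · exact Or.inl e
      · exact Or.inr (Or.inl (h d hd e))

theorem exists_iso {E : Type*} [Group E] [Finite E] (hE : Cfsg.IsExtraspecial 2 E)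
    (h32 : Nat.card E = 32)
    (hm : ∀ A : Subgroup E, Cfsg.IsElementaryAbelian 2 A → Nat.card A ≠ 8) :
    Nonempty (Cl ≃* E) := by
  refine GT.PG.nonempty_mulEquiv_of_extraspecial_two extraspecial_Cl hE (n := 2) card_Cl h32
    (iff_of_true rank_Cl ?_)
  intro A hA h2
  by_contra hlt
  have : Fact (Nat.Prime 2) := ⟨Nat.prime_two⟩
  obtain ⟨k, hk⟩ := IsPGroup.iff_card.1 (hE.1.1.to_subgroup A)
  have h3 : 2 ^ 3 ∣ Nat.card A := by
    rw [hk] at hlt ⊢
    refine pow_dvd_pow 2 ?_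
    by_contra h
    exact hlt (Nat.pow_le_pow_right (by norm_num) (by omega))
  obtain ⟨B, hB⟩ := Sylow.exists_subgroup_card_pow_prime 2 h3
  refine hm (B.map A.subtype) ⟨⟨⟨fun x y => Subtype.ext ?_⟩⟩, fun x hx => ?_⟩ ?_
  · exact setLike_mul_comm (s := A) (map_subtype_le B x.2) (map_subtype_le B y.2)
  · exact h2 x (map_subtype_le B hx)
  · rw [card_map_of_injective A.subtype_injective, hB]; rfl

def gen : Fin 5 → Cl := ![g0, L f0, L f1, L f2, L f3]

def idx (c : Cl) : Fin 5 :=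
  if c.s1 && c.s2 then 0 else if c.s1 then 1 else if c.s2 then 2 else if c.s3 then 3 else 4

def lidx (c : Cl) : Fin 8 :=
  if c.e then (if c.s1 then f4 else if c.s2 then f5 else if c.s3 then f6 else f7)
  else (if c.s1 then f0 else if c.s2 then f1 else if c.s3 then f2 else f3)

def nci (c : Cl) : Prop := c * c = 1 ∧ c ≠ 1 ∧ c ≠ cz

theorem idx_spec : ∀ c ∈ LC, c * c = 1 → c ≠ 1 → c ≠ cz →
    (c = gen (idx c) ∨ c = gen (idx c) * cz) ∧ idx (c * cz) = idx c ∧
      (c ≠ g0 → c ≠ g0 * cz → L (lidx c) = c) := by decide +kernel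

theorem gen_spec : ∀ i, (gen i * gen i = 1 ∧ gen i ≠ 1 ∧ gen i ≠ cz) ∧ idx (gen i) = i ∧
    ∀ c ∈ LC, idx (c * gen i * c⁻¹) = i := by decide +kernel

theorem L_spec : ∀ k, (L k * L k = 1 ∧ L k ≠ 1 ∧ L k ≠ cz) ∧ L k ≠ g0 ∧ L k ≠ g0 * cz := by
  decide +kernel

theorem inner_spec : ∀ y0 ∈ [L f0, L f0 * cz], ∀ y1 ∈ [L f1, L f1 * cz], ∀ y2 ∈ [L f2, L f2 * cz],
    ∀ y3 ∈ [L f3, L f3 * cz], ∃ c ∈ LC, c * L f0 * c⁻¹ = y0 ∧ c * L f1 * c⁻¹ = y1 ∧
      c * L f2 * c⁻¹ = y2 ∧ c * L f3 * c⁻¹ = y3 := by decide +kernel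

theorem five_spec : ∀ a b c d e : Fin 5,
    (∀ i, ![a, b, c, d, e] (![a, b, c, d, e] (![a, b, c, d, e] (![a, b, c, d, e] i))) = i) →
    (∃ i, ![a, b, c, d, e] (![a, b, c, d, e] i) ≠ i) →
    ∃ i0, ∀ j, ![a, b, c, d, e] (![a, b, c, d, e] j) = j ↔ j = i0 := by decide +kernel

def bet (i : Fin 5) (c : Cl) : Cl :=
  hm (if i = 1 then g0 else L f0) (if i = 2 then g0 else L f1) (if i = 3 then g0 else L f2)
    (if i = 4 then g0 else L f3) c

theorem bet_mul : ∀ i, ∀ c ∈ LC, ∀ d ∈ LC, bet i (c * d) = bet i c * bet i d := by decide +kernel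

theorem bet_spec : ∀ i, bet i cz = cz ∧ (bet i g0 = gen i ∨ bet i g0 = gen i * cz) ∧
    (∀ c ∈ LC, bet i c = 1 → c = 1) ∧ ∀ c ∈ LC, ∃ d ∈ LC, bet i d = c := by decide +kernel

theorem s4_spec : ∃ q : Equiv.Perm (Fin 4), q ^ 4 = 1 ∧ q * q ≠ 1 ∧
    ∀ g, q * q * (g * (q * q) * g⁻¹) = g * (q * q) * g⁻¹ * (q * q) :=
  ⟨Equiv.swap 0 1 * Equiv.swap 1 2 * Equiv.swap 2 3, by decide, by decide,
    by decide +kernel⟩

section K

variable {K : Type*} [Group K] (ι : Cl →* K) (hi : Function.Injective ι) [hn : ι.range.Normal]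

/-- the action of `K` on `Cl` -/
noncomputable def alp (h : K) (c : Cl) : Cl :=
  Classical.choose (MonoidHom.mem_range.1 (hn.conj_mem _ ⟨c, rfl⟩ h))

theorem ι_alp (h : K) (c : Cl) : ι (alp ι h c) = h * ι c * h⁻¹ :=
  Classical.choose_spec (MonoidHom.mem_range.1 (hn.conj_mem _ ⟨c, rfl⟩ h))

include hi

theorem alp_mul (h : K) (c d : Cl) : alp ι h (c * d) = alp ι h c * alp ι h d :=
  hi (by simp only [map_mul, ι_alp]; group)

theorem alp_comp (h k : K) (c : Cl) : alp ι (h * k) c = alp ι h (alp ι k c) :=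
  hi (by simp only [ι_alp]; group)

theorem alp_inj (h : K) : Function.Injective (alp ι h) := fun c d e => hi (by
  have := congrArg ι e
  rw [ι_alp, ι_alp] at this
  exact mul_left_cancel (mul_right_cancel this))

theorem alp_ι (d c : Cl) : alp ι (ι d) c = d * c * d⁻¹ := hi (by simp only [ι_alp, map_mul, map_inv])

variable (hz : ∀ h : K, h * ι cz = ι cz * h)
include hz

theorem alp_cz (h : K) : alp ι h cz = cz := hi (by rw [ι_alp, hz, mul_inv_cancel_right])

theorem alp_nci (h : K) {c : Cl} (hc : nci c) : nci (alp ι h c) := by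
  have e1 : alp ι h 1 = 1 := hi (by simp [ι_alp])
  refine ⟨by rw [← alp_mul ι hi, hc.1, e1], fun e => hc.2.1 (alp_inj ι hi h (e.trans e1.symm)),
    fun e => hc.2.2 (alp_inj ι hi h (e.trans (alp_cz ι hi hz h).symm))⟩

omit hi hz in
noncomputable def rho (h : K) (i : Fin 5) : Fin 5 := idx (alp ι h (gen i))

theorem rho_mul (h k : K) (i : Fin 5) : rho ι (h * k) i = rho ι h (rho ι k i) := by
  have n := alp_nci ι hi hz k (gen_spec i).1
  have n2 := alp_nci ι hi hz h (gen_spec (rho ι k i)).1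
  rw [rho, alp_comp ι hi]
  rcases (idx_spec _ (mem_LC _) n.1 n.2.1 n.2.2).1 with e | e
  · rw [e]; rfl
  · rw [e, alp_mul ι hi, alp_cz ι hi hz]
    exact (idx_spec _ (mem_LC _) n2.1 n2.2.1 n2.2.2).2.1

omit hz in
theorem rho_ι (c : Cl) (i : Fin 5) : rho ι (ι c) i = i := by
  rw [rho, alp_ι ι hi]; exact (gen_spec i).2.2 c (mem_LC c)

omit hi hn in
theorem comm_of_L {h : K} (e : ∀ k ∈ [f0, f1, f2, f3], h * ι (L k) * h⁻¹ = ι (L k)) :
    h ∈ centralizer (ι.range : Set K) := by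
  rintro _ ⟨c, rfl⟩
  have k : ∀ (b : Bool) (x : Cl), h * ι x * h⁻¹ = ι x → Commute h (ι (cond b x 1)) := by
    intro b x e
    cases b
    · simp
    · exact mul_inv_eq_iff_eq_mul.1 e
  rw [← hm_self c (mem_LC c)]
  simp only [hm, map_mul]
  exact (((((k _ _ (e f0 (by simp))).mul_right (k _ _ (e f1 (by simp)))).mul_right
    (k _ _ (e f2 (by simp)))).mul_right (k _ _ (e f3 (by simp)))).mul_right
    (k _ _ (by rw [hz, mul_inv_cancel_right]))).eq.symm

theorem mem_of_rho (hC : centralizer (ι.range : Set K) ≤ ι.range) {h : K}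
    (e : ∀ i, rho ι h i = i) : h ∈ ι.range := by
  have k : ∀ i, alp ι h (gen i) ∈ [gen i, gen i * cz] := fun i => by
    have n := alp_nci ι hi hz h (gen_spec i).1
    have := (idx_spec _ (mem_LC _) n.1 n.2.1 n.2.2).1
    rw [show idx (alp ι h (gen i)) = i from e i] at this
    simpa using this
  obtain ⟨c, _, e0, e1, e2, e3⟩ := inner_spec _ (k 1) _ (k 2) _ (k 3) _ (k 4)
  have m : (ι c)⁻¹ * h ∈ ι.range := by
    refine hC (comm_of_L ι hz fun j hj => ?_)
    have t : ∀ y : Cl, c * y * c⁻¹ = alp ι h y →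
        (ι c)⁻¹ * h * ι y * ((ι c)⁻¹ * h)⁻¹ = ι y := fun y e => by
      have := congrArg ι e
      rw [ι_alp, map_mul, map_mul, map_inv] at this
      calc (ι c)⁻¹ * h * ι y * ((ι c)⁻¹ * h)⁻¹ = (ι c)⁻¹ * (h * ι y * h⁻¹) * ι c := by group
        _ = ι y := by rw [← this]; group
    simp only [List.mem_cons, List.not_mem_nil, or_false] at hj
    rcases hj with rfl | rfl | rfl | rfl
    exacts [t _ e0, t _ e1, t _ e2, t _ e3]
  simpa using ι.range.mul_mem ⟨c, rfl⟩ m

theorem exists_fixed (hC : centralizer (ι.range : Set K) ≤ ι.range)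
    (e : K ⧸ ι.range ≃* Equiv.Perm (Fin 4)) : ∃ i0, ∀ h, rho ι h i0 = i0 := by
  obtain ⟨q0, h4, h2, hc⟩ := s4_spec
  let π : K →* Equiv.Perm (Fin 4) := e.toMonoidHom.comp (QuotientGroup.mk' _)
  have kπ : ∀ h, π h = 1 ↔ h ∈ ι.range := fun h => by
    simp [π, QuotientGroup.eq_one_iff]
  obtain ⟨q, hq⟩ : ∃ q, π q = q0 :=
    (e.surjective.comp (QuotientGroup.mk'_surjective _)) q0
  have r1 : ∀ h, π h = 1 → ∀ i, rho ι h i = i := fun h hh i => by
    obtain ⟨c, rfl⟩ := (kπ h).1 hh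
    exact rho_ι ι hi c i
  have r2 : ∀ a b, π a = π b → ∀ i, rho ι a i = rho ι b i := fun a b hab i => by
    have := r1 (b⁻¹ * a) (by rw [map_mul, map_inv, hab, inv_mul_cancel]) i
    rw [show a = b * (b⁻¹ * a) by group, rho_mul ι hi hz, this]
  have ef : ![rho ι q 0, rho ι q 1, rho ι q 2, rho ι q 3, rho ι q 4] = rho ι q := by
    funext i; fin_cases i <;> rfl
  have := five_spec (rho ι q 0) (rho ι q 1) (rho ι q 2) (rho ι q 3) (rho ι q 4)
  rw [ef] at this
  simp only [← rho_mul ι hi hz] at this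
  obtain ⟨i0, hi0⟩ := this
    (r1 _ (by simp only [map_mul, hq]; rw [← h4]; simp only [pow_succ, pow_zero, one_mul, mul_assoc]))
    (by
      by_contra hcon
      push Not at hcon
      exact h2 (by rw [← hq, ← map_mul]; exact (kπ _).2 (mem_of_rho ι hi hz hC hcon)))
  refine ⟨i0, fun h => (hi0 _).1 ?_⟩
  have one : ∀ i, rho ι 1 i = i := r1 1 (map_one π)
  have fc : rho ι (h * (q * q) * h⁻¹) (rho ι h i0) = rho ι h i0 := by
    rw [← rho_mul ι hi hz, inv_mul_cancel_right, rho_mul ι hi hz, (hi0 i0).2 rfl]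
  have uc : ∀ m, rho ι (h * (q * q) * h⁻¹) m = m → m = rho ι h i0 := fun m hm => by
    have h1 : rho ι (q * q) (rho ι h⁻¹ m) = rho ι h⁻¹ m := by
      conv_rhs => rw [← hm]
      rw [← rho_mul ι hi hz, ← rho_mul ι hi hz]; congr 1; group
    rw [← (hi0 _).1 h1, ← rho_mul ι hi hz, mul_inv_cancel, one]
  apply uc
  rw [← rho_mul ι hi hz, ← r2 (q * q * (h * (q * q) * h⁻¹)) _
    (by simp only [map_mul, map_inv, hq]; exact hc _), rho_mul ι hi hz, fc]

theorem exists_hom (hC : centralizer (ι.range : Set K) ≤ ι.range) [Finite K]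
    (hK : Nat.card K = 768)
    (h0 : ∀ h, alp ι h g0 = g0 ∨ alp ι h g0 = g0 * cz) :
    ∃ φ : K →* W, (∀ h k, h * ι (L k) * h⁻¹ = ι (L ((φ h).1.at' k))) ∧
      (∀ h, φ h = 1 → h = 1 ∨ h = ι cz) ∧ Function.Surjective φ := by
  have l1 : ∀ h k, L (lidx (alp ι h (L k))) = alp ι h (L k) := fun h k => by
    have n := alp_nci ι hi hz h (L_spec k).1
    have zz : cz * cz = 1 := by decide
    have a1 : alp ι h (g0 * cz) = alp ι h g0 * cz := by rw [alp_mul ι hi, alp_cz ι hi hz]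
    refine (idx_spec _ (mem_LC _) n.1 n.2.1 n.2.2).2.2 (fun e => ?_) fun e => ?_
    · rcases h0 h with e1 | e1
      · exact (L_spec k).2.1 (alp_inj ι hi h (e.trans e1.symm))
      · exact (L_spec k).2.2 (alp_inj ι hi h (by rw [e, a1, e1, mul_assoc, zz, mul_one]))
    · rcases h0 h with e1 | e1
      · exact (L_spec k).2.2 (alp_inj ι hi h (by rw [e, a1, e1]))
      · exact (L_spec k).2.1 (alp_inj ι hi h (e.trans e1.symm))
  let r : K → R := fun h => ⟨lidx (alp ι h (L f0)), lidx (alp ι h (L f1)), lidx (alp ι h (L f2)),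
    lidx (alp ι h (L f3))⟩
  have l2 : ∀ h k, L ((r h).at' (flip k)) = alp ι h (L (flip k)) ↔
      L ((r h).at' k) = alp ι h (L k) := fun h k => by
    rw [at_flip, L_flip, L_flip, alp_mul ι hi, alp_cz ι hi hz, mul_left_inj]
  have l3 : ∀ h k, L ((r h).at' k) = alp ι h (L k) := fun h k => by
    fin_cases k
    exacts [l1 h f0, l1 h f1, l1 h f2, l1 h f3, (l2 h f0).2 (l1 h f0), (l2 h f1).2 (l1 h f1),
      (l2 h f2).2 (l1 h f2), (l2 h f3).2 (l1 h f3)]
  let ψ : K → W := fun h => ⟨r h, ok_of_inj _ fun i j e =>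
    L_inj (alp_inj ι hi h (by rw [← l3, ← l3, e]))⟩
  let φ : K →* W := MonoidHom.mk' ψ fun a b => W_ext_at fun k => L_inj (by
    rw [W.val_mul, at_mul]
    show L ((r (a * b)).at' k) = L ((r a).at' ((r b).at' k))
    rw [l3, l3, l3, alp_comp ι hi])
  have l4 : ∀ h k, h * ι (L k) * h⁻¹ = ι (L ((φ h).1.at' k)) := fun h k => by
    rw [← ι_alp]; exact congrArg ι (l3 h k).symm
  have l5 : ∀ h, φ h = 1 → h = 1 ∨ h = ι cz := fun h e => by
    have l6 : ∀ k, h * ι (L k) * h⁻¹ = ι (L k) := fun k => by rw [l4, e, W.val_one, at_one]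
    obtain ⟨c, rfl⟩ := hC (comm_of_L ι hz fun k _ => l6 k)
    rcases cl_center c (mem_LC c) (fun k => hi (by
      rw [map_mul, map_mul]; exact mul_inv_eq_iff_eq_mul.1 (l6 k))) with e | e
    · left; rw [e, map_one]
    · right; rw [e]
  refine ⟨φ, l4, l5, ?_⟩
  have c1 : Nat.card φ.ker ≤ 2 := by
    classical
    have h1 : (φ.ker : Set K) ⊆ (({1, ι cz} : Finset K) : Set K) := fun x hx => by
      simpa using l5 x hx
    have h2 := Set.ncard_le_ncard h1
    rw [Set.ncard_coe_finset] at h2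
    exact h2.trans Finset.card_le_two
  have c2 := card_mul_index φ.ker
  rw [index_ker, hK] at c2
  rw [← MonoidHom.range_eq_top]
  apply eq_top_of_le_card
  rw [card_W]
  nlinarith

end K

theorem exists_St {G : Type*} [Group G] [Finite G] (z : G) (hz : orderOf z = 2)
    (E : Subgroup (centralizer ({z} : Set G))) [E.Normal] (hE : Cfsg.IsExtraspecial 2 E)
    (h32 : Nat.card E = 32)
    (hm : ∀ A : Subgroup E, Cfsg.IsElementaryAbelian 2 A → Nat.card A ≠ 8)
    (hCE : centralizer (E : Set (centralizer ({z} : Set G))) ≤ E)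
    (e : centralizer ({z} : Set G) ⧸ E ≃* Equiv.Perm (Fin 4)) : ∃ s : St G, s.z = z := by
  classical
  obtain ⟨j⟩ := exists_iso hE h32 hm
  let z0 : centralizer ({z} : Set G) := ⟨z, mem_centralizer_singleton_iff.2 rfl⟩
  have cz0 : ∀ h : centralizer ({z} : Set G), h * z0 = z0 * h := fun h =>
    Subtype.ext (mem_centralizer_singleton_iff.1 h.2)
  have hK : Nat.card (centralizer ({z} : Set G)) = 768 := by
    rw [card_eq_card_quotient_mul_card_subgroup E, h32, Nat.card_congr e.toEquiv,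
      Nat.card_eq_fintype_card, Fintype.card_perm]
    rfl
  let ι0 : Cl →* centralizer ({z} : Set G) := E.subtype.comp j.toMonoidHom
  have i0 : Function.Injective ι0 := E.subtype_injective.comp j.injective
  have r0 : ι0.range = E := by
    rw [MonoidHom.range_comp, MonoidHom.range_eq_top.2 j.surjective, ← MonoidHom.range_eq_map,
      range_subtype]
  have z1 : ι0 cz = z0 := by
    obtain ⟨c, hc⟩ : z0 ∈ ι0.range := r0 ▸ hCE fun h _ => cz0 h
    rcases cl_center c (mem_LC c) (fun k => i0 (by rw [map_mul, map_mul, hc, cz0])) with e | e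
    · rw [e, map_one] at hc
      have : z = 1 := (congrArg Subtype.val hc).symm
      rw [this, orderOf_one] at hz; exact absurd hz (by decide)
    · rw [← hc, e]
  have : ι0.range.Normal := r0.symm ▸ inferInstance
  have hC0 : centralizer (ι0.range : Set (centralizer ({z} : Set G))) ≤ ι0.range := by
    rw [r0]; exact hCE
  obtain ⟨i, hi⟩ := exists_fixed ι0 i0 (fun h => by rw [z1, cz0]) hC0
    ((QuotientGroup.quotientMulEquivOfEq r0).trans e)
  obtain ⟨b1, b2, b3, b4⟩ := bet_spec i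
  let β : Cl →* Cl := MonoidHom.mk' (bet i) fun c d => bet_mul i c (mem_LC c) d (mem_LC d)
  have βi : Function.Injective β := (injective_iff_map_eq_one β).2 fun c => b3 c (mem_LC c)
  let ι1 := ι0.comp β
  have i1 : Function.Injective ι1 := i0.comp βi
  have r1 : ι1.range = ι0.range := by
    rw [MonoidHom.range_comp, MonoidHom.range_eq_top.2 fun c =>
      let ⟨d, _, hd⟩ := b4 c (mem_LC c); ⟨d, hd⟩, ← MonoidHom.range_eq_map]
  have z2 : ι1 cz = z0 := by rw [← z1]; exact congrArg ι0 b1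
  have : ι1.range.Normal := r1 ▸ inferInstance
  have hz0 : ∀ h, h * ι0 cz = ι0 cz * h := fun h => by rw [z1, cz0]
  obtain ⟨φ, p1, p2, p3⟩ := exists_hom ι1 i1 (fun h => by rw [z2, cz0]) (by rw [r1]; exact hC0) hK fun h => by
    have n := alp_nci ι0 i0 hz0 h (gen_spec i).1
    have k := (idx_spec _ (mem_LC _) n.1 n.2.1 n.2.2).1
    rw [show idx (alp ι0 h (gen i)) = i from hi h] at k
    have zz : cz * cz = 1 := by decide
    have t : β (alp ι1 h g0) = alp ι0 h (β g0) := i0 (by rw [ι_alp]; exact ι_alp ι1 h g0)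
    have t2 : β (g0 * cz) = β g0 * cz := by rw [map_mul]; exact congrArg _ b1
    have t3 : alp ι0 h (gen i * cz) = alp ι0 h (gen i) * cz := by
      rw [alp_mul ι0 i0, alp_cz ι0 i0 hz0]
    have b2' : β g0 = gen i ∨ β g0 = gen i * cz := b2
    rcases b2' with b | b <;> rcases k with k | k
    · left; exact βi (by rw [t, b, k])
    · right; exact βi (by rw [t, t2, b, k])
    · left; exact βi (by rw [t, b, t3, k])
    · right; exact βi (by rw [t, t2, b, t3, k])
  refine ⟨⟨z, (centralizer ({z} : Set G)).subtype.comp ι1,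
    fun g => if h : g ∈ centralizer ({z} : Set G) then φ ⟨g, h⟩ else 1,
    (subtype_injective _).comp i1, congrArg Subtype.val z2, fun a ha b hb => ?_,
    fun h hh k => ?_, fun h hh e => ?_, fun w => ?_,
    S0144.result 2 3 8 1 Nat.prime_two Nat.prime_three hK⟩, rfl⟩
  · rw [dif_pos ha, dif_pos hb, dif_pos (mul_mem ha hb), ← map_mul]; rfl
  · rw [dif_pos hh]; exact congrArg Subtype.val (p1 ⟨h, hh⟩ k)
  · rw [dif_pos hh] at e
    exact (p2 _ e).imp (congrArg Subtype.val) fun e => congrArg Subtype.val (e.trans z2)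
  · obtain ⟨h, rfl⟩ := p3 w
    exact ⟨h, h.2, dif_pos h.2⟩

end Cfsg.Agent.Inv.AL4
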