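import Mathlib
import Cfsg.Agent.Inv.AL4C
import Cfsg.Agent.GT.PPrimeCore
import Cfsg.Agent.GT.TransferSylow
import Cfsg.Agent.S0215

/-! Centraliser `2^(1+4)_-.S4`: normal subgroups, the Sylow 2-subgroup, and `z ~ a`. -/

set_option autoImplicit false

namespace Cfsg.Agent.Inv.AL4.St

open R Subgroup

variable {G : Type*} [Group G] [Finite G] (s : St G)

theorem fpf (Y : Subgroup G) [hY : Y.Normal] (hz : s.z ∉ Y) :
    (∀ y ∈ Y, s.z * y * s.z⁻¹ = y⁻¹) ∧ Odd (Nat.card Y) ∧ ∀ x ∈ Y, ∀ y ∈ Y, x * y = y * x := by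
  let ψ : MulAut Y := MulAut.conjNormal s.z
  have h1 : MonoidHom.FixedPointFree ψ := fun y e => by
    by_contra hy
    have e' : s.z * y * s.z⁻¹ = y := congrArg Subtype.val e
    exact hz (s.z_mem_of_normal (fun c y hy => hY.conj_mem y hy _) y.2
      (s.mem_H.2 (mul_inv_eq_iff_eq_mul.1 e').symm) fun e => hy (Subtype.ext e))
  have h2 : Function.Involutive ψ := fun y => Subtype.ext (by
    show s.z * (s.z * y * s.z⁻¹) * s.z⁻¹ = y
    rw [s.z_inv, ← mul_assoc, ← mul_assoc, s.zz, one_mul, mul_assoc, s.zz, mul_one])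
  refine ⟨fun y hy => congrArg Subtype.val (congrFun (h1.coe_eq_inv_of_involutive h2) ⟨y, hy⟩),
    h1.odd_card_of_involutive h2, fun x hx y hy =>
      congrArg Subtype.val (h1.commute_all_of_involutive h2 ⟨x, hx⟩ ⟨y, hy⟩).eq⟩

theorem z_not_mem_odd {Y : Subgroup G} (hY : Odd (Nat.card Y)) : s.z ∉ Y := fun h => by
  have := orderOf_dvd_natCard (⟨s.z, h⟩ : Y)
  rw [← Subgroup.orderOf_coe, s.orderOf_z] at this
  exact (Nat.not_even_iff_odd.2 hY) (even_iff_two_dvd.2 this)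

include s in
theorem oddCore_comm : IsMulCommutative (Cfsg.oddCore G) :=
  ⟨⟨fun x y => Subtype.ext
    ((s.fpf _ (s.z_not_mem_odd GT.odd_card_oddCore)).2.2 x x.2 y y.2)⟩⟩

theorem z_mem_normal (hns : ¬ Group.IsSolvable G) (Y : Subgroup G) [hY : Y.Normal]
    (hb : Y ≠ ⊥) : s.z ∈ Y := by
  by_contra hz
  obtain ⟨i1, o1, -⟩ := s.fpf Y hz
  let C := centralizer (Y : Set G)
  have hzC : s.z ∉ C := fun h => hb (by
    rw [eq_bot_iff]
    intro y hy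
    have e : y = y⁻¹ := by rw [← i1 y hy, ← h y hy, mul_inv_cancel_right]
    have h2 : (⟨y, hy⟩ : Y) ^ 2 = 1 := Subtype.ext (by
      show y ^ 2 = 1
      rw [pow_two]; exact mul_eq_one_iff_eq_inv.2 e)
    have h3 := Nat.Coprime.eq_one_of_dvd ((Nat.coprime_two_left.2 o1).coprime_dvd_left
      (orderOf_dvd_of_pow_eq_one h2)) (orderOf_dvd_natCard _)
    exact congrArg Subtype.val (orderOf_eq_one_iff.1 h3))
  obtain ⟨i2, o2, c2⟩ := s.fpf C hzC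
  have key : ∀ g, ∃ c ∈ C, c * g ∈ s.H := fun g => by
    have m : s.z⁻¹ * (g * s.z * g⁻¹) ∈ C := fun y hy => by
      have e1 := i1 _ (hY.conj_mem y hy g⁻¹)
      have e2 := i1 _ hy
      have e3 : g * s.z * g⁻¹ * y = y⁻¹ * (g * s.z * g⁻¹) := by
        calc g * s.z * g⁻¹ * y = g * (s.z * (g⁻¹ * y * g⁻¹⁻¹) * s.z⁻¹) * (s.z * g⁻¹) := by group
          _ = y⁻¹ * (g * s.z * g⁻¹) := by rw [e1]; group
      calc y * (s.z⁻¹ * (g * s.z * g⁻¹)) = s.z⁻¹ * (s.z * y * s.z⁻¹ * (g * s.z * g⁻¹)) := by group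
        _ = s.z⁻¹ * (g * s.z * g⁻¹) * y := by rw [e2, ← e3]; group
    obtain ⟨c, hc⟩ := (powCoprime (G := C) (Nat.coprime_two_right.2 o2)).surjective ⟨_, m⟩
    have hc' : (c : G) * c = s.z⁻¹ * (g * s.z * g⁻¹) := by
      rw [← pow_two]; exact congrArg Subtype.val hc
    refine ⟨c, c.2, s.mem_of_conj_z ?_⟩
    have e5 := i2 c c.2
    calc (c : G) * g * s.z * (c * g)⁻¹ = c * (s.z * (s.z⁻¹ * (g * s.z * g⁻¹))) * (c : G)⁻¹ := by group
      _ = c * (s.z * c * s.z⁻¹) * s.z := by rw [← hc']; group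
      _ = s.z := by rw [e5]; group
  have : Group.IsSolvable s.H := s.solv
  have : Group.IsSolvable (G ⧸ C) :=
    Group.isSolvable_of_surjective (f := (QuotientGroup.mk' C).comp s.H.subtype) fun q => by
      obtain ⟨g, rfl⟩ := QuotientGroup.mk'_surjective C q
      obtain ⟨c, hc, m⟩ := key g
      refine ⟨⟨_, m⟩, ?_⟩
      show QuotientGroup.mk' C (c * g) = _
      rw [map_mul, show QuotientGroup.mk' C c = 1 from (QuotientGroup.eq_one_iff c).2 hc, one_mul]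
  have : Group.IsSolvable C := Group.isSolvable_of_comm fun a b => Subtype.ext (c2 a a.2 b b.2)
  exact hns (Group.isSolvable_of_ker_le_range C.subtype (QuotientGroup.mk' C) (by simp))

include s in
theorem oddCore_bot (hns : ¬ Group.IsSolvable G) : Cfsg.oddCore G = ⊥ := by
  by_contra h
  exact s.z_not_mem_odd GT.odd_card_oddCore (s.z_mem_normal hns _ h)

omit [Finite G] in
theorem pow_two_mul {h : G} (hh : h ∈ s.H) {n : ℕ} (e : s.φ h ^ n = 1) : h ^ (n * 2) = 1 := by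
  rw [pow_mul, pow_two]
  rcases s.ker _ (s.H.pow_mem hh n) (by rw [s.φ_pow hh, e]) with e | e <;> rw [e]
  exacts [mul_one _, s.zz]

omit [Finite G] in
theorem pow_eight (w : W) : (w ^ 8).1 = sq (sq (sq w.1)) := by
  rw [show 8 = 2 * 2 * 2 from rfl, pow_mul, pow_mul, pow_two, pow_two, pow_two]; rfl

omit [Finite G] in
theorem T_pgroup : IsPGroup 2 s.T := fun h => ⟨4, Subtype.ext (s.pow_two_mul (n := 8)
  (s.T_le_H h.2) (W.ext ((pow_eight _).trans (F_T8 _ (W.mem _) (s.mem_T.1 h.2).2))))⟩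

omit [Finite G] in
theorem b_a : s.b * s.a * s.b⁻¹ = s.a * s.z := s.conj_a_of_dt s.b_mem (by rw [φ_b]; decide)

omit [Finite G] in
theorem b_az : s.b * (s.a * s.z) * s.b⁻¹ = s.a := by
  rw [← mul_assoc, mul_assoc _ s.z, ← s.mem_H.1 (s.H.inv_mem s.b_mem), ← mul_assoc, b_a,
    mul_assoc, s.zz, mul_one]

omit [Finite G] in
theorem b_mem_T : s.b ∈ s.T := s.mem_T.2 ⟨s.b_mem, by rw [φ_b]; decide⟩

omit [Finite G] in
theorem norm_T {n : G} (hn : n ∈ normalizer (s.T : Set G)) : n ∈ s.T := by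
  obtain ⟨t, ht, et⟩ := s.surj tW
  obtain ⟨q, hq, eq⟩ := s.surj qW
  have tT : t ∈ s.T := s.mem_T.2 ⟨ht, by rw [et]; decide⟩
  have qT : q ∈ s.T := s.mem_T.2 ⟨hq, by rw [eq]; decide⟩
  have zT : s.z ∈ s.T := s.U_le_T (s.V_le_U s.z_mem_V)
  have m : n * s.z * n⁻¹ ∈ s.T := (mem_normalizer_iff.1 hn _).1 zT
  have c : ∀ u ∈ s.T, n * s.z * n⁻¹ * u = u * (n * s.z * n⁻¹) := fun u hu => by
    have := s.mem_H.1 (s.T_le_H ((mem_normalizer_iff''.1 hn _).1 hu))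
    calc n * s.z * n⁻¹ * u = n * (s.z * (n⁻¹ * u * n)) * n⁻¹ := by group
      _ = u * (n * s.z * n⁻¹) := by rw [← this]; group
  have mH := s.T_le_H m
  have v : n * s.z * n⁻¹ ∈ s.V := s.mem_V'.2 ⟨mH, F_ZT _ (W.mem _)
    (by have := s.φ_comm mH ht (c t tT); rwa [et] at this)
    (by have := s.φ_comm mH hq (c q qT); rwa [eq] at this)
    (by have := s.φ_comm mH s.b_mem (c _ s.b_mem_T); rwa [φ_b] at this)⟩
  have cb := c _ s.b_mem_T
  have nH : n ∈ s.H := by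
    rcases s.mem_V.1 v with e | e | e | e
    · exact absurd (conj_eq_one_iff.1 e) s.z_ne
    · exact s.mem_of_conj_z e
    · rw [e] at cb
      exact absurd (by rw [← s.b_a, ← cb, mul_inv_cancel_right]) s.az_ne_a
    · rw [e] at cb
      have := s.b_az
      rw [← cb, mul_inv_cancel_right] at this
      exact absurd this s.az_ne_a
  have m2 := (s.mem_T.1 ((mem_normalizer_iff.1 hn _).1 tT)).2
  rw [s.φ_conj nH ht, et] at m2
  exact s.mem_T.2 ⟨nH, F_NT _ (W.mem _) m2⟩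

theorem exists_sylow : ∃ S : Sylow 2 G, (S : Subgroup G) = s.T := by
  have : Fact (Nat.Prime 2) := ⟨Nat.prime_two⟩
  obtain ⟨S, hS⟩ := s.T_pgroup.exists_le_sylow
  refine ⟨S, (eq_of_le_of_not_lt hS fun h => ?_).symm⟩
  exact (GT.Tr.lt_inf_normalizer S.isPGroup' h).not_ge fun n hn => s.norm_T hn.2

theorem odd_index_H : ¬ 2 ∣ s.H.index := by
  have : Fact (Nat.Prime 2) := ⟨Nat.prime_two⟩
  obtain ⟨S, hS⟩ := s.exists_sylow
  exact fun h => S.not_dvd_index (h.trans (index_dvd_of_le (hS ▸ s.T_le_H)))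

theorem H_ne_top (hns : ¬ Group.IsSolvable G) : s.H ≠ ⊤ := fun h => by
  have : Group.IsSolvable s.H := s.solv
  exact hns (Group.isSolvable_of_surjective (f := s.H.subtype) fun g => ⟨⟨g, h ▸ mem_top g⟩, rfl⟩)

theorem exists_conj (hns : ¬ Group.IsSolvable G) :
    ∃ g, g * s.z * g⁻¹ ∈ s.H ∧ g * s.z * g⁻¹ ≠ s.z := by
  by_contra hcon
  push Not at hcon
  obtain ⟨S, hS⟩ := s.exists_sylow
  obtain ⟨N, hN, ho, hc⟩ := S0215.result S s.z s.orderOf_z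
    (show s.z ∈ (S : Subgroup G) from hS ▸ s.U_le_T (s.V_le_U s.z_mem_V))
    fun g hg => hcon g (s.T_le_H (hS ▸ hg))
  have hb : N = ⊥ := le_bot_iff.1 (s.oddCore_bot hns ▸ GT.le_oddCore ho)
  refine s.H_ne_top hns (eq_top_iff.2 fun g _ => s.mem_H.2 ?_)
  have := hc g
  rw [hb, mem_bot, mul_inv_eq_one, mul_inv_eq_iff_eq_mul] at this
  exact this.symm

omit [Finite G] in
theorem conj_sq (g : G) {c : G} (hc : c * c = 1) : g * c * g⁻¹ * (g * c * g⁻¹) = 1 := by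
  rw [conj_mul, hc]; group

omit [Finite G] in
/-- if `z^g ∈ H \ U` then `z^(g⁻¹) ∈ U` -/
theorem flip_U {g : G} (hH : g * s.z * g⁻¹ ∈ s.H) (hU : g * s.z * g⁻¹ ∉ s.U) :
    g⁻¹ * s.z * g ∈ s.U := by
  have hU' : inU (s.φ (g * s.z * g⁻¹)).1 = false :=
    Bool.eq_false_iff.2 fun h => hU (s.mem_U.2 ⟨hH, h⟩)
  obtain ⟨c, -, hc, d, -, hd, e⟩ := F1 _ (W.mem _) (s.φ_sq hH (conj_sq g s.zz)) hU'
  have k : ∀ c, app (s.φ (g * s.z * g⁻¹)).1 c = c → g⁻¹ * s.ι c * g ∈ s.H := fun c hc => by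
    have := s.act' hH c
    rw [hc] at this
    rw [mem_H]
    calc g⁻¹ * s.ι c * g * s.z = g⁻¹ * (s.ι c * (g * s.z * g⁻¹)) * g := by group
      _ = s.z * (g⁻¹ * s.ι c * g) := by rw [← mul_inv_eq_iff_eq_mul.1 this]; group
  have e2 : g⁻¹ * s.ι c * g * (g⁻¹ * s.ι d * g) * (g⁻¹ * s.ι c * g)⁻¹ * (g⁻¹ * s.ι d * g)⁻¹ =
      g⁻¹ * s.z * g := by
    rw [← s.ι_z, ← e]; simp only [map_mul, map_inv]; group
  rw [← e2]
  refine s.comm_mem_U (k c hc) (k d hd) ?_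
  rw [e2]
  simpa only [inv_inv] using conj_sq g⁻¹ s.zz

omit [Finite G] in
theorem flip_conj {c : G} (hc : c ∈ s.H) {e : Cl} (he : app (s.φ c).1 e = e * cz) :
    s.ι e * c * (s.ι e)⁻¹ = c * s.z := by
  have h1 := s.act' hc e
  rw [he, map_mul, s.ι_z, mul_inv_eq_iff_eq_mul] at h1
  have h2 := s.mem_H.1 hc
  have h3 := s.mem_H.1 (s.ι_mem e)
  rw [mul_inv_eq_iff_eq_mul, mul_assoc, ← h3, ← mul_assoc, h1, mul_assoc (s.ι e), ← h2,
    mul_assoc, mul_assoc c, s.zz, mul_one]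

omit [Finite G] in
theorem conj_fib {c c' : G} (hc : c ∈ s.H) (hc' : c' ∈ s.H) (h : s.φ c' = s.φ c) {e : Cl}
    (he : app (s.φ c).1 e = e * cz) : ∃ k ∈ s.H, k * c * k⁻¹ = c' := by
  rcases s.fib hc' hc h with rfl | rfl
  · exact ⟨1, one_mem _, by group⟩
  · exact ⟨_, s.ι_mem e, s.flip_conj hc he⟩

omit [Finite G] in
theorem conj_cls {c c' : G} (hc : c ∈ s.H) (hc' : c' ∈ s.H) {r : R} (hr : r ∈ LR)
    (h : mul r (s.φ c).1 = mul (s.φ c').1 r) {e : Cl}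
    (he : app (s.φ c).1 e = e * cz) : ∃ k ∈ s.H, k * c * k⁻¹ = c' := by
  obtain ⟨k, hk, ek⟩ := s.surj (mkW r hr)
  have e1 : s.φ (k⁻¹ * c' * k⁻¹⁻¹) = s.φ c := by
    rw [s.φ_conj (s.H.inv_mem hk) hc', s.φ_inv hk, ek, inv_inv, mul_assoc,
      ← show mkW r hr * s.φ c = s.φ c' * mkW r hr from W.ext h, inv_mul_cancel_left]
  obtain ⟨k', hk', e2⟩ := s.conj_fib hc (s.H.mul_mem (s.H.mul_mem (s.H.inv_mem hk) hc')
    (s.H.inv_mem (s.H.inv_mem hk))) e1 he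
  refine ⟨k * k', s.H.mul_mem hk hk', ?_⟩
  calc k * k' * c * (k * k')⁻¹ = k * (k' * c * k'⁻¹) * k⁻¹ := by group
    _ = c' := by rw [e2]; group

omit [Finite G] in
theorem lift_comm {c : G} (hc : c ∈ s.H) {w : W} (hw : w * s.φ c = s.φ c * w) {e : Cl}
    (he : app (s.φ c).1 e = e * cz) :
    ∃ r ∈ s.H, r * c * r⁻¹ = c ∧ (s.φ r = w ∨ s.φ r = w * inn e) := by
  obtain ⟨k, hk, ek⟩ := s.surj w
  have e1 : s.φ (k * c * k⁻¹) = s.φ c := by rw [s.φ_conj hk hc, ek, hw, mul_inv_cancel_right]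
  rcases s.fib (s.H.mul_mem (s.H.mul_mem hk hc) (s.H.inv_mem hk)) hc e1 with e2 | e2
  · exact ⟨k, hk, e2, Or.inl ek⟩
  · refine ⟨k * s.ι e, s.H.mul_mem hk (s.ι_mem e), ?_,
      Or.inr (by rw [s.φm hk (s.ι_mem e), ek, φ_ι])⟩
    calc k * s.ι e * c * (k * s.ι e)⁻¹ = k * (s.ι e * c * (s.ι e)⁻¹) * k⁻¹ := by group
      _ = k * c * k⁻¹ * (k * s.z * k⁻¹) := by rw [s.flip_conj hc he]; group
      _ = c := by rw [e2, s.conj_z hk, mul_assoc, s.zz, mul_one]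

omit [Finite G] in
/-- every element over a permutation-type involution is conjugate to a fixed one -/
theorem pt_conj {v u : G} (hv : v ∈ s.H) (ev : s.φ v = pW) (hu : u ∈ s.H)
    (pu : pt (s.φ u).1 = true) : ∃ k ∈ s.H, k * v * k⁻¹ = u := by
  obtain ⟨r, hr, e⟩ := F4 _ (W.mem _) pu
  exact s.conj_cls hv hu hr (by rw [ev]; exact e) (e := e12) (by rw [ev]; decide)

omit [Finite G] in
theorem za_of_zv {g v : G} (hv : v ∈ s.H) (ev : s.φ v = pW) (hg : g * s.z * g⁻¹ = v) :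
    IsConj s.z s.a := by
  have v2 : v * v = 1 := hg ▸ conj_sq g s.zz
  have cv : ∀ y, y * v = v * y → g⁻¹ * y * g ∈ s.H := fun y e => by
    rw [mem_H]
    calc g⁻¹ * y * g * s.z = g⁻¹ * (y * (g * s.z * g⁻¹)) * g := by group
      _ = s.z * (g⁻¹ * y * g) := by rw [hg, e, ← hg]; group
  have va : v * s.a = s.a * v := (s.dt_false_iff hv).1 (by rw [ev]; decide)
  have ma := cv _ va.symm
  obtain ⟨u, hu, cu, eu⟩ := s.lift_comm hv (w := uW) (by rw [ev]; decide) (e := e12)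
    (by rw [ev]; decide)
  have du : dt (s.φ u).1 = true := by rcases eu with e | e <;> rw [e] <;> decide
  have mu := cv _ (mul_inv_eq_iff_eq_mul.1 cu)
  have e1 : g⁻¹ * u * g * (g⁻¹ * s.a * g) * (g⁻¹ * u * g)⁻¹ * (g⁻¹ * s.a * g)⁻¹ =
      g⁻¹ * s.z * g := by
    calc _ = g⁻¹ * (u * s.a * u⁻¹ * s.a⁻¹) * g := by group
      _ = _ := by rw [s.conj_a_of_dt hu du, s.conj_z s.a_mem]
  have zU : g⁻¹ * s.z * g ∈ s.U := by
    rw [← e1]
    refine s.comm_mem_U mu ma ?_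
    rw [e1]
    simpa only [inv_inv] using conj_sq g⁻¹ s.zz
  have mH : g * s.a * g⁻¹ ∈ s.H := by
    have := (s.mem_H0'.1 (s.U_le_H0 zU)).2
    rw [mem_H]
    calc g * s.a * g⁻¹ * s.z = g * (s.a * (g⁻¹ * s.z * g)) * g⁻¹ := by group
      _ = s.z * (g * s.a * g⁻¹) := by rw [← this]; group
  have a2 := conj_sq g s.aa
  have d0 : dt (s.φ (g * s.a * g⁻¹)).1 = false := by
    by_contra hd
    have h1 := s.conj_a_of_dt mH (Bool.eq_true_of_not_eq_false hd)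
    have h2 := s.conj_a ma
    have h3 : g⁻¹ * s.a * g * s.a * (g⁻¹ * s.a * g)⁻¹ = g⁻¹ * s.z * g * s.a := by
      have ai : s.a⁻¹ = s.a := inv_eq_of_mul_eq_one_right s.aa
      have h4 : s.a * (g * s.a * g⁻¹) * s.a = s.z * (g * s.a * g⁻¹) := by
        calc s.a * (g * s.a * g⁻¹) * s.a
            = s.a * (g * s.a * g⁻¹ * s.a * (g * s.a * g⁻¹)⁻¹) * (g * s.a * g⁻¹) := by group
          _ = s.z * (g * s.a * g⁻¹) := by rw [h1, ← mul_assoc s.a s.a, s.aa, one_mul]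
      calc _ = g⁻¹ * (s.a * (g * s.a * g⁻¹) * s.a⁻¹) * g := by group
        _ = _ := by rw [ai, h4]; group
    rw [h3] at h2
    cases hd2 : dt (s.φ (g⁻¹ * s.a * g)).1 <;> rw [hd2] at h2
    · have : g⁻¹ * s.z * g⁻¹⁻¹ = 1 := by
        rw [inv_inv]; exact mul_right_cancel (h2.trans (one_mul _).symm)
      exact s.z_ne (conj_eq_one_iff.1 this)
    · have h5 : g⁻¹ * s.z * g = s.z :=
        mul_right_cancel (h2.trans (s.mem_H.1 s.a_mem))
      have h6 : v = s.z := by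
        rw [← hg]
        conv_lhs => rw [← h5]
        group
      rw [h6, φ_z] at ev
      exact absurd ev (by decide)
  have cva : g * s.a * g⁻¹ * v = v * (g * s.a * g⁻¹) := by
    rw [← hg, conj_mul, conj_mul, s.mem_H.1 s.a_mem]
  have aU : g * s.a * g⁻¹ ∈ s.U := s.mem_U.2 ⟨mH, F5 _ (W.mem _) (s.φ_sq mH a2) d0
    (by have := s.φ_comm mH hv cva; rwa [ev] at this)⟩
  have zv : IsConj s.z v := isConj_iff.2 ⟨g, hg⟩
  have aa' : IsConj s.a (g * s.a * g⁻¹) := isConj_iff.2 ⟨g, rfl⟩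
  have fin : ∀ y ∈ s.U, y * y = 1 → y ∉ s.V → IsConj s.z y := fun y hy y2 yV => by
    obtain ⟨k, -, e⟩ := s.pt_conj hv ev (s.U_le_H hy) (s.pt_of hy y2 yV)
    exact zv.trans (isConj_iff.2 ⟨k, e⟩)
  have vU : v ∈ s.U := s.mem_U.2 ⟨hv, by rw [ev]; decide⟩
  have vV : v ∉ s.V := fun h => absurd (s.mem_V'.1 h).2 (by rw [ev]; decide)
  by_cases hV : g * s.a * g⁻¹ ∈ s.V
  · have h7 : IsConj s.a (g * s.a * g⁻¹ * v) :=
      (isConj_iff.2 ⟨_, s.b_a⟩).trans (isConj_iff.2 ⟨g, by rw [← hg, conj_mul]⟩)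
    refine (fin _ (s.U.mul_mem aU vU) ?_ fun h => vV ?_).trans h7.symm
    · rw [mul_assoc _ v, ← mul_assoc v, ← cva, mul_assoc _ v, v2, mul_one, a2]
    · exact (s.V.mul_mem_cancel_left hV).1 h
  · exact (fin _ aU a2 hV).trans aa'.symm

theorem z_conj_a (hns : ¬ Group.IsSolvable G) : IsConj s.z s.a := by
  obtain ⟨g, hg, hz⟩ : ∃ g, g * s.z * g⁻¹ ∈ s.U ∧ g * s.z * g⁻¹ ≠ s.z := by
    obtain ⟨g, h1, h2⟩ := s.exists_conj hns
    by_cases hU : g * s.z * g⁻¹ ∈ s.U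
    · exact ⟨g, hU, h2⟩
    · refine ⟨g⁻¹, by simpa only [inv_inv] using s.flip_U h1 hU, fun e => h2 ?_⟩
      conv_lhs => rw [← e]
      group
  by_cases hV : g * s.z * g⁻¹ ∈ s.V
  · rcases s.mem_V.1 hV with e | e | e | e
    · exact absurd (conj_eq_one_iff.1 e) s.z_ne
    · exact absurd e hz
    · exact isConj_iff.2 ⟨g, e⟩
    · exact (isConj_iff.2 ⟨g, e⟩).trans (isConj_iff.2 ⟨_, s.b_az⟩)
  · have hH := s.U_le_H hg
    obtain ⟨r, hr, e⟩ := F4 _ (W.mem _) (s.pt_of hg (conj_sq g s.zz) hV)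
    obtain ⟨k, hk, ek⟩ := s.surj (mkW r hr)
    refine s.za_of_zv (g := k⁻¹ * g) (v := k⁻¹ * (g * s.z * g⁻¹) * k⁻¹⁻¹)
      (s.H.mul_mem (s.H.mul_mem (s.H.inv_mem hk) hH) (s.H.inv_mem (s.H.inv_mem hk))) ?_ (by group)
    rw [s.φ_conj (s.H.inv_mem hk) hH, s.φ_inv hk, ek, inv_inv, mul_assoc,
      ← show mkW r hr * pW = s.φ (g * s.z * g⁻¹) * mkW r hr from W.ext e, inv_mul_cancel_left]

end Cfsg.Agent.Inv.AL4.St
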