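import Mathlib
import Cfsg.Agent.Inv.AL4E
import Cfsg.Agent.GT.PiGroups
import Cfsg.Agent.Inv.Counting
import Cfsg.Agent.Perm.FixTools

/-! Centraliser `2^(1+4)_-.S4`: the normaliser of the four-group `V` gives the missing
involutions. -/

set_option autoImplicit false

namespace Cfsg.Agent.Inv.AL4

open R Subgroup

theorem U_conj : ∀ r ∈ LR, ∀ u ∈ LU, inU (mul (mul r u) (inv r)) = true := by decide +kernel

/-- extra letters -/
structure Ex {G : Type*} [Group G] (s : St G) where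
  x : G
  y : G
  v : G
  σ : G
  x_mem : x ∈ s.H
  φ_x : s.φ x = xW
  x3 : x ^ 3 = 1
  y_mem : y ∈ normalizer (s.V : Set G)
  y_z : y * s.z * y⁻¹ = s.a * s.z
  y_a : y * s.a * y⁻¹ = s.z
  y9 : y ^ 9 = 1
  v_mem : v ∈ s.H
  φ_v : s.φ v = pW
  vv : v * v = 1
  σ_mem : σ ∈ s.H
  φ_σ : s.φ σ = sW
  σσ : σ * σ = 1

namespace St

variable {G : Type*} [Group G] (s : St G)

theorem conj_U {h u : G} (hh : h ∈ s.H) (hu : u ∈ s.U) : h * u * h⁻¹ ∈ s.U := by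
  have uH := s.U_le_H hu
  refine s.mem_U.2 ⟨s.H.mul_mem (s.H.mul_mem hh uH) (s.H.inv_mem hh), ?_⟩
  rw [s.φ_conj hh uH]
  exact U_conj _ (W.mem _) _ (mem_LU _ (W.mem _) (s.mem_U.1 hu).2)

theorem pow_four {u : G} (hu : u ∈ s.U) : u ^ 4 = 1 := by
  rw [show 4 = 2 * 2 from rfl, pow_mul, pow_two, pow_two]; exact s.V_sq (s.sq_mem_V hu)

theorem nv_H0 {n h : G} (hn : n ∈ normalizer (s.V : Set G)) (hh : h ∈ s.H0) :
    n * h * n⁻¹ ∈ s.H0 := by
  have k : ∀ v ∈ s.V, n * h * n⁻¹ * v = v * (n * h * n⁻¹) := fun v hv => by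
    have := s.V_comm hh ((mem_normalizer_iff''.1 hn _).1 hv)
    calc n * h * n⁻¹ * v = n * (h * (n⁻¹ * v * n)) * n⁻¹ := by group
      _ = _ := by rw [this]; group
  exact s.mem_H0'.2 ⟨k _ s.z_mem_V, k _ s.a_mem_V⟩

theorem nv_U {n u : G} (hn : n ∈ normalizer (s.V : Set G)) (hu : u ∈ s.U) :
    n * u * n⁻¹ ∈ s.U := by
  have m := s.nv_H0 hn (s.U_le_H0 hu)
  have p8 : ∀ e ∈ s.U, n * e * n⁻¹ ∈ s.H → sq (sq (sq (s.φ (n * e * n⁻¹)).1)) = R.one :=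
    fun e he hH => by
      rw [← pow_eight, ← s.φ_pow hH, conj_pow, show 8 = 4 * 2 from rfl, pow_mul, s.pow_four he,
        one_pow, mul_one, mul_inv_cancel, s.φ_one]; rfl
  refine s.mem_U.2 ⟨m.1, F_norm _ (W.mem _) (fun r hr => ?_) (p8 u hu m.1) m.2⟩
  have hr' : r ∈ LR ∧ dt r = false := by
    revert r; decide +kernel
  obtain ⟨k, hk, ek⟩ := s.surj (mkW r hr'.1)
  have k0 : k ∈ s.H0 := s.mem_H0.2 ⟨hk, by rw [ek]; exact hr'.2⟩
  have k1 : n⁻¹ * k * n⁻¹⁻¹ ∈ s.H0 := s.nv_H0 ((normalizer _).inv_mem hn) k0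
  have e1 : n * (u * (n⁻¹ * k * n⁻¹⁻¹ * u * (n⁻¹ * k * n⁻¹⁻¹)⁻¹)) * n⁻¹ =
      n * u * n⁻¹ * (k * (n * u * n⁻¹) * k⁻¹) := by group
  have m2 : k * (n * u * n⁻¹) * k⁻¹ ∈ s.H := s.H.mul_mem (s.H.mul_mem hk m.1) (s.H.inv_mem hk)
  have := p8 _ (s.U.mul_mem hu (s.conj_U k1.1 hu)) (e1 ▸ s.H.mul_mem m.1 m2)
  rw [e1, s.φm m.1 m2, s.φ_conj hk m.1, ek] at this
  exact this

theorem ord3_unique {h k : G} (hh : h ∈ s.H) (hk : k ∈ s.H) (e : s.φ h = s.φ k) (h3 : h ^ 3 = 1)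
    (k3 : k ^ 3 = 1) : h = k := by
  rcases s.fib hh hk e with e | e
  · exact e
  · rw [e, (show Commute k s.z from s.mem_H.1 hk).mul_pow, k3, one_mul, pow_succ, pow_two, s.zz,
      one_mul] at h3
    exact absurd h3 s.z_ne

theorem exists_x : ∃ x ∈ s.H, s.φ x = xW ∧ x ^ 3 = 1 := by
  obtain ⟨k, hk, ek⟩ := s.surj xW
  refine ⟨k ^ 4, s.H.pow_mem hk 4, by rw [s.φ_pow hk, ek]; decide +kernel, ?_⟩
  rw [← pow_mul, show 4 * 3 = 3 * 2 * 2 from rfl, pow_mul,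
    s.pow_two_mul hk (by rw [ek]; decide +kernel), one_pow]

theorem H0_le_nv : s.H0 ≤ normalizer (s.V : Set G) := fun h hh =>
  mem_normalizer_iff.2 fun v => ⟨fun hv => by rw [s.V_comm hh hv, mul_inv_cancel_right]; exact hv,
    fun hv => by
      have := s.V_comm (s.H0.inv_mem hh) hv
      rw [show v = h * v * h⁻¹ by
        calc v = h⁻¹ * (h * v * h⁻¹) * h := by group
          _ = _ := by rw [this]; group]
      exact hv⟩

theorem cent_x {x h : G} (hx : x ∈ s.H) (ex : s.φ x = xW) (x3 : x ^ 3 = 1) (hh : h ∈ s.H0)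
    (c : h * x = x * h) : ∃ v ∈ s.V, ∃ i : ℕ, h = v * x ^ i := by
  have c2 := s.φ_comm hh.1 hx c
  rw [ex] at c2
  have hx1 := s.H.mul_mem hh.1 hx
  rcases F_Cx _ (W.mem _) hh.2 c2 with e | e | e
  · exact ⟨h, s.mem_V'.2 ⟨hh.1, e⟩, 0, by simp⟩
  · refine ⟨h * x, s.mem_V'.2 ⟨hx1, by rw [s.φm hh.1 hx, ex]; exact e⟩, 2, ?_⟩
    rw [mul_assoc, ← pow_succ', x3, mul_one]
  · refine ⟨h * x * x, s.mem_V'.2 ⟨s.H.mul_mem hx1 hx,
      by rw [s.φm hx1 hx, s.φm hh.1 hx, ex]; exact e⟩, 1, ?_⟩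
    rw [pow_one, mul_assoc, mul_assoc, ← pow_three, x3, mul_one]

variable [Finite G]

theorem exists_n (hza : IsConj s.z s.a) :
    ∃ n, n * s.a * n⁻¹ = s.a ∧ n * s.z * n⁻¹ = s.a * s.z := by
  let C := centralizer ({s.a} : Set G)
  have le : s.H0 ≤ C := fun h hh => mem_centralizer_singleton_iff.2 (s.mem_H0'.1 hh).2
  have c0 := GT.card_mul_relIndex (show s.H0 ≤ s.H from fun _ h => h.1)
  have c1 := GT.card_mul_relIndex le
  rw [s.relIndex_H0, s.card_H] at c0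
  rw [← Inv.card_centralizer_eq_of_isConj hza, show Nat.card s.H0 = 384 by omega] at c1
  have c2 : s.H0.relIndex C = 2 := by
    have := s.card_H
    unfold H at this
    omega
  have hN : (s.H0.subgroupOf C).Normal := normal_of_index_eq_two c2
  obtain ⟨n, hn, hn0⟩ : ∃ n ∈ C, n ∉ s.H0 := by
    by_contra h
    push Not at h
    rw [relIndex_eq_one.2 h] at c2
    exact absurd c2 (by decide)
  have na : n * s.a * n⁻¹ = s.a := by
    rw [mem_centralizer_singleton_iff.1 hn, mul_inv_cancel_right]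
  have st : ∀ m ∈ C, ∀ h ∈ s.H0, m * h * m⁻¹ ∈ s.H0 := fun m hm h hh =>
    hN.conj_mem ⟨h, le hh⟩ hh ⟨m, hm⟩
  have z0 : s.z ∈ s.H0 := s.U_le_H0 (s.V_le_U s.z_mem_V)
  have m := st n hn _ z0
  have c : ∀ h ∈ s.H0, n * s.z * n⁻¹ * h = h * (n * s.z * n⁻¹) := fun h hh => by
    have := (s.mem_H0'.1 (st _ (C.inv_mem hn) h hh)).1
    calc n * s.z * n⁻¹ * h = n * (s.z * (n⁻¹ * h * n⁻¹⁻¹)) * n⁻¹ := by group
      _ = _ := by rw [← this]; group
  obtain ⟨x, hx, ex⟩ := s.surj xW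
  obtain ⟨p, hp, ep⟩ := s.surj pW
  have h1 := s.φ_comm m.1 hx (c x <| s.mem_H0.2 ⟨hx, by rw [ex]; decide⟩)
  have h2 := s.φ_comm m.1 hp (c p <| s.mem_H0.2 ⟨hp, by rw [ep]; decide⟩)
  rw [ex] at h1
  rw [ep] at h2
  rcases s.mem_V.1 (s.mem_V'.2 ⟨m.1, F_ZW _ (W.mem _) h1 h2⟩) with e | e | e | e
  · exact absurd (conj_eq_one_iff.1 e) s.z_ne
  · exact absurd (s.mem_H0'.2 ⟨s.mem_H.1 (s.mem_of_conj_z e),
      mem_centralizer_singleton_iff.1 hn⟩) hn0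
  · exact absurd (mul_left_cancel (mul_right_cancel (e.trans na.symm))) s.a_ne_z.symm
  · exact ⟨n, na, e⟩

theorem nv_of {y : G} (h1 : y * s.z * y⁻¹ ∈ s.V) (h2 : y * s.a * y⁻¹ ∈ s.V) :
    y ∈ normalizer (s.V : Set G) := by
  refine mem_normalizer_fintype fun v hv => ?_
  rcases s.mem_V.1 hv with rfl | rfl | rfl | rfl
  · simp
  · exact h1
  · exact h2
  · rw [← conj_mul]; exact s.V.mul_mem h2 h1

theorem exists_y (hza : IsConj s.z s.a) {x : G} (hx : x ∈ s.H) (ex : s.φ x = xW)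
    (x3 : x ^ 3 = 1) : ∃ y ∈ normalizer (s.V : Set G), y * s.z * y⁻¹ = s.a * s.z ∧
      y * s.a * y⁻¹ = s.z ∧ y * x = x * y ∧ y ^ 9 = 1 := by
  obtain ⟨n, na, nz⟩ := s.exists_n hza
  have azV : s.a * s.z ∈ s.V := s.V.mul_mem s.a_mem_V s.z_mem_V
  have e1 : n * s.b * s.z * (n * s.b)⁻¹ = s.a * s.z := by
    rw [← nz]
    conv_rhs => rw [← s.conj_z s.b_mem]
    group
  have e2 : n * s.b * s.a * (n * s.b)⁻¹ = s.z := by
    calc _ = n * (s.b * s.a * s.b⁻¹) * n⁻¹ := by group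
      _ = _ := by rw [s.b_a, ← conj_mul, na, nz, ← mul_assoc, s.aa, one_mul]
  have y0 := s.nv_of (e1 ▸ azV) (e2 ▸ s.z_mem_V)
  have x0 : x ∈ s.H0 := s.mem_H0.2 ⟨hx, by rw [ex]; decide⟩
  have m := s.nv_H0 y0 x0
  have m3 : (n * s.b * x * (n * s.b)⁻¹) ^ 3 = 1 := by rw [conj_pow, x3]; group
  have m1 : (s.φ (n * s.b * x * (n * s.b)⁻¹)).1 ≠ R.one := fun e => by
    rcases s.ker _ m.1 (W.ext e) with e | e
    · rw [conj_eq_one_iff.1 e, s.φ_one] at ex; exact absurd ex (by decide)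
    · rw [e, pow_succ, pow_two, s.zz, one_mul] at m3; exact s.z_ne m3
  obtain ⟨r, hr, dr, er⟩ := F_ord3 _ (W.mem (s.φ (n * s.b * x * (n * s.b)⁻¹))) (by
    have := congrArg Subtype.val (s.φ_pow m.1 3)
    rw [m3, s.φ_one, pow_three] at this
    exact this.symm) m1
  obtain ⟨k, hk, ek⟩ := s.surj (mkW r hr)
  have k0 : k ∈ s.H0 := s.mem_H0.2 ⟨hk, by rw [ek]; exact dr⟩
  have e3 : k * (n * s.b * x * (n * s.b)⁻¹) * k⁻¹ = x :=
    s.ord3_unique (s.H.mul_mem (s.H.mul_mem hk m.1) (s.H.inv_mem hk)) hx (by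
      rw [s.φ_conj hk m.1, ek, ex, mul_inv_eq_iff_eq_mul]; exact W.ext er)
      (by rw [conj_pow, m3]; group) x3
  obtain ⟨w, hw⟩ : ∃ w, w = k * (n * s.b) := ⟨_, rfl⟩
  have wn : w ∈ normalizer (s.V : Set G) := hw ▸ (normalizer _).mul_mem (s.H0_le_nv k0) y0
  have wz : w * s.z * w⁻¹ = s.a * s.z := by
    calc _ = k * (n * s.b * s.z * (n * s.b)⁻¹) * k⁻¹ := by rw [hw]; group
      _ = _ := by rw [e1, s.V_comm k0 azV, mul_inv_cancel_right]
  have wa : w * s.a * w⁻¹ = s.z := by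
    calc _ = k * (n * s.b * s.a * (n * s.b)⁻¹) * k⁻¹ := by rw [hw]; group
      _ = _ := by rw [e2, s.conj_z hk]
  have waz : w * (s.a * s.z) * w⁻¹ = s.a := by
    rw [← conj_mul, wa, wz, ← s.mem_H.1 (s.H.mul_mem s.a_mem s.z_mem), mul_assoc, s.zz, mul_one]
  have wx : Commute w x := by
    show w * x = x * w
    conv_rhs => rw [← e3]
    rw [hw]; group
  have c3 : ∀ t, w ^ 3 * t * (w ^ 3)⁻¹ = w * (w * (w * t * w⁻¹) * w⁻¹) * w⁻¹ := fun t => by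
    rw [pow_three]; group
  have w3 : w ^ 3 ∈ s.H0 := s.mem_H0'.2
    ⟨mul_inv_eq_iff_eq_mul.1 (by rw [c3, wz, waz, wa]),
      mul_inv_eq_iff_eq_mul.1 (by rw [c3, wa, wz, waz])⟩
  obtain ⟨v, hv, i, e4⟩ := s.cent_x hx ex x3 w3 (wx.pow_left 3).eq
  have w18 : w ^ 18 = 1 := by
    rw [show 18 = 3 * 6 from rfl, pow_mul, e4,
      (show Commute v (x ^ i) from (s.V_comm (s.H0.pow_mem x0 i) hv).symm).mul_pow,
      show 6 = 2 * 3 from rfl, pow_mul, pow_two, s.V_sq hv, one_pow, one_mul, ← pow_mul,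
      show i * (2 * 3) = 3 * (i * 2) by ring, pow_mul, x3, one_pow]
  have c4 : ∀ t, w ^ 4 * t * (w ^ 4)⁻¹ = w * (w ^ 3 * t * (w ^ 3)⁻¹) * w⁻¹ := fun t => by
    rw [pow_succ' w 3]; group
  refine ⟨w ^ 4, (normalizer _).pow_mem wn 4, ?_, ?_, (wx.pow_left 4).eq, ?_⟩
  · rw [c4, s.V_comm w3 s.z_mem_V, mul_inv_cancel_right, wz]
  · rw [c4, s.V_comm w3 s.a_mem_V, mul_inv_cancel_right, wa]
  · rw [← pow_mul, show 4 * 9 = 18 * 2 from rfl, pow_mul, w18, one_pow]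

omit [Finite G] in
theorem exists_σ {x y : G} (hx : x ∈ s.H) (ex : s.φ x = xW) (x3 : x ^ 3 = 1)
    (hy : y ∈ normalizer (s.V : Set G)) (yz : y * s.z * y⁻¹ = s.a * s.z) (yx : y * x = x * y) :
    ∃ σ ∈ s.H, s.φ σ = sW ∧ σ * σ = 1 := by
  obtain ⟨σ, hσ, eσ⟩ := s.surj sW
  refine ⟨σ, hσ, eσ, ?_⟩
  have σ0 : σ ∈ s.H0 := s.mem_H0.2 ⟨hσ, by rw [eσ]; decide⟩
  have x0 : x ∈ s.H0 := s.mem_H0.2 ⟨hx, by rw [ex]; decide⟩
  have i1 : σ * x * σ⁻¹ = x⁻¹ :=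
    s.ord3_unique (s.H.mul_mem (s.H.mul_mem hσ hx) (s.H.inv_mem hσ)) (s.H.inv_mem hx)
      (by rw [s.φ_conj hσ hx, s.φ_inv hx, eσ, ex]; decide +kernel)
      (by rw [conj_pow, x3]; group) (by rw [inv_pow, x3, inv_one])
  have i2 : σ⁻¹ * x * σ = x⁻¹ := by
    calc σ⁻¹ * x * σ = (σ⁻¹ * x⁻¹ * σ)⁻¹ := by group
      _ = (σ⁻¹ * (σ * x * σ⁻¹) * σ)⁻¹ := by rw [i1]
      _ = _ := by group
  have m := s.nv_H0 hy σ0
  have yx' : y⁻¹ * x * y = x := by rw [mul_assoc, ← yx, inv_mul_cancel_left]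
  have i3 : y * σ * y⁻¹ * x = x⁻¹ * (y * σ * y⁻¹) := by
    calc y * σ * y⁻¹ * x = y * (σ * (y⁻¹ * x * y) * σ⁻¹) * σ * y⁻¹ := by group
      _ = (y * x * y⁻¹)⁻¹ * (y * σ * y⁻¹) := by rw [yx', i1]; group
      _ = _ := by rw [yx, mul_inv_cancel_right]
  obtain ⟨v, hv, i, e⟩ := s.cent_x hx ex x3 (s.H0.mul_mem (s.H0.inv_mem σ0) m) (by
    calc σ⁻¹ * (y * σ * y⁻¹) * x = (σ⁻¹ * x * σ)⁻¹ * σ⁻¹ * (y * σ * y⁻¹) := by
          rw [mul_assoc, i3]; group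
      _ = _ := by rw [i2]; group)
  have e2 : y * (σ * σ) * y⁻¹ = σ * σ := by
    have e3 : y * σ * y⁻¹ = σ * (v * x ^ i) := by rw [← e]; group
    have e4 : σ⁻¹ * x ^ i * σ = (x ^ i)⁻¹ := by
      have := conj_pow (i := i) (a := σ⁻¹) (b := x)
      rw [inv_inv, i2, inv_pow] at this; exact this.symm
    have e5 := s.V_comm σ0 hv
    have e6 := s.V_comm (s.H0.inv_mem (s.H0.pow_mem x0 i)) hv
    rw [← conj_mul, e3]
    calc σ * (v * x ^ i) * (σ * (v * x ^ i)) = σ * (v * σ) * ((σ⁻¹ * x ^ i * σ) * v) * x ^ i := by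
          group
      _ = σ * σ * (v * v) := by rw [e4, e6, ← e5]; group
      _ = _ := by rw [s.V_sq hv, mul_one]
  rcases s.ker _ (s.H.mul_mem hσ hσ) (by rw [s.φm hσ hσ, eσ]; decide +kernel) with e | e
  · exact e
  · rw [e, yz] at e2; exact absurd e2 s.az_ne_z

omit [Finite G] in
theorem fix_V {p c : G} (hp : p ∈ normalizer (s.V : Set G)) (p9 : p ^ 9 = 1) (hc : c ∈ s.V)
    (c1 : c ≠ 1) (e : p * c * p⁻¹ = c) : p ∈ s.H0 := by
  have st : ∀ t ∈ s.V, p * t * p⁻¹ ∈ s.V := fun t ht => (mem_normalizer_iff.1 hp _).1 ht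
  have sq : ∀ t, p * (p * t * p⁻¹) * p⁻¹ = t → p * t = t * p := fun t h => by
    have c2 : Commute (p ^ 2) t := by
      show p ^ 2 * t = t * p ^ 2
      conv_rhs => rw [← h]
      rw [pow_two]; group
    have := c2.pow_left 5
    rwa [← pow_mul, show 2 * 5 = 9 + 1 from rfl, pow_succ, p9, one_mul] at this
  have inj : ∀ t t', p * t * p⁻¹ = p * t' * p⁻¹ → t = t' := fun t t' h =>
    mul_left_cancel (mul_right_cancel h)
  have az : p * (s.a * s.z) * p⁻¹ = p * s.a * p⁻¹ * (p * s.z * p⁻¹) := conj_mul.symm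
  have n1 := s.a_ne_z
  have n2 := s.az_ne_a
  have n3 := s.az_ne_z
  have za : s.z * (s.a * s.z) = s.a := by
    rw [← s.mem_H.1 (s.H.mul_mem s.a_mem s.z_mem), mul_assoc, s.zz, mul_one]
  have aaz : s.a * (s.a * s.z) = s.z := by rw [← mul_assoc, s.aa, one_mul]
  have azz : s.a * s.z * s.z = s.a := by rw [mul_assoc, s.zz, mul_one]
  have aza : s.a * s.z * s.a = s.z := by rw [s.mem_H.1 s.a_mem, mul_assoc, s.aa, mul_one]
  refine s.mem_H0'.2 ⟨sq _ ?_, sq _ ?_⟩ <;>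
  rcases s.mem_V.1 (st _ s.z_mem_V) with ez | ez | ez | ez <;>
  rcases s.mem_V.1 (st _ s.a_mem_V) with ea | ea | ea | ea <;>
  first
    | exact absurd (conj_eq_one_iff.1 ez) s.z_ne
    | exact absurd (conj_eq_one_iff.1 ea) s.a_ne_one
    | exact absurd (inj _ _ (ea.trans ez.symm)) n1
    | (simp only [ez, ea, az, za, aaz, azz, aza]; done)
    | (exfalso
       rcases s.mem_V.1 hc with rfl | rfl | rfl | rfl
       · exact c1 rfl
       · first | exact n1 (ez.symm.trans e) | exact n3 (ez.symm.trans e)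
       · first | exact n1 (e.symm.trans ea) | exact n2 (ea.symm.trans e)
       · rw [az, ez, ea] at e
         first | exact n2 (by rw [← e, za]) | exact n3 (by rw [← e, aza]))

theorem exists_v {x y : G} (hx : x ∈ s.H) (ex : s.φ x = xW) (x3 : x ^ 3 = 1)
    (hy : y ∈ normalizer (s.V : Set G)) (yz : y * s.z * y⁻¹ = s.a * s.z) (yx : y * x = x * y)
    (y9 : y ^ 9 = 1) : ∃ v ∈ s.H, s.φ v = pW ∧ v * v = 1 := by
  have : Fact (Nat.Prime 3) := ⟨Nat.prime_three⟩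
  have x0 : x ∈ s.H0 := s.mem_H0.2 ⟨hx, by rw [ex]; decide⟩
  let P := closure ({x, y} : Set G)
  have cP : IsMulCommutative P := isMulCommutative_closure (by
    rintro a (rfl | rfl) b (rfl | rfl)
    exacts [rfl, yx.symm, yx, rfl])
  have P9 : ∀ p ∈ P, p ^ 9 = 1 := fun p hp => by
    induction hp using closure_induction with
    | mem a ha =>
      rcases ha with rfl | rfl
      · rw [show 9 = 3 * 3 from rfl, pow_mul, x3, one_pow]
      · exact y9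
    | one => exact one_pow _
    | mul a b ha hb h1 h2 =>
      rw [(show Commute a b from setLike_mul_comm (s := P) ha hb).mul_pow, h1, h2, one_mul]
    | inv a _ h1 => rw [inv_pow, h1, inv_one]
  have PN : P ≤ normalizer (s.V : Set G) := (closure_le _).2 (by
    rintro a (rfl | rfl)
    exacts [s.H0_le_nv x0, hy])
  have c9 : 9 ∣ Nat.card P := by
    obtain ⟨k, hk⟩ := IsPGroup.iff_card.1 (show IsPGroup 3 P from fun p =>
      ⟨2, Subtype.ext (P9 p p.2)⟩)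
    have x1 : x ≠ 1 := fun e => by rw [e, s.φ_one] at ex; exact absurd ex (by decide)
    have lt : zpowers x < P := lt_of_le_of_ne (zpowers_le.2 (subset_closure (by simp))) fun e => by
      have : y ∈ s.H := (zpowers_le.2 hx) (e ▸ subset_closure (by simp))
      rw [s.conj_z this] at yz; exact s.az_ne_z yz.symm
    have c1 := GT.card_lt_of_lt lt
    rw [Nat.card_zpowers, orderOf_eq_prime x3 x1, hk] at c1
    rw [hk]
    refine pow_dvd_pow 3 (show 2 ≤ k from ?_)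
    by_contra h
    have : k = 0 ∨ k = 1 := by omega
    rcases this with rfl | rfl <;> omega
  obtain ⟨u, hu, uV, u2⟩ : ∃ u ∈ s.U, u ∉ s.V ∧ u * u = 1 := by
    by_contra hcon
    push Not at hcon
    have d := @Perm.Fx.card_dvd_of_semiregular G _ G
      (MulAction.compHom G (MulAut.conj : G →* MulAut G)) P ((s.U : Set G) \ s.V)
      (fun p hp u hu => ⟨s.nv_U (PN hp) hu.1,
        fun h => hu.2 ((mem_normalizer_iff.1 (PN hp) _).2 h)⟩) (fun p hp u hu e => by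
      have e' : p * u * p⁻¹ = u := e
      have p0 := s.fix_V (PN hp) (P9 p hp) (s.sq_mem_V hu.1) (hcon u hu.1 hu.2)
        (by rw [← conj_mul, e'])
      by_contra p1
      have n1 : (s.φ p).1 ≠ R.one := fun e => by
        rcases s.ker _ p0.1 (W.ext e) with e | e
        · exact p1 e
        · have := P9 p hp
          rw [e, show 9 = 2 * 4 + 1 from rfl, pow_succ, pow_mul, pow_two, s.zz, one_pow,
            one_mul] at this
          exact s.z_ne this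
      have n9 : cube (cube (s.φ p).1) = R.one := by
        have := congrArg Subtype.val (s.φ_pow p0.1 9)
        rw [P9 p hp, s.φ_one, show 9 = 3 * 3 from rfl, pow_mul, pow_three, pow_three] at this
        exact this.symm
      exact hu.2 (s.mem_V'.2 ⟨s.U_le_H hu.1, F_CU3 _ (W.mem _) (F_nine _ (W.mem _) n9) n1 _
        (mem_LU _ (W.mem _) (s.mem_U.1 hu.1).2)
        (s.φ_comm (s.U_le_H hu.1) p0.1 (mul_inv_eq_iff_eq_mul.1 e').symm)⟩))
    have c60 : Nat.card ((s.U : Set G) \ s.V : Set G) = 60 := by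
      rw [Nat.card_coe_set_eq, Set.ncard_sdiff s.V_le_U, ← Nat.card_coe_set_eq,
        ← Nat.card_coe_set_eq]
      exact (congrArg₂ _ s.card_U s.card_V).trans rfl
    rw [c60] at d
    exact absurd (c9.trans d) (by decide)
  obtain ⟨v, hv, ev⟩ := s.surj pW
  obtain ⟨k, -, e⟩ := s.pt_conj hv ev (s.U_le_H hu) (s.pt_of hu u2 uV)
  refine ⟨v, hv, ev, ?_⟩
  rw [← e, conj_mul] at u2
  exact conj_eq_one_iff.1 u2

theorem exists_Ex (hns : ¬ Group.IsSolvable G) : Nonempty (Ex s) := by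
  obtain ⟨x, hx, ex, x3⟩ := s.exists_x
  obtain ⟨y, hy, yz, ya, yx, y9⟩ := s.exists_y (s.z_conj_a hns) hx ex x3
  obtain ⟨σ, h1, h2, h3⟩ := s.exists_σ hx ex x3 hy yz yx
  obtain ⟨v, h4, h5, h6⟩ := s.exists_v hx ex x3 hy yz yx y9
  exact ⟨⟨x, y, v, σ, hx, ex, x3, hy, yz, ya, y9, h4, h5, h6, h1, h2, h3⟩⟩

end St

end Cfsg.Agent.Inv.AL4
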