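import Mathlib
import Cfsg.Agent.Inv.AL4F
import Cfsg.Agent.GT.TransferCocycle

/-! Centraliser `2^(1+4)_-.S4`: fusion and transfer; `U` is a Sylow 2-subgroup of `O^2(G)`. -/

set_option autoImplicit false

namespace Cfsg.Agent.Inv.AL4.St

open R Subgroup

variable {G : Type*} [Group G] (s : St G)

theorem AB_sq (e : Ex s) {u : G} (hu : u ∈ s.A ∨ u ∈ s.B) : u * u = 1 := by
  have hH : u ∈ s.H := hu.elim (fun h => (s.mem_A.1 h).1) fun h => (s.mem_B.1 h).1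
  rcases (incl _ (W.mem (s.φ u))).2.2.2.2.2.2.1
    (hu.imp (fun h => (s.mem_A.1 h).2) fun h => (s.mem_B.1 h).2) with h | h
  · exact s.V_sq (s.mem_V'.2 ⟨hH, h⟩)
  · obtain ⟨k, -, rfl⟩ := s.pt_conj e.v_mem e.φ_v hH h
    exact conj_sq k e.vv

theorem comm_of_sq {F : Subgroup G} (h : ∀ f ∈ F, f * f = 1) {p q : G} (hp : p ∈ F)
    (hq : q ∈ F) : p * q = q * p := by
  rw [← inv_eq_of_mul_eq_one_right (h _ (F.mul_mem hp hq)), mul_inv_rev,
    inv_eq_of_mul_eq_one_right (h p hp), inv_eq_of_mul_eq_one_right (h q hq)]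

theorem exists_not_mem [Finite G] (F : Subgroup G) (l : List G) (h : l.length < Nat.card F) :
    ∃ f ∈ F, f ∉ l := by
  classical
  by_contra hcon
  push Not at hcon
  have h1 : (F : Set G) ⊆ (l.toFinset : Set G) := fun x hx => by simpa using hcon x hx
  have h2 := Set.ncard_le_ncard h1
  rw [Set.ncard_coe_finset] at h2
  exact absurd (h2.trans l.toFinset_card_le) (not_le.2 h)

theorem le_U_of_sixteen [Finite G] {F : Subgroup G} (hF : F ≤ s.H) (h : ∀ f ∈ F, f * f = 1)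
    (h16 : Nat.card F = 16) : F ≤ s.U := by
  intro c hc
  by_contra hU
  have hU' : inU (s.φ c).1 = false := Bool.eq_false_iff.2 fun h => hU (s.mem_U.2 ⟨hF hc, h⟩)
  obtain ⟨p, hp, np⟩ := exists_not_mem F [1, s.z, c, c * s.z] (by rw [h16]; simp)
  obtain ⟨q, hq, nq⟩ := exists_not_mem F
    [1, s.z, c, c * s.z, p, p * s.z, c * p, c * p * s.z] (by rw [h16]; simp)
  simp only [List.mem_cons, List.not_mem_nil, or_false, not_or] at np nq
  have k : ∀ x ∈ F, ∀ y ∈ F, y ≠ x → y ≠ x * s.z → gd (s.φ x * s.φ y).1 = true :=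
    fun x hx y hy h1 h2 => by
      rw [← s.φm (hF hx) (hF hy)]
      have xi := inv_eq_of_mul_eq_one_right (h x hx)
      refine s.gd_of (hF (F.mul_mem hx hy)) (h _ (F.mul_mem hx hy)) (fun e => h1 ?_) fun e => h2 ?_
      · rw [← xi]; exact (inv_eq_of_mul_eq_one_right e).symm
      · rw [← e, ← mul_assoc, h x hx, one_mul]
  have cp := F.mul_mem hc hp
  have k7 := k _ cp q hq nq.2.2.2.2.2.2.1 nq.2.2.2.2.2.2.2
  rw [s.φm (hF hc) (hF hp)] at k7
  obtain ⟨d, hn⟩ := F9 (s.φ c) (s.φ p) (s.φ q)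
    (s.gd_of (hF hc) (h c hc) (fun e => hU (e ▸ one_mem _)) fun e => hU (e ▸ s.V_le_U s.z_mem_V))
    (s.gd_of (hF hp) (h p hp) np.1 np.2.1) (s.gd_of (hF hq) (h q hq) nq.1 nq.2.1)
    (k c hc p hp np.2.2.1 np.2.2.2) (k c hc q hq nq.2.2.1 nq.2.2.2.1)
    (k p hp q hq nq.2.2.2.2.1 nq.2.2.2.2.2.1) k7 hU'
  obtain ⟨f, hf, ef⟩ : ∃ f ∈ F, (s.φ f).1 = neg := by
    rcases hn with e | e | e | e | e | e
    · exact ⟨p, hp, e⟩
    · exact ⟨q, hq, e⟩
    · exact ⟨_, cp, by rw [s.φm (hF hc) (hF hp)]; exact e⟩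
    · exact ⟨_, F.mul_mem hc hq, by rw [s.φm (hF hc) (hF hq)]; exact e⟩
    · exact ⟨_, F.mul_mem hp hq, by rw [s.φm (hF hp) (hF hq)]; exact e⟩
    · exact ⟨_, F.mul_mem cp hq, by rw [s.φm (hF cp) (hF hq), s.φm (hF hc) (hF hp)]; exact e⟩
  have cf := comm_of_sq h hc hf
  have : c * s.a = s.a * c := by
    rcases s.fib (hF hf) s.a_mem (W.ext (ef.trans (by rw [φ_a]; rfl))) with e | e <;> rw [e] at cf
    · exact cf
    · rw [mul_assoc, ← s.mem_H.1 (hF hc), ← mul_assoc, ← mul_assoc] at cf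
      exact mul_right_cancel cf
  rw [(s.dt_false_iff (hF hc)).2 this] at d
  exact absurd d (by decide)

theorem exists_sixteen (e : Ex s) {u : G} (hu : u ∈ s.U) (h2 : u * u = 1) (g : G) :
    ∃ F : Subgroup G, g * u * g⁻¹ ∈ F ∧ g * s.z * g⁻¹ ∈ F ∧ (∀ f ∈ F, f * f = 1) ∧
      Nat.card F = 16 := by
  have k : ∀ F : Subgroup G, u ∈ F → s.z ∈ F → (∀ f ∈ F, f * f = 1) → Nat.card F = 16 →
      ∃ F : Subgroup G, g * u * g⁻¹ ∈ F ∧ g * s.z * g⁻¹ ∈ F ∧ (∀ f ∈ F, f * f = 1) ∧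
        Nat.card F = 16 := fun F h1 h2 h3 h4 =>
    ⟨F.map (MulAut.conj g).toMonoidHom, ⟨u, h1, rfl⟩, ⟨s.z, h2, rfl⟩,
      by rintro _ ⟨f, hf, rfl⟩; exact conj_sq g (h3 f hf),
      by rw [card_map_of_injective (MulAut.conj g).injective, h4]⟩
  rcases s.mem_AB hu h2 with h | h
  · exact k _ h (s.V_le_A s.z_mem_V) (fun f hf => s.AB_sq e (Or.inl hf)) s.card_A
  · exact k _ h (s.V_le_B s.z_mem_V) (fun f hf => s.AB_sq e (Or.inr hf)) s.card_B

theorem exists_AB {u : G} (hu : u ∈ s.U) : ∃ p ∈ s.A, p * u ∈ s.B := by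
  obtain ⟨r, hr, er⟩ := F_UAB _ (W.mem _) (s.mem_U.1 hu).2
  obtain ⟨p, hp, ep⟩ := s.surj ⟨r, (LA_ok r hr).1⟩
  exact ⟨p, s.mem_A.2 ⟨hp, by rw [ep]; exact (LA_ok r hr).2⟩, s.mem_B.2
    ⟨s.H.mul_mem hp (s.U_le_H hu), by rw [s.φm hp (s.U_le_H hu), ep]; exact er⟩⟩

variable [Finite G]

theorem conj_mem_U (e : Ex s) {g : G} (hH : g * s.z * g⁻¹ ∈ s.H) : g * s.z * g⁻¹ ∈ s.U := by
  by_contra hU
  obtain ⟨F, h1, h2, h3, h4⟩ := s.exists_sixteen e (s.flip_U hH hU)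
    (by simpa only [inv_inv] using conj_sq g⁻¹ s.zz) g
  rw [show g * (g⁻¹ * s.z * g) * g⁻¹ = s.z by group] at h1
  exact hU (s.le_U_of_sixteen (fun f hf => s.mem_H.2 (comm_of_sq h3 hf h1)) h3 h4 h2)

/-- `H` contains a Sylow 2-subgroup of `C` -/
def SylIn (C : Subgroup G) : Prop :=
  ∀ F ≤ C, IsPGroup 2 F → ∃ k ∈ C, ∀ f ∈ F, k * f * k⁻¹ ∈ s.H

theorem sylIn {C Q : Subgroup G} (hQ : IsPGroup 2 Q) (QC : Q ≤ C) (QH : Q ≤ s.H)
    (h : ∀ n ∈ C, (∀ q ∈ Q, n * q * n⁻¹ ∈ s.H ∧ n⁻¹ * q * n ∈ s.H) → n ∈ s.H) : s.SylIn C := by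
  have : Fact (Nat.Prime 2) := ⟨Nat.prime_two⟩
  obtain ⟨R, hR⟩ := (hQ.comap_subtype (K := C)).exists_le_sylow
  have pR : IsPGroup 2 ((R : Subgroup C).map C.subtype) := R.isPGroup'.map _
  have RH : (R : Subgroup C).map C.subtype ≤ s.H := by
    by_contra hcon
    have lt : (R : Subgroup C).map C.subtype ⊓ s.H < (R : Subgroup C).map C.subtype :=
      lt_of_le_of_ne inf_le_left fun e => hcon (e ▸ inf_le_right)
    refine (GT.Tr.lt_inf_normalizer pR lt).not_ge fun n hn => ⟨hn.1, h n (map_subtype_le _ hn.1)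
      fun q hq => ?_⟩
    have m : q ∈ (R : Subgroup C).map C.subtype ⊓ s.H := ⟨⟨⟨q, QC hq⟩, hR hq, rfl⟩, QH hq⟩
    exact ⟨((mem_normalizer_iff.1 hn.2 _).1 m).2, ((mem_normalizer_iff''.1 hn.2 _).1 m).2⟩
  intro F FC hF
  obtain ⟨R', hR'⟩ := (hF.comap_subtype (K := C)).exists_le_sylow
  obtain ⟨k, hk⟩ := MulAction.exists_smul_eq C R' R
  refine ⟨k, k.2, fun f hf => RH ⟨k * ⟨f, FC hf⟩ * k⁻¹, ?_, rfl⟩⟩
  rw [← hk]
  exact ⟨⟨f, FC hf⟩, hR' hf, rfl⟩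

theorem not_conj_U (e : Ex s) {c : G} (hU : c ∉ s.U)
    (hs : s.SylIn (centralizer ({c} : Set G))) {u : G} (hu : u ∈ s.U) (h2 : u * u = 1) :
    ¬ IsConj u c := by
  intro hc
  obtain ⟨g, rfl⟩ := isConj_iff.1 hc
  obtain ⟨F, h1, -, h3, h4⟩ := s.exists_sixteen e hu h2 g
  obtain ⟨k, hk, hF⟩ := hs F (fun f hf => mem_centralizer_singleton_iff.2 (comm_of_sq h3 hf h1))
    (fun f => ⟨1, Subtype.ext (by simpa [pow_two] using h3 f f.2)⟩)
  refine hU (s.le_U_of_sixteen (F := F.map (MulAut.conj k).toMonoidHom) ?_ ?_ ?_ ⟨_, h1, ?_⟩)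
  · rintro _ ⟨f, hf, rfl⟩; exact hF f hf
  · rintro _ ⟨f, hf, rfl⟩; exact conj_sq k (h3 f hf)
  · rw [card_map_of_injective (MulAut.conj k).injective, h4]
  · exact mul_inv_eq_iff_eq_mul.2 (mem_centralizer_singleton_iff.1 hk)

omit [Finite G] in
theorem Cσ_sq (e : Ex s) {q : G} (hq : q ∈ s.H) (c : q * e.σ = e.σ * q) :
    s.φ q * s.φ q = 1 := by
  have := s.φ_comm hq e.σ_mem c
  rw [e.φ_σ] at this
  exact W.ext (F_Cs _ (W.mem _) this)

omit [Finite G] in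
theorem σ_b (e : Ex s) : e.σ * s.b = s.b * e.σ := by
  have := s.act _ e.σ_mem f0
  rw [e.φ_σ] at this
  exact mul_inv_eq_iff_eq_mul.1 this

theorem sylIn_σ (e : Ex s) : s.SylIn (centralizer ({e.σ} : Set G)) := by
  have σa : e.σ * s.a = s.a * e.σ := (s.dt_false_iff e.σ_mem).1 (by rw [e.φ_σ]; decide)
  refine s.sylIn (Q := centralizer ({e.σ} : Set G) ⊓ s.H) (fun q => ⟨2, Subtype.ext ?_⟩)
    inf_le_left inf_le_right fun n hn h => ?_
  · exact s.pow_two_mul (n := 2) q.2.2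
      (by rw [pow_two]; exact s.Cσ_sq e q.2.2 (mem_centralizer_singleton_iff.1 q.2.1))
  have ma := mem_centralizer_singleton_iff.2 σa.symm
  have mb := mem_centralizer_singleton_iff.2 (s.σ_b e).symm
  have ha := (h _ ⟨ma, s.a_mem⟩).1
  have hb := (h _ ⟨mb, s.b_mem⟩).1
  have ca := (centralizer _).mul_mem ((centralizer _).mul_mem hn ma) ((centralizer _).inv_mem hn)
  have cb := (centralizer _).mul_mem ((centralizer _).mul_mem hn mb) ((centralizer _).inv_mem hn)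
  have e1 : n * s.z * n⁻¹ = n * s.a * n⁻¹ * (n * s.b * n⁻¹) * (n * s.a * n⁻¹ * (n * s.b * n⁻¹)) := by
    have : s.z = s.a * s.b * (s.a * s.b) := by
      rw [← s.ι_z, a, b, ← map_mul, ← map_mul]; rfl
    rw [this]; group
  have m := s.H.mul_mem ha hb
  rcases s.ker _ (s.H.mul_mem m m) (by
    rw [s.φm m m]
    exact s.Cσ_sq e m (mem_centralizer_singleton_iff.1 ((centralizer _).mul_mem ca cb))) with k | k
  · exact absurd (conj_eq_one_iff.1 (e1.trans k)) s.z_ne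
  · exact s.mem_of_conj_z (e1.trans k)

theorem σ_not_U (e : Ex s) : e.σ ∉ s.U := fun h =>
  absurd (s.mem_U.1 h).2 (by rw [e.φ_σ]; decide)

theorem not_conj_σ (e : Ex s) {c r : G} (hr : r * c = c * r) (r4 : r ^ 4 = s.z) :
    ¬ IsConj c e.σ := by
  intro hc
  obtain ⟨g, hg⟩ := isConj_iff.1 hc
  have m : g * r * g⁻¹ ∈ centralizer ({e.σ} : Set G) := mem_centralizer_singleton_iff.2 (by
    rw [← hg, conj_mul, conj_mul, hr])
  obtain ⟨k, hk, hF⟩ := s.sylIn_σ e (zpowers (g * r * g⁻¹)) (zpowers_le.2 m)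
    (IsPGroup.of_card (n := 3) (by
      rw [Nat.card_zpowers]
      refine orderOf_eq_prime_pow (p := 2) (n := 2) (fun h => s.z_ne ?_) ?_
      · rw [conj_pow, show 2 ^ 2 = 4 from rfl, r4] at h; exact conj_eq_one_iff.1 h
      · rw [conj_pow, show 2 ^ (2 + 1) = 4 * 2 from rfl, pow_mul, r4, pow_two, s.zz]; group))
  have h1 := hF _ (mem_zpowers _)
  have h2 := s.pow_two_mul (n := 2) h1 (by
    rw [pow_two]
    exact s.Cσ_sq e h1 (mem_centralizer_singleton_iff.1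
      ((centralizer _).mul_mem ((centralizer _).mul_mem hk m) ((centralizer _).inv_mem hk))))
  rw [conj_pow, conj_pow, show 2 * 2 = 4 from rfl, r4] at h2
  exact s.z_ne (conj_eq_one_iff.1 (conj_eq_one_iff.1 h2))

theorem not_conj_dt (e : Ex s) {c : G} (hc : c ∈ s.H) (c2 : c * c = 1)
    (hd : dt (s.φ c).1 = true) {u : G} (hu : u ∈ s.U) (h2 : u * u = 1) : ¬ IsConj u c := by
  have hU : c ∉ s.U := fun h => by rw [(s.mem_H0.1 (s.U_le_H0 h)).2] at hd; exact absurd hd (by decide)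
  have za : IsConj s.z s.a := (isConj_iff.2 ⟨_, e.y_a⟩).symm
  have vu : ∀ u ∈ s.U, u * u = 1 → u ∉ s.V → IsConj e.v u := fun u hu h2 hV =>
    let ⟨k, _, hk⟩ := s.pt_conj e.v_mem e.φ_v (s.U_le_H hu) (s.pt_of hu h2 hV)
    isConj_iff.2 ⟨k, hk⟩
  by_cases zv : IsConj s.z e.v
  · intro h
    have : IsConj s.z c := by
      refine IsConj.trans ?_ h
      by_cases hV : u ∈ s.V
      · rcases s.mem_V.1 hV with rfl | rfl | rfl | rfl
        · exact absurd (isConj_one_right.1 h ▸ one_mem _) hU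
        · exact IsConj.refl _
        · exact za
        · exact za.trans (isConj_iff.2 ⟨_, s.b_a⟩)
      · exact zv.trans (vu u hu h2 hV)
    obtain ⟨g, rfl⟩ := isConj_iff.1 this
    exact hU (s.conj_mem_U e hc)
  refine s.not_conj_U e hU (s.sylIn (Q := zpowers c ⊔ zpowers s.z) ?_ ?_ ?_ fun n hn h => ?_) hu h2
  · have : Fact (Nat.Prime 2) := ⟨Nat.prime_two⟩
    have k : ∀ t : G, t * t = 1 → IsPGroup 2 (zpowers t) := fun t ht =>
      IsPGroup.of_card_dvd_pow (n := 1) (by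
        rw [Nat.card_zpowers]; exact orderOf_dvd_of_pow_eq_one (by simpa [pow_two] using ht))
    exact (k c c2).to_sup_of_normal_right' (k _ s.zz) (zpowers_le.2
      (centralizer_le_normalizer _ (by
        rintro _ ⟨i, rfl⟩
        exact ((show Commute c s.z from s.mem_H.1 hc).zpow_right i).eq.symm)))
  · exact sup_le (zpowers_le.2 (mem_centralizer_singleton_iff.2 rfl))
      (zpowers_le.2 (mem_centralizer_singleton_iff.2 (s.mem_H.1 hc).symm))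
  · exact sup_le (zpowers_le.2 hc) (zpowers_le.2 s.z_mem)
  have m := s.conj_mem_U e (h _ (mem_sup_right (mem_zpowers _))).1
  have cc : c * (n * s.z * n⁻¹) * c⁻¹ = n * s.z * n⁻¹ := by
    have h1 := mem_centralizer_singleton_iff.1 hn
    calc c * (n * s.z * n⁻¹) * c⁻¹ = (c * n) * s.z * (c * n)⁻¹ := by group
      _ = n * (c * s.z * c⁻¹) * n⁻¹ := by rw [← h1]; group
      _ = _ := by rw [s.conj_z hc]
  have ca := s.conj_a_of_dt hc hd
  by_cases hV : n * s.z * n⁻¹ ∈ s.V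
  · rcases s.mem_V.1 hV with k | k | k | k
    · exact absurd (conj_eq_one_iff.1 k) s.z_ne
    · exact s.mem_of_conj_z k
    · rw [k, ca] at cc; exact absurd cc s.az_ne_a
    · rw [k, ← conj_mul, ca, s.conj_z hc] at cc
      exact absurd (mul_right_cancel cc) s.az_ne_a
  · exact absurd ((isConj_iff.2 ⟨n, rfl⟩).trans (vu _ m (conj_sq n s.zz) hV).symm) zv

theorem not_mem_K {c : G} (c2 : c * c = 1) {Q : Subgroup G} (hQ : Q.relIndex s.H = 2)
    (h : ∀ u ∈ Q, u * u = 1 → ¬ IsConj u c) : c ∉ Cfsg.pResidual 2 G := by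
  rcases GT.Tr.thompson_transfer_index_two s.odd_index_H hQ (u := c) (by rw [pow_two, c2]) with
    ⟨M, hM, hi, hc⟩ | ⟨g, hg⟩
  · exact fun hK => hc (GT.pResidual_le_of_index (k := 1) hi hK)
  · exact absurd (isConj_iff.2 ⟨g, rfl⟩).symm (h _ hg (conj_sq g c2))

theorem H0_class (e : Ex s) {u : G} (hu : u ∈ s.H0) (h2 : u * u = 1) : u ∈ s.U ∨ IsConj e.σ u := by
  rcases F_H0 _ (W.mem _) (s.φ_sq hu.1 h2) hu.2 with k | ⟨r, hr, k⟩
  · exact Or.inl (s.mem_U.2 ⟨hu.1, k⟩)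
  · obtain ⟨k, -, hk⟩ := s.conj_cls e.σ_mem hu.1 hr (by rw [e.φ_σ]; exact k) (e := e12)
      (by rw [e.φ_σ]; decide)
    exact Or.inr (isConj_iff.2 ⟨k, hk⟩)

theorem b_not_σ (e : Ex s) : ¬ IsConj s.b e.σ := by
  refine s.not_conj_σ e (r := e.σ * s.ι e23) ?_ ?_
  · have : s.ι e23 * s.b = s.b * s.ι e23 := by rw [b, ← map_mul, ← map_mul]; rfl
    rw [mul_assoc, this, ← mul_assoc, s.σ_b e, mul_assoc]
  · have h1 := s.act' e.σ_mem e23
    rw [e.φ_σ, inv_eq_of_mul_eq_one_right e.σσ] at h1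
    rw [show 4 = 2 * 2 from rfl, pow_mul, pow_two (e.σ * _), ← mul_assoc, h1, ← map_mul,
      ← map_pow, ← s.ι_z]
    congr 1

theorem b_not_K (e : Ex s) : s.b ∉ Cfsg.pResidual 2 G :=
  s.not_mem_K s.bb s.relIndex_H0 fun _ hu h2 => (s.H0_class e hu h2).elim
    (fun h => s.not_conj_dt e s.b_mem s.bb (by rw [φ_b]; decide) h h2)
    fun h h' => s.b_not_σ e (h.trans h').symm

theorem σ_not_K (e : Ex s) : e.σ ∉ Cfsg.pResidual 2 G := by
  refine s.not_mem_K e.σσ s.relIndex_H1 fun u hu h2 => ?_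
  rcases F_H1 _ (W.mem _) (s.φ_sq hu.1 h2) hu.2 with k | k | ⟨k, hk⟩
  · exact s.not_conj_U e (s.σ_not_U e) (s.sylIn_σ e) (s.mem_U.2 ⟨hu.1, k⟩) h2
  · rw [s.not_bad hu.1 h2] at k; exact absurd k (by decide)
  · have t : ∀ k, IsConj s.b (s.ι (L k)) := fun k => by
      obtain ⟨r, hr, er⟩ := F_trans k
      obtain ⟨h, hh, eh⟩ := s.surj (mkW r hr)
      have := s.act h hh f0
      rw [eh] at this
      exact isConj_iff.2 ⟨h, this.trans (congrArg (fun j => s.ι (L j)) er)⟩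
    intro h
    refine s.b_not_σ e (IsConj.trans ?_ h)
    rcases s.fib hu.1 (s.ι_mem (L k)) (by rw [φ_ι]; exact W.ext hk) with rfl | rfl
    · exact t k
    · rw [← s.ι_z, ← map_mul, ← L_flip]; exact t _

theorem t_not_K (e : Ex s) : e.σ * s.b ∉ Cfsg.pResidual 2 G := by
  have tH := s.H.mul_mem e.σ_mem s.b_mem
  have et : s.φ (e.σ * s.b) = tW := by rw [s.φm e.σ_mem s.b_mem, e.φ_σ, φ_b]; decide
  have t2 : e.σ * s.b * (e.σ * s.b) = 1 := by
    rw [mul_assoc, ← mul_assoc s.b, ← s.σ_b e, mul_assoc, s.bb, mul_one, e.σσ]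
  refine s.not_mem_K t2 s.relIndex_H0 fun _ hu h2 => (s.H0_class e hu h2).elim
    (fun h => s.not_conj_dt e tH t2 (by rw [et]; decide) h h2) fun h h' => ?_
  obtain ⟨r, hr, cr, er⟩ := s.lift_comm tH (w := rW) (by rw [et]; decide) (e := e34)
    (by rw [et]; decide)
  refine s.not_conj_σ e (mul_inv_eq_iff_eq_mul.1 cr) ?_ (h.trans h').symm
  have : s.φ (r * r) = s.φ (s.ι e12) := by
    rw [s.φm hr hr, φ_ι]
    rcases er with er | er <;> rw [er] <;> decide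
  rw [show 4 = 2 * 2 from rfl, pow_mul, pow_two, pow_two,
    s.fib_sq (s.H.mul_mem hr hr) (s.ι_mem _) this, ← map_mul, ← s.ι_z]
  congr 1

omit [Finite G] in
theorem V_le_of (e : Ex s) (N : Subgroup G) [hN : N.Normal] (hz : s.z ∈ N) : s.V ≤ N := by
  have ha : s.a ∈ N := by simpa [← e.y_a, mul_assoc] using hN.conj_mem _ hz e.y⁻¹
  intro v hv
  rcases s.mem_V.1 hv with rfl | rfl | rfl | rfl
  exacts [one_mem _, hz, ha, mul_mem ha hz]

omit [Finite G] in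
theorem U_le_of (e : Ex s) (N : Subgroup G) [hN : N.Normal] (hV : s.V ≤ N) {m : G} (hm : m ∈ N)
    (mH : m ∈ s.H) (pm : pt (s.φ m).1 = true) : s.U ≤ N := by
  have hv : e.v ∈ N := by
    obtain ⟨j, -, rfl⟩ := s.pt_conj e.v_mem e.φ_v mH pm
    simpa [mul_assoc] using hN.conj_mem _ hm j⁻¹
  have hI : ∀ u ∈ s.U, u * u = 1 → u ∈ N := fun u hu h2 => by
    by_cases h : u ∈ s.V
    · exact hV h
    · obtain ⟨j, -, rfl⟩ := s.pt_conj e.v_mem e.φ_v (s.U_le_H hu) (s.pt_of hu h2 h)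
      exact hN.conj_mem _ hv j
  intro u hu
  obtain ⟨p, pA, pB⟩ := s.exists_AB hu
  exact (N.mul_mem_cancel_left (hI p (s.A_le_U pA) (s.AB_sq e (Or.inl pA)))).1
    (hI _ (s.B_le_U pB) (s.AB_sq e (Or.inr pB)))

theorem U_le_K (e : Ex s) : s.U ≤ Cfsg.pResidual 2 G := by
  have : (Cfsg.pResidual 2 G).Characteristic := GT.pResidual_characteristic
  have hN : (Cfsg.pResidual 2 G).Normal := inferInstance
  have k : ∀ t c : G, t ^ 9 = 1 → t * c * t⁻¹ * c⁻¹ ∈ Cfsg.pResidual 2 G := fun t c ht => by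
    have m : t ∈ Cfsg.pResidual 2 G := GT.mem_pResidual
      ((show Nat.Coprime 9 2 by decide).coprime_dvd_left (orderOf_dvd_of_pow_eq_one ht))
    have := (Cfsg.pResidual 2 G).mul_mem m (hN.conj_mem _ ((Cfsg.pResidual 2 G).inv_mem m) c)
    simpa only [mul_assoc] using this
  have ha : s.a ∈ Cfsg.pResidual 2 G := by
    have := k e.y s.z e.y9
    rwa [e.y_z, mul_inv_cancel_right] at this
  have x9 : e.x ^ 9 = 1 := by rw [show 9 = 3 * 3 from rfl, pow_mul, e.x3, one_pow]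
  refine s.U_le_of e _ (s.V_le_of e _ (e.y_a ▸ hN.conj_mem _ ha _)) (k e.x e.v x9)
    (s.H.mul_mem (s.H.mul_mem (s.H.mul_mem e.x_mem e.v_mem) (s.H.inv_mem e.x_mem))
      (s.H.inv_mem e.v_mem)) ?_
  rw [s.φm (s.H.mul_mem (s.H.mul_mem e.x_mem e.v_mem) (s.H.inv_mem e.x_mem))
    (s.H.inv_mem e.v_mem), s.φ_conj e.x_mem e.v_mem, s.φ_inv e.v_mem, e.φ_x, e.φ_v]
  decide

theorem T_inf_K (e : Ex s) {h : G} (hT : h ∈ s.T) (hK : h ∈ Cfsg.pResidual 2 G) : h ∈ s.U := by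
  have hH := s.T_le_H hT
  have k : ∀ c ∈ s.H, inU (s.φ h * s.φ c).1 = true → c ∈ Cfsg.pResidual 2 G := fun c hc hu =>
    ((Cfsg.pResidual 2 G).mul_mem_cancel_left hK).1
      (s.U_le_K e (s.mem_U.2 ⟨s.H.mul_mem hH hc, by rw [s.φm hH hc]; exact hu⟩))
  rcases F_Tcos _ (W.mem _) (s.mem_T.1 hT).2 with j | j | j | j
  · exact s.mem_U.2 ⟨hH, j⟩
  · exact absurd (k _ e.σ_mem (by rw [e.φ_σ]; exact j)) (s.σ_not_K e)
  · exact absurd (k _ s.b_mem (by rw [φ_b]; exact j)) (s.b_not_K e)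
  · exact absurd (k _ (s.H.mul_mem e.σ_mem s.b_mem)
      (by rw [s.φm e.σ_mem s.b_mem, e.φ_σ, φ_b]; exact j)) (s.t_not_K e)

end Cfsg.Agent.Inv.AL4.St
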