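import Mathlib
import Cfsg.Agent.Inv.M23S

/-!
Simple groups of order 50232960: the definitions for the searches.
-/

set_option autoImplicit false

namespace Cfsg.Agent.Inv.J3O

open Cfsg.Agent.Inv.Srch Cfsg.Agent.Inv.Sieve

/-- Some involution column with admissible centralizer order passes the test. -/
def anyE (p e c : ℕ) (f : ℕ → Bool) (ex : ℕ → ℤ → Bool) (test : ℕ → List (ℕ × ℤ) → Bool)
    (D : ℤ) (l : List ℤ) : Bool :=
  (divs 50232960).any fun cz => f cz && Nat.blt cz 50232960 &&
    anyC 50232960 p e c cz ex (test cz) D l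

/-- The sum in the pair formula. -/
def qz : List ℤ → List (ℕ × ℤ) → List (ℕ × ℤ) → ℤ
  | a :: l, r :: R, s :: S => a.sign * (r.2 * s.2 * (50232960 / a.natAbs : ℕ)) + qz l R S
  | _, _, _ => 0

/-- The pair formula for two columns. -/
def qm (t : ℕ) (D : ℤ) (l : List ℤ) (R S : List (ℕ × ℤ)) : ℤ :=
  50232960 + qz (-D :: l) (R.drop (t - 1)) (S.drop (t - 1))

/-- Compatibility of two columns. -/
def mix (D : ℤ) (l : List ℤ) (R S : List (ℕ × ℤ)) : Bool :=
  qm 1 D l R S * qm 1 D l R S == qm 1 D l R R * qm 1 D l S S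

/-- Some selection of admissible entries containing the degree `d` has a sum divisible by `m`. -/
def btS (m : ℕ) (f : ℕ → Bool) (d : ℕ) : List ℤ → ℤ → Bool → Bool
  | [], s, b => b && Nat.beq (s.natAbs % m) 0
  | a :: l, s, b => btS m f d l s b ||
      (f a.natAbs && btS m f d l (s + a) (b || Nat.beq a.natAbs d))

/-- The sum of the signed degrees with odd central character. -/
def btz (k : ℕ) : List ℤ → List (ℕ × ℤ) → ℤ
  | a :: l, r :: R => (bif Nat.beq (k * r.2.natAbs / a.natAbs % 2) 1 then a else 0) + btz k l R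
  | _, _ => 0

/-- The possible degrees. -/
def ok (a : ℤ) : Bool := okd 19 9 a.natAbs && okd 17 8 a.natAbs && Nat.ble 17 a.natAbs

/-- The possible centralizer orders. -/
def nz (c cz : ℕ) : Bool :=
  !Nat.beq (cz % 17) 0 && !Nat.beq (cz % 19) 0 && (Nat.beq (c % 2) 0 || !Nat.beq (cz % 5) 0)

/-- The involution centralizes an element of order `5`. -/
def fU (c cz : ℕ) : Bool := Nat.beq (cz % 5) 0 && nz c cz

/-- The involution is central in a Sylow subgroup. -/
def fZ (c cz : ℕ) : Bool := Nat.beq (50232960 / cz % 2) 1 && nz c cz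

/-- The values at an involution that inverts an element of order `17`. -/
def exT (d : ℕ) (v : ℤ) : Bool :=
  Nat.ble (17 * v.natAbs) (d + 16) && !(Nat.beq d 76 && v == -4)

/-- The test for a central involution when an element of order `5` has centralizer order `15`. -/
def t3 (D : ℤ) (l : List ℤ) (cz : ℕ) (R : List (ℕ × ℤ)) : Bool :=
  Nat.beq ((1 + btz (50232960 / cz) (-D :: l) R).natAbs % 128) 0 &&
    !(15 * qm 1 D l R R == (10 * cz * (10 * cz) : ℕ))

/-- The remaining blocks for the prime `5`. -/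
def surv : List (ℕ × ℕ × ℤ × List ℤ) :=
  [(2, 6, -323, [-324]), (2, 96, -323, [-324]), (4, 108, -2736, [816, -969, -2584]),
    (4, 18, -2736, [816, -969, -2584]), (4, 8, -2736, [816, -969, -2584]),
    (4, 648, 969, [76, 76, 816]), (4, 108, 969, [76, 76, 816]), (4, 18, 969, [76, 76, 816]),
    (4, 8, 969, [76, 76, 816])]

end Cfsg.Agent.Inv.J3O
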