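import Mathlib
import Cfsg.Agent.Inv.J3OD

/-!
Simple groups of order 50232960: the searches for the primes 17 and 19.
-/

set_option autoImplicit false

namespace Cfsg.Agent.Inv.J3O

open Cfsg.Agent.Inv.Srch Cfsg.Agent.Inv.Sieve

theorem s19 : (locAll 50232960 19 fun e c => Nat.beq c 1 ||
    blkAll2 50232960 19 e c (fun _ => true) (fun _ => true) fun D l =>
      (e == 6 && c == 144 && D == 120 && l == [153, 153, 153, -170, -170]) ||
      (e == 18 && c == 48 && !btS 17 (fun a => [1, 2, 4, 8, 9, 13, 15, 16].elem (a % 17)) 0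
        (-D :: l) 1 true)) = true := by
  decide +kernel

theorem s17b : ((divs 50232960).all fun ca => (divs 2448).all fun m =>
    !(Nat.beq (m % 153) 0 && Nat.ble 2448 (m * 8) && Nat.beq (ca % m) 0 && Nat.beq (ca / m % 17) 1 &&
      !Nat.beq (ca % 19) 0) || Nat.beq ca m || (sym (rootUp ca)).all fun v =>
      !(Nat.beq ((v + 1).natAbs % 17) 0 && Nat.beq (v.natAbs % 3) 0 && Nat.blt v.natAbs 1920 &&
        Nat.ble (v.natAbs * v.natAbs) ca && Nat.beq (50232960 / ca * v.natAbs % 1920) 0)) = true := by
  decide +kernel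

theorem s19b : anyE 19 6 144 (fun cz => Nat.beq (cz % 19) 0) (fun _ _ => true)
    (fun _ R => qm 3 120 [153, 153, 153, -170, -170] R R == 0 || !R.elem (153, -151)) 120
    [153, 153, 153, -170, -170] = false := by
  decide +kernel

theorem s17 : (locAll 50232960 17 fun e c => (Nat.beq c 1 || Nat.beq (c % 19) 0) ||
    blkAll2 50232960 17 e c (fun a => okd 19 9 a.natAbs) (fun a => okd 19 9 a.natAbs) fun D l =>
      e == 16 && c == 9 && (degR 17 e D l).count (1920, 1920) == 1) = true := by
  decide +kernel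

theorem b19 : (locAll 50232960 19 fun e c => !Nat.beq c 1 || blkAll2 50232960 19 e c ok ok
    fun D l => !btS 128 (fun a => Nat.beq (a % 4) 0 && !Nat.beq (a % 5) 0) 324 (-D :: l) 0 false &&
      !btS 128 (fun a => Nat.beq (a % 16) 0 && !Nat.beq (a % 5) 0) 816 (-D :: l) 0 false)
      = true := by
  decide +kernel

theorem b17 : (locAll 50232960 17 fun e c => !Nat.beq c 1 || blkAll2 50232960 17 e c ok ok
    fun D l => !btS 243 (fun a => Nat.beq (a % 9) 0 && !Nat.beq (a % 5) 0) 2736 (-D :: l) 0 false)
      = true := by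
  decide +kernel

/-- The column at an involution that inverts an element of order `17`. -/
def vT (c : ℕ) : List (ℕ × ℤ) :=
  bif Nat.beq c 108 then [(969, 57), (76, 4), (76, 4), (816, 48)]
  else [(969, 9), (76, 4), (76, 4), (816, 0)]

theorem sA : ([108, 18].all fun c =>
    !anyE 5 4 c (nz c) exT (fun _ R => !(R == vT c)) 969 [76, 76, 816] &&
    !anyE 5 4 c (fU c) (fun _ _ => true) (fun _ S => mix 969 [76, 76, 816] (vT c) S) 969
      [76, 76, 816]) = true := by
  decide +kernel

theorem sZ : anyE 5 2 6 (fun cz => fZ 6 cz && !Nat.beq cz 1920) (fun _ _ => true)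
    (fun _ _ => true) (-323) [-324] = false := by
  decide +kernel

end Cfsg.Agent.Inv.J3O
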