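import Mathlib
import Cfsg.Agent.Inv.J3OD

/-!
Simple groups of order 50232960: the searches for the prime 5.
-/

set_option autoImplicit false

namespace Cfsg.Agent.Inv.J3O

open Cfsg.Agent.Inv.Srch Cfsg.Agent.Inv.Sieve

theorem s5a : (locAll 50232960 5 fun e c =>
    (Nat.beq (c % 17) 0 || Nat.beq (c % 19) 0 || Nat.beq c 3) ||
    blkAll2 50232960 5 e c ok ok fun D l => surv.elem (e, c, D, l) ||
      !(Nat.beq (c % 2) 1 || anyE 5 e c (fU c) (fun _ _ => true) (fun _ _ => true) D l) ||
      !anyE 5 e c (nz c) exT (fun _ _ => true) D l) = true := by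
  decide +kernel

end Cfsg.Agent.Inv.J3O
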