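import Mathlib
import Cfsg.Agent.Inv.J3OD

/-!
Simple groups of order 50232960: the searches for the prime 5, second part.
-/

set_option autoImplicit false

namespace Cfsg.Agent.Inv.J3O

open Cfsg.Agent.Inv.Srch Cfsg.Agent.Inv.Sieve

theorem s5b : (locAll 50232960 5 fun e c => !Nat.beq c 3 ||
    blkAll2 50232960 5 e c ok ok fun D l => e == 4 &&
      (!anyE 5 e c (nz c) exT (fun _ _ => true) D l ||
      !anyE 5 e c (fZ c) (fun _ _ => true) (t3 D l) D l)) = true := by
  decide +kernel

end Cfsg.Agent.Inv.J3O
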