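import Mathlib
import Cfsg.Agent.Inv.J3OD

/-!
Simple groups of order 50232960: the searches for the prime 5, third part.
-/

set_option autoImplicit false

namespace Cfsg.Agent.Inv.J3O

open Cfsg.Agent.Inv.Srch Cfsg.Agent.Inv.Sieve

/-- The columns at a central involution. -/
def vZ : List (List (ℕ × ℤ)) :=
  [[(2736, -144), (816, -144), (969, 9), (2584, -296)], [(2736, 96), (816, -64), (969, 89), (2584, -56)],
    [(2736, 96), (816, -64), (969, -71), (2584, 104)]]

theorem sB1 : anyE 5 4 18 (fZ 18) (fun _ _ => true) (fun _ R => !vZ.elem R) (-2736)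
    [816, -969, -2584] = false := by
  decide +kernel

theorem sB2 : anyE 5 4 18 (nz 18) exT (fun _ S => vZ.any fun R => mix (-2736) [816, -969, -2584] R S)
    (-2736) [816, -969, -2584] = false := by
  decide +kernel

end Cfsg.Agent.Inv.J3O
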