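import Mathlib
import Cfsg.Agent.Inv.Basic

/-!
The graph on a class of involutions joining two of them when their product has odd order.
-/

set_option autoImplicit false

namespace Cfsg.Agent.Inv

theorem oddGraph_diam_two {G : Type*} [Group G] [Finite G] {t : G} (ht : orderOf t = 2)
    (h1 : ∀ x y, IsConj t x → IsConj t y → ¬ Odd (orderOf (x * y)) →
      ∃ z, z * z = 1 ∧ Odd (orderOf (x * z)) ∧ Odd (orderOf (z * y)))
    (h2 : ∃ x y, IsConj t x ∧ IsConj t y ∧ ¬ Odd (orderOf (x * y))) :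
    (SimpleGraph.fromRel fun x y : {x : G // IsConj t x} =>
        Odd (orderOf (x.1 * y.1))).Connected ∧
      (SimpleGraph.fromRel fun x y : {x : G // IsConj t x} =>
        Odd (orderOf (x.1 * y.1))).diam = 2 := by
  set Γ := SimpleGraph.fromRel fun x y : {x : G // IsConj t x} => Odd (orderOf (x.1 * y.1))
    with hΓ
  have hsq : ∀ x, IsConj t x → x * x = 1 := fun x hx => by
    obtain ⟨c, rfl⟩ := isConj_iff.1 hx
    have : t * t = 1 := by rw [← sq, ← ht, pow_orderOf_eq_one]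
    calc c * t * c⁻¹ * (c * t * c⁻¹) = c * (t * t) * c⁻¹ := by group
      _ = 1 := by rw [this]; group
  have hsw : ∀ x y : G, orderOf (y * x) = orderOf (x * y) := fun x y => by
    have : y * x = (MulAut.conj y) (x * y) := by simp [mul_assoc]
    rw [this, MulEquiv.orderOf_eq]
  have hadj : ∀ x y : {x : G // IsConj t x}, Γ.Adj x y ↔ x ≠ y ∧ Odd (orderOf (x.1 * y.1)) := by
    intro x y
    rw [hΓ, SimpleGraph.fromRel_adj, hsw y.1 x.1, or_self]
  haveI : Nonempty {x : G // IsConj t x} := ⟨⟨t, IsConj.refl t⟩⟩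
  have hle : Γ.ediam ≤ 2 := by
    refine SimpleGraph.ediam_le_of_edist_le fun x y => ?_
    by_cases hxy : x = y
    · simp [hxy]
    by_cases ho : Odd (orderOf (x.1 * y.1))
    · rw [SimpleGraph.edist_eq_one_iff_adj.2 ((hadj x y).2 ⟨hxy, ho⟩)]
      exact one_le_two
    obtain ⟨z, hz, hxz, hzy⟩ := h1 x y x.2 y.2 ho
    let z' : {x : G // IsConj t x} := ⟨z, x.2.trans (isConj_of_odd (hsq _ x.2) hz hxz)⟩
    have a1 : Γ.Adj x z' := (hadj _ _).2 ⟨fun h => ho (by rw [h]; exact hzy), hxz⟩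
    have a2 : Γ.Adj z' y := (hadj _ _).2 ⟨fun h => ho (by rw [← h]; exact hxz), hzy⟩
    refine (SimpleGraph.edist_triangle (v := z')).trans ?_
    rw [SimpleGraph.edist_eq_one_iff_adj.2 a1, SimpleGraph.edist_eq_one_iff_adj.2 a2]
    exact le_of_eq one_add_one_eq_two
  have hge : 2 ≤ Γ.ediam := by
    obtain ⟨x, y, hx, hy, ho⟩ := h2
    refine le_trans ?_ (SimpleGraph.edist_le_ediam (u := ⟨x, hx⟩) (v := ⟨y, hy⟩))
    have h0 : Γ.edist ⟨x, hx⟩ ⟨y, hy⟩ ≠ 0 := fun h => by
      have : x = y := congrArg Subtype.val (SimpleGraph.edist_eq_zero_iff.1 h)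
      rw [← this, hsq x hx, orderOf_one] at ho
      exact ho odd_one
    have h1 : Γ.edist ⟨x, hx⟩ ⟨y, hy⟩ ≠ 1 := fun h =>
      ho ((hadj _ _).1 (SimpleGraph.edist_eq_one_iff_adj.1 h)).2
    generalize Γ.edist ⟨x, hx⟩ ⟨y, hy⟩ = e at h0 h1
    induction e using ENat.recTopCoe with
    | top => exact le_top
    | coe n =>
      have : n ≠ 0 := fun h => h0 (by simp [h])
      have : n ≠ 1 := fun h => h1 (by simp [h])
      exact_mod_cast (by omega : 2 ≤ n)
  have he : Γ.ediam = 2 := le_antisymm hle hge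
  refine ⟨SimpleGraph.connected_of_ediam_ne_top (by rw [he]; decide), ?_⟩
  rw [SimpleGraph.diam, he]
  rfl

end Cfsg.Agent.Inv
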