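import Mathlib

/-!
Two conjugate involutions of a symmetric group have a common neighbour in the odd product graph:
the tools.
-/

set_option autoImplicit false

namespace Cfsg.Agent.Inv.OddSym

open Equiv Equiv.Perm

variable {α : Type*} [Fintype α] [DecidableEq α]

omit [DecidableEq α] in
theorem odd_of_pointwise {σ : Perm α} (h : ∀ ω, ∃ k, Odd k ∧ (σ ^ k) ω = ω) : Odd (orderOf σ) := by
  choose k hk hσ using h
  have h1 : σ ^ ∏ ω, k ω = 1 := by
    ext ω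
    obtain ⟨m, hm⟩ := Finset.dvd_prod_of_mem k (Finset.mem_univ ω)
    rw [hm, pow_mul]
    exact pow_apply_eq_self_of_apply_eq_self (hσ ω) m
  exact Odd.of_dvd_nat (Finset.prod_induction k Odd (fun _ _ => Odd.mul) odd_one fun ω _ => hk ω)
    (orderOf_dvd_of_pow_eq_one h1)

omit [DecidableEq α] in
/-- Inserting points into the cycles, an even number at each place. -/
theorem odd_ins {σ σ' : Perm α} (P : α → Prop) (hP : ∀ p, P p → σ' p = p)
    (h1 : ∀ ω, ¬ P ω → σ ω = σ' ω ∨ σ (σ (σ ω)) = σ' ω ∨ σ (σ (σ (σ (σ ω)))) = σ' ω)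
    (h2 : ∀ p, P p → ∃ ω, ¬ P ω ∧ (σ ω = p ∨ σ (σ ω) = p ∨ σ (σ (σ ω)) = p ∨ σ (σ (σ (σ ω))) = p))
    (h : Odd (orderOf σ')) : Odd (orderOf σ) := by
  have h3 : ∀ ω, ¬ P ω → ¬ P (σ' ω) := fun ω hω hp => hω (σ'.injective (hP _ hp) ▸ hp)
  have h4 : ∀ ω, ¬ P ω → ∀ n : ℕ, ¬ P ((σ' ^ n) ω) ∧ ∃ m, m % 2 = n % 2 ∧ (σ ^ m) ω = (σ' ^ n) ω := by
    intro ω hω n
    induction n with
    | zero => exact ⟨hω, 0, rfl, rfl⟩
    | succ n ih =>
      obtain ⟨h5, m, hm, h6⟩ := ih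
      rw [pow_succ', mul_apply]
      refine ⟨h3 _ h5, ?_⟩
      rcases h1 _ h5 with h7 | h7 | h7
      · exact ⟨m + 1, by omega, by rw [← h7, ← h6]; simp [pow_succ']⟩
      · exact ⟨m + 3, by omega, by rw [← h7, ← h6]; simp [pow_succ']⟩
      · exact ⟨m + 5, by omega, by rw [← h7, ← h6]; simp [pow_succ']⟩
  have h5 : ∀ ω, ¬ P ω → ∃ k, Odd k ∧ (σ ^ k) ω = ω := fun ω hω => by
    obtain ⟨-, m, hm, h6⟩ := h4 ω hω (orderOf σ')
    exact ⟨m, by rw [Nat.odd_iff] at h ⊢; omega, by rw [h6, pow_orderOf_eq_one]; rfl⟩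
  have h6 : ∀ ω, (∃ k, Odd k ∧ (σ ^ k) ω = ω) → ∃ k, Odd k ∧ (σ ^ k) (σ ω) = σ ω := by
    rintro ω ⟨k, hk, h7⟩
    exact ⟨k, hk, by rw [← mul_apply, ← pow_succ, pow_succ', mul_apply, h7]⟩
  refine odd_of_pointwise fun ω => ?_
  by_cases hω : P ω
  · obtain ⟨ω', h7, rfl | rfl | rfl | rfl⟩ := h2 ω hω
    · exact h6 _ (h5 _ h7)
    · exact h6 _ (h6 _ (h5 _ h7))
    · exact h6 _ (h6 _ (h6 _ (h5 _ h7)))
    · exact h6 _ (h6 _ (h6 _ (h6 _ (h5 _ h7))))
  · exact h5 ω hω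

theorem exists_erase {x : Perm α} (hx : ∀ ω, x (x ω) = ω) {a b : α} (hab : x a = b) (hne : a ≠ b) :
    ∃ x' : Perm α, (∀ ω, x' (x' ω) = ω) ∧ x' a = a ∧ x' b = b ∧
      (∀ ω, ω ≠ a → ω ≠ b → x' ω = x ω) ∧ x'.support.card + 2 = x.support.card := by
  have h1 : (x * swap a b) a = a := by simp [← hab, hx]
  have h2 : (x * swap a b) b = b := by simp [hab]
  have h3 : ∀ ω, ω ≠ a → ω ≠ b → (x * swap a b) ω = x ω := fun ω h1 h2 => by
    simp [swap_apply_of_ne_of_ne h1 h2]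
  generalize x * swap a b = x' at h1 h2 h3
  refine ⟨x', fun ω => by grind +splitImp, h1, h2, h3, ?_⟩
  have : x.support = insert a (insert b x'.support) := by
    ext ω
    simp only [Finset.mem_insert, mem_support]
    grind +splitImp
  rw [this, Finset.card_insert_of_notMem (by simp [hne, h1]),
    Finset.card_insert_of_notMem (by simp [h2])]

theorem exists_add {x : Perm α} (hx : ∀ ω, x (x ω) = ω) {a b : α} (ha : x a = a) (hb : x b = b)
    (hne : a ≠ b) : ∃ x' : Perm α, (∀ ω, x' (x' ω) = ω) ∧ x' a = b ∧ x' b = a ∧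
      (∀ ω, ω ≠ a → ω ≠ b → x' ω = x ω) ∧ x'.support.card = x.support.card + 2 := by
  have h1 : (x * swap a b) a = b := by simp [hb]
  have h2 : (x * swap a b) b = a := by simp [ha]
  have h3 : ∀ ω, ω ≠ a → ω ≠ b → (x * swap a b) ω = x ω := fun ω h1 h2 => by
    simp [swap_apply_of_ne_of_ne h1 h2]
  generalize x * swap a b = x' at h1 h2 h3
  refine ⟨x', fun ω => by grind +splitImp, h1, h2, h3, ?_⟩
  have : x'.support = insert a (insert b x.support) := by
    ext ω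
    simp only [Finset.mem_insert, mem_support]
    grind +splitImp
  rw [this, Finset.card_insert_of_notMem (by simp [hne, ha]),
    Finset.card_insert_of_notMem (by simp [hb])]

omit [Fintype α] [DecidableEq α] in
theorem orderOf_swap_mul (s t : Perm α) : orderOf (s * t) = orderOf (t * s) := by
  have : s * t = (MulAut.conj s) (t * s) := by simp [mul_assoc]
  rw [this, MulEquiv.orderOf_eq]

omit [DecidableEq α] in
/-- Extending a path by two points. -/
theorem end2 {s s' t t' : Perm α} {e a b : α} (hs' : ∀ ω, s' (s' ω) = ω)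
    (h1 : e ≠ a) (h2 : e ≠ b) (e1 : s' e = e) (e2 : s' a = a) (e3 : s' b = b)
    (e4 : t' a = a) (e5 : t' b = b) (f1 : s e = a) (f2 : s a = e) (f2' : s b = b)
    (f3 : ∀ ω, ω ≠ e → ω ≠ a → s ω = s' ω) (g1 : t a = b) (g2 : t b = a)
    (g3 : ∀ ω, ω ≠ a → ω ≠ b → t ω = t' ω) (h : Odd (orderOf (t' * s'))) :
    Odd (orderOf (t * s)) := by
  refine odd_ins (fun p => p = a ∨ p = b) ?_ ?_ ?_ h
  · rintro p (rfl | rfl) <;> simp [*]
  · intro ω hω
    simp only [mul_apply]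
    by_cases h : ω = e
    · subst h
      exact Or.inr (Or.inl (by rw [f1, g1, f2', g2, f2, e1, g3 _ h1 h2]))
    · left
      grind +splitImp
  · intro p hp
    refine ⟨e, by grind +splitImp, ?_⟩
    simp only [mul_apply]
    grind +splitImp

omit [DecidableEq α] in
/-- Extending a path by four points. -/
theorem end4 {s s' t t' : Perm α} {e a b c d : α} (hs' : ∀ ω, s' (s' ω) = ω)
    (h1 : e ≠ a) (h2 : e ≠ b) (h3 : e ≠ c) (h4 : e ≠ d) (e1 : s' e = e) (e2 : s' a = a)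
    (e3 : s' b = b) (e2' : s' c = c) (e3' : s' d = d)
    (e4 : t' a = a) (e5 : t' b = b) (e6 : t' c = c) (e7 : t' d = d) (f1 : s e = a) (f2 : s a = e)
    (f4 : s b = c) (f5 : s c = b) (f6 : s d = d)
    (f3 : ∀ ω, ω ≠ e → ω ≠ a → ω ≠ b → ω ≠ c → s ω = s' ω) (g1 : t a = b) (g2 : t b = a)
    (g4 : t c = d) (g5 : t d = c)
    (g3 : ∀ ω, ω ≠ a → ω ≠ b → ω ≠ c → ω ≠ d → t ω = t' ω) (h : Odd (orderOf (t' * s'))) :
    Odd (orderOf (t * s)) := by
  refine odd_ins (fun p => p = a ∨ p = b ∨ p = c ∨ p = d) ?_ ?_ ?_ h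
  · rintro p (rfl | rfl | rfl | rfl) <;> simp [*]
  · intro ω hω
    simp only [mul_apply]
    by_cases h : ω = e
    · subst h
      exact Or.inr (Or.inr (by rw [f1, g1, f4, g4, f6, g5, f5, g2, f2, e1, g3 _ h1 h2 h3 h4]))
    · left
      grind +splitImp
  · intro p hp
    refine ⟨e, by grind +splitImp, ?_⟩
    simp only [mul_apply]
    grind +splitImp

omit [DecidableEq α] in
/-- Subdividing an edge by four points. -/
theorem sub4 {s s' t t' : Perm α} {e f a b c d : α} (hs' : ∀ ω, s' (s' ω) = ω)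
    (h1 : e ≠ a) (h2 : e ≠ b) (h3 : e ≠ c) (h4 : e ≠ d) (e1 : s' e = f) (e2 : s' a = a)
    (e3 : s' b = b) (e2' : s' c = c) (e3' : s' d = d)
    (e4 : t' a = a) (e5 : t' b = b) (e6 : t' c = c) (e7 : t' d = d) (f1 : s e = a) (f2 : s a = e)
    (f4 : s b = c) (f5 : s c = b) (f6 : s d = f) (f7 : s f = d)
    (f3 : ∀ ω, ω ≠ e → ω ≠ f → ω ≠ a → ω ≠ b → ω ≠ c → ω ≠ d → s ω = s' ω) (g1 : t a = b)
    (g2 : t b = a) (g4 : t c = d) (g5 : t d = c)
    (g3 : ∀ ω, ω ≠ a → ω ≠ b → ω ≠ c → ω ≠ d → t ω = t' ω) (h : Odd (orderOf (t' * s'))) :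
    Odd (orderOf (t * s)) := by
  have k1 : f ≠ a := by grind +splitImp
  have k2 : f ≠ b := by grind +splitImp
  have k3 : f ≠ c := by grind +splitImp
  have k4 : f ≠ d := by grind +splitImp
  have k5 : s' f = e := by grind +splitImp
  refine odd_ins (fun p => p = a ∨ p = b ∨ p = c ∨ p = d) ?_ ?_ ?_ h
  · rintro p (rfl | rfl | rfl | rfl) <;> simp [*]
  · intro ω hω
    simp only [mul_apply]
    by_cases h : ω = e
    · subst h
      exact Or.inr (Or.inl (by rw [f1, g1, f4, g4, f6, e1, g3 _ k1 k2 k3 k4]))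
    by_cases h' : ω = f
    · subst h'
      exact Or.inr (Or.inl (by rw [f7, g5, f5, g2, f2, k5, g3 _ h1 h2 h3 h4]))
    · left
      grind +splitImp
  · intro p hp
    simp only [mul_apply]
    by_cases h : p = b ∨ p = d
    · exact ⟨e, by grind +splitImp, by grind +splitImp⟩
    · exact ⟨f, by grind +splitImp, by grind +splitImp⟩

end Cfsg.Agent.Inv.OddSym
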