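import Mathlib
import Cfsg.Agent.GT.PiGroups
import Cfsg.Agent.GT.CoprimeFixed
import Cfsg.Agent.Inv.SPE
import Cfsg.Agent.S0205

/-!
# Normal π-complements when all π-subgroups are 2-closed: the reduction to simple groups
-/

set_option autoImplicit false

namespace Cfsg.Agent.Inv.PC

open Subgroup Cfsg.Agent.GT

/-- π-subgroups are 2-closed, and are centralized by the π'-elements normalizing them. -/
structure Hyp (π : Set ℕ) (G : Type*) [Group G] : Prop where
  a : ∀ H : Subgroup G, IsPiNum π (Nat.card H) → ∀ x ∈ H, ∀ y ∈ H, IsPiNum {2} (orderOf x) →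
    IsPiNum {2} (orderOf y) → IsPiNum {2} (orderOf (x * y))
  b : ∀ H : Subgroup G, IsPiNum π (Nat.card H) → ∀ x ∈ normalizer (H : Set G),
    IsPiNum πᶜ (orderOf x) → x ∈ centralizer (H : Set G)

/-- `G` has a normal π-complement. -/
def Concl (π : Set ℕ) (G : Type*) [Group G] : Prop :=
  ∃ K : Subgroup G, K.Normal ∧ IsPiNum πᶜ (Nat.card K) ∧ IsPiNum π K.index

variable {G : Type*} [Group G] [Finite G] {π : Set ℕ}

theorem exists_lift {X : Type*} [Group X] {σ : Set ℕ} (f : G →* X) (x : G)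
    (h : IsPiNum σ (orderOf (f x))) : ∃ y ∈ zpowers x, f y = f x ∧ IsPiNum σ (orderOf y) := by
  obtain ⟨a, b, ha, hb, h1, h2, -, e⟩ := exists_piPart_elem σ x
  refine ⟨a, ha, ?_, h1⟩
  have h3 : f b = 1 := orderOf_eq_one_iff.1 ((h.of_dvd (orderOf_dvd_of_mem_zpowers (by
    rw [← MonoidHom.map_zpowers]; exact mem_map_of_mem f hb))).eq_one
    (h2.of_dvd (orderOf_map_dvd f b)))
  rw [e, map_mul, h3, mul_one]

theorem exists_compl {σ : Set ℕ} {N L : Subgroup G} [N.Normal] (hN : IsPiNum σᶜ (Nat.card N))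
    (hle : N ≤ L) (hL : IsPiNum σ (N.relIndex L)) : ∃ H ≤ L, IsPiNum σ (Nat.card H) ∧
      ∀ x ∈ L, ∃ n ∈ N, ∃ h ∈ H, x = n * h := by
  obtain ⟨H, hH⟩ := exists_right_complement'_of_coprime (N := N.subgroupOf L)
    (by rw [card_subgroupOf_of_le hle]; exact (hL.coprime hN).symm)
  refine ⟨H.map L.subtype, map_subtype_le _, ?_, fun x hx => ?_⟩
  · rw [card_map_subtype, ← hH.symm.index_eq_card]
    exact hL
  · obtain ⟨⟨n, h⟩, e⟩ := (hH.existsUnique ⟨x, hx⟩).exists
    exact ⟨n, n.2, h, ⟨h, h.2, rfl⟩, (congrArg Subtype.val e).symm⟩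

theorem concl_iff : Concl π G ↔ ∃ K : Subgroup G, ∀ x, x ∈ K ↔ IsPiNum πᶜ (orderOf x) := by
  constructor
  · rintro ⟨K, hn, h1, h2⟩
    exact ⟨K, fun x => ⟨fun hx => h1.of_dvd (orderOf_dvd_natCard _ hx),
      fun hx => mem_of_coprime_orderOf_index (h2.coprime hx).symm⟩⟩
  · rintro ⟨K, hK⟩
    refine ⟨K, ⟨fun x hx g => by rwa [hK, SE.orderOf_conj, ← hK]⟩, fun p hp hd => ?_,
      fun p hp hd => ?_⟩
    · obtain ⟨x, hx, rfl⟩ := exists_mem_orderOf_eq_prime hp hd
      exact (hK x).1 hx _ hp dvd_rfl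
    · by_contra hπ
      have := Fact.mk hp
      obtain ⟨P⟩ : Nonempty (Sylow p G) := inferInstance
      refine P.not_dvd_index (hd.trans (index_dvd_of_le fun x hx => (hK x).2 ?_))
      obtain ⟨k, hk⟩ := IsPGroup.iff_orderOf.1 P.2 ⟨x, hx⟩
      rw [← orderOf_coe] at hk
      rw [hk]
      exact isPiNum_prime_pow hp hπ k

omit [Finite G] in
theorem Hyp.of_injective (h : Hyp π G) {X : Type*} [Group X] {f : X →* G}
    (hf : Function.Injective f) : Hyp π X where
  a H hH x hx y hy h1 h2 := by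
    rw [← orderOf_injective f hf] at h1 h2 ⊢
    rw [map_mul]
    exact h.a (H.map f) (by rwa [card_map_of_injective hf]) _ (mem_map_of_mem f hx) _
      (mem_map_of_mem f hy) h1 h2
  b H hH x hx h1 y hy := hf (by
    rw [map_mul, map_mul]
    exact h.b (H.map f) (by rwa [card_map_of_injective hf]) (f x)
      (le_normalizer_map f (mem_map_of_mem f hx)) (by rwa [orderOf_injective f hf]) _
      (mem_map_of_mem f hy))

theorem Hyp.quot_pi' (h : Hyp π G) (h2 : 2 ∈ π) (O : Subgroup G) [O.Normal]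
    (hO : IsPiNum πᶜ (Nat.card O)) : Hyp π (G ⧸ O) := by
  have lift : ∀ H : Subgroup (G ⧸ O), IsPiNum π (Nat.card H) →
      ∃ A : Subgroup G, IsPiNum π (Nat.card A) ∧ A.map (QuotientGroup.mk' O) = H := by
    intro H hH
    have hle : O ≤ H.comap (QuotientGroup.mk' O) := fun x hx => by
      simp [mem_comap, (QuotientGroup.eq_one_iff x).2 hx]
    obtain ⟨A, hA, h1, h3⟩ := exists_compl hO hle (by
      rwa [← card_map_mk'_eq_relIndex,
        map_comap_eq_self_of_surjective (QuotientGroup.mk'_surjective O)])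
    refine ⟨A, h1, le_antisymm (map_le_iff_le_comap.2 hA) fun x hx => ?_⟩
    obtain ⟨x, rfl⟩ := QuotientGroup.mk_surjective x
    obtain ⟨n, hn, a, ha, rfl⟩ := h3 x hx
    exact ⟨a, ha, by simp [(QuotientGroup.eq_one_iff n).2 hn]⟩
  refine ⟨fun H hH => ?_, fun H hH => ?_⟩ <;> obtain ⟨A, hA, rfl⟩ := lift H hH
  · rintro _ ⟨x, hx, rfl⟩ _ ⟨y, hy, rfl⟩ h1 h3
    obtain ⟨x', hx', e1, h4⟩ := exists_lift _ x h1
    obtain ⟨y', hy', e2, h5⟩ := exists_lift _ y h3
    rw [← e1, ← e2, ← map_mul]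
    exact (h.a A hA _ (zpowers_le.2 hx hx') _ (zpowers_le.2 hy hy') h4 h5).of_dvd
      (orderOf_map_dvd _ _)
  · have hs : Group.IsSolvable O := S0205.result (Nat.odd_iff.2 (Nat.two_dvd_ne_zero.1
      fun hd => hO 2 Nat.prime_two hd h2))
    rw [← CopAct.map_mk'_normalizer O (hA.coprime hO) (Or.inr hs)]
    rintro _ ⟨x, hx, rfl⟩ h1 _ ⟨y, hy, rfl⟩
    obtain ⟨x', hx', e, h3⟩ := exists_lift _ x h1
    rw [← e, ← map_mul, ← map_mul, h.b A hA x' (zpowers_le.2 hx hx') h3 y hy]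

theorem Hyp.quot_pi (h : Hyp π G) (N : Subgroup G) [N.Normal] (hN : IsPiNum π (Nat.card N)) :
    Hyp π (G ⧸ N) := by
  have hc : ∀ H : Subgroup (G ⧸ N), IsPiNum π (Nat.card H) →
      IsPiNum π (Nat.card (H.comap (QuotientGroup.mk' N))) := fun H hH => by
    rw [card_comap_mk']; exact hH.mul hN
  refine ⟨fun H hH x hx y hy h1 h3 => ?_, fun H hH x hx h1 y hy => ?_⟩ <;>
    obtain ⟨x, rfl⟩ := QuotientGroup.mk'_surjective N x <;>
    obtain ⟨y, rfl⟩ := QuotientGroup.mk'_surjective N y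
  · obtain ⟨x', -, e1, h4⟩ := exists_lift _ x h1
    obtain ⟨y', -, e2, h5⟩ := exists_lift _ y h3
    rw [← e1] at hx
    rw [← e2] at hy
    rw [← e1, ← e2, ← map_mul]
    exact (h.a _ (hc H hH) _ hx _ hy h4 h5).of_dvd (orderOf_map_dvd _ _)
  · obtain ⟨x', -, e, h3⟩ := exists_lift _ x h1
    rw [← e] at hx
    rw [← e, ← map_mul, ← map_mul, h.b _ (hc H hH) x' (le_normalizer_comap _ hx) h3 y hy]

theorem Concl.of_quot_pi' {O : Subgroup G} [O.Normal] (hO : IsPiNum πᶜ (Nat.card O))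
    (h : Concl π (G ⧸ O)) : Concl π G := by
  obtain ⟨K, hn, h1, h2⟩ := h
  refine ⟨K.comap (QuotientGroup.mk' O), inferInstance, ?_, ?_⟩
  · rw [card_comap_mk']; exact h1.mul hO
  · rwa [index_comap_of_surjective _ (QuotientGroup.mk'_surjective O)]

theorem Concl.of_quot_pi (hG : Hyp π G) {N : Subgroup G} [N.Normal]
    (hN : IsPiNum π (Nat.card N)) (h : Concl π (G ⧸ N)) : Concl π G := by
  obtain ⟨K, hn, h1, h2⟩ := h
  have hle : N ≤ K.comap (QuotientGroup.mk' N) := fun x hx => by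
    simp [mem_comap, (QuotientGroup.eq_one_iff x).2 hx]
  obtain ⟨A, -, h3, h4⟩ := exists_compl (σ := πᶜ) (by rwa [compl_compl]) hle (by
    rwa [← card_map_mk'_eq_relIndex,
      map_comap_eq_self_of_surjective (QuotientGroup.mk'_surjective N)])
  refine concl_iff.2 ⟨A, fun x => ⟨fun hx => h3.of_dvd (orderOf_dvd_natCard _ hx), fun hx => ?_⟩⟩
  have h5 : x ∈ K.comap (QuotientGroup.mk' N) :=
    mem_of_coprime_orderOf_index (N := K)
      (h2.coprime (hx.of_dvd (orderOf_map_dvd (QuotientGroup.mk' N) x))).symm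
  obtain ⟨n, hn, a, ha, rfl⟩ := h4 x h5
  have ha' := h3.of_dvd (orderOf_dvd_natCard _ ha)
  have hc : Commute n a := hG.b N hN a (by rw [normalizer_eq_top]; trivial) ha' n hn
  have h6 : Commute (n * a) a⁻¹ := (hc.mul_left (Commute.refl a)).inv_right
  have h7 := h6.orderOf_mul_dvd_mul_orderOf
  rw [mul_inv_cancel_right, orderOf_inv] at h7
  rw [orderOf_eq_one_iff.1 ((hN.of_dvd (orderOf_dvd_natCard _ hn)).eq_one
    ((hx.mul ha').of_dvd h7)), one_mul]
  exact ha

universe u in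
/-- Reduction to simple groups. -/
theorem concl_of_simple (h2 : 2 ∈ π)
    (hs : ∀ (X : Type u) [Group X] [Finite X] [IsSimpleGroup X], ¬ IsMulCommutative X → Hyp π X →
      (∀ M : Subgroup X, M ≠ ⊤ → Concl π M) → False) (n : ℕ) :
    ∀ (X : Type u) [Group X] [Finite X], Nat.card X = n → Hyp π X → Concl π X := by
  induction n using Nat.strong_induction_on with
  | _ n ih =>
  intro X _ _ hn h
  have k1 : ∀ O : Subgroup X, O.Normal → O ≠ ⊥ → IsPiNum πᶜ (Nat.card O) → Concl π X :=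
    fun O _ h1 hO => Concl.of_quot_pi' hO
      (ih _ (hn ▸ card_quotient_lt h1) _ rfl (h.quot_pi' h2 O hO))
  have k2 : ∀ N : Subgroup X, N.Normal → N ≠ ⊥ → IsPiNum π (Nat.card N) → Concl π X :=
    fun N _ h1 hN => Concl.of_quot_pi h hN (ih _ (hn ▸ card_quotient_lt h1) _ rfl (h.quot_pi N hN))
  have k3 : ∀ M : Subgroup X, M ≠ ⊤ → Concl π M := fun M hM =>
    ih _ (hn ▸ card_lt_of_ne_top hM) _ rfl (h.of_injective M.subtype_injective)
  rcases subsingleton_or_nontrivial X with h0 | h0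
  · exact ⟨⊥, inferInstance, isPiNum_card_bot _, by
      rw [index_bot, Nat.card_unique]; exact isPiNum_one _⟩
  by_cases hM : ∃ M : Subgroup X, M.Normal ∧ M ≠ ⊥ ∧ M ≠ ⊤
  · obtain ⟨M, hMn, hM1, hM2⟩ := hM
    obtain ⟨K, hK⟩ := concl_iff.1 (k3 M hM2)
    have hK' : ∀ x, x ∈ K.map M.subtype ↔ x ∈ M ∧ IsPiNum πᶜ (orderOf x) := fun x =>
      ⟨by rintro ⟨y, hy, rfl⟩; exact ⟨y.2, by rw [coe_subtype, orderOf_coe]; exact (hK y).1 hy⟩,
        fun hx => ⟨⟨x, hx.1⟩, (hK _).2 (by rw [← orderOf_coe]; exact hx.2), rfl⟩⟩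
    by_cases hb : K.map M.subtype = ⊥
    · refine k2 M hMn hM1 fun p hp hd => ?_
      by_contra hπ
      obtain ⟨x, hx, hxp⟩ := exists_mem_orderOf_eq_prime hp hd
      have := (hK' x).2 ⟨hx, hxp ▸ isPiNum_of_prime_mem hp hπ⟩
      rw [hb, mem_bot] at this
      exact hp.one_lt.ne (by rw [← hxp, this, orderOf_one])
    · refine k1 _ ⟨fun x hx g => ?_⟩ hb fun p hp hd => ?_
      · rw [hK'] at hx ⊢
        exact ⟨hMn.conj_mem _ hx.1 g, by rw [SE.orderOf_conj]; exact hx.2⟩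
      · obtain ⟨x, hx, rfl⟩ := exists_mem_orderOf_eq_prime hp hd
        exact ((hK' x).1 hx).2 _ hp dvd_rfl
  · have : IsSimpleGroup X := ⟨fun M hMn => by
      by_contra hc
      push Not at hc
      exact hM ⟨M, hMn, hc.1, hc.2⟩⟩
    by_cases hc : IsMulCommutative X
    · have hp : (Nat.card X).Prime := by
        let _ : CommGroup X := { mul_comm := hc.is_comm.comm }
        exact IsSimpleGroup.prime_card
      by_cases hπ : Nat.card X ∈ π
      · exact k2 ⊤ inferInstance top_ne_bot (by rw [card_top]; exact isPiNum_of_prime_mem hp hπ)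
      · exact k1 ⊤ inferInstance top_ne_bot (by rw [card_top]; exact isPiNum_of_prime_mem hp hπ)
    · exact (hs X hc h k3).elim

/-- In a π-group with the hypothesis, the 2-elements form a normal 2-subgroup. -/
theorem Hyp.exists_two (h : Hyp π G) (hG : IsPiNum π (Nat.card G)) :
    ∃ R : Subgroup G, R.Normal ∧ IsPGroup 2 R ∧ ∀ x, IsPiNum {2} (orderOf x) → x ∈ R := by
  let R : Subgroup G :=
    { carrier := {x | IsPiNum {2} (orderOf x)}
      one_mem' := by simpa using isPiNum_one _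
      mul_mem' := fun ha hb => h.a ⊤ (by rwa [card_top]) _ trivial _ trivial ha hb
      inv_mem' := fun ha => by simpa using ha }
  refine ⟨R, ⟨fun x hx g => ?_⟩, fun x => ?_, fun x hx => hx⟩
  · change IsPiNum {2} _
    rwa [SE.orderOf_conj]
  · obtain ⟨k, hk⟩ := (isPiNum_singleton_iff Nat.prime_two (orderOf_pos (x : G)).ne').1 x.2
    exact ⟨k, Subtype.ext (by rw [coe_pow, ← hk, pow_orderOf_eq_one, coe_one])⟩

/-- No real element of odd prime order in π. -/
theorem Hyp.not_real (h : Hyp π G) (h2 : 2 ∈ π) {j g : G} {r : ℕ} (hr : r.Prime) (hr2 : r ≠ 2)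
    (hπ : r ∈ π) (hj : orderOf j = r) (hg : g * j * g⁻¹ = j⁻¹) : False := by
  have hodd : Odd r := hr.odd_of_ne_two hr2
  have hj1 : j ≠ j⁻¹ := fun e => by
    have : orderOf j ∣ 2 := orderOf_dvd_of_pow_eq_one (by
      rw [pow_two]; exact mul_eq_one_iff_eq_inv.2 e)
    exact hr2 ((Nat.prime_dvd_prime_iff_eq hr Nat.prime_two).1 (hj ▸ this))
  have hpow : ∀ k : ℕ, g ^ k * j * (g ^ k)⁻¹ = if Even k then j else j⁻¹ := by
    intro k
    induction k with
    | zero => simp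
    | succ k ih =>
      rw [pow_succ', mul_inv_rev, show g * g ^ k * j * ((g ^ k)⁻¹ * g⁻¹) =
        g * (g ^ k * j * (g ^ k)⁻¹) * g⁻¹ by group, ih]
      by_cases hk : Even k
      · simp [hk, hg, Nat.even_add_one]
      · simp [hk, Nat.even_add_one, ← conj_inv, hg]
  obtain ⟨a, b, ha, hb, h3, h4, hc, e⟩ := exists_piPart_elem {2} g
  have hbj : b * j * b⁻¹ = j := by
    obtain ⟨k, rfl⟩ := (mem_powers_iff_mem_zpowers.2 hb :)
    simp only
    have hm : Odd (orderOf (g ^ k)) := Nat.odd_iff.2 (Nat.two_dvd_ne_zero.1 fun hd =>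
      h4 2 Nat.prime_two hd rfl)
    have h5 := hpow (k * orderOf (g ^ k))
    rw [pow_mul, pow_orderOf_eq_one] at h5
    rw [hpow k]
    split_ifs with hk
    · rfl
    · rw [if_neg (by simp [Nat.even_mul, hk, hm])] at h5
      exact absurd (by simpa using h5) hj1
  have haj : a * j * a⁻¹ = j⁻¹ := by
    rw [← hg, e, mul_inv_rev, show a * b * j * (b⁻¹ * a⁻¹) = a * (b * j * b⁻¹) * a⁻¹ by group, hbj]
  have hn : zpowers a ≤ normalizer (zpowers j : Set G) := by
    rw [zpowers_le, mem_normalizer_iff_map_conj_eq, MonoidHom.map_zpowers]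
    simp [haj]
  have h5 := h.a (zpowers a ⊔ zpowers j) (IsPiNum.of_dvd (by
      rw [Nat.card_zpowers, Nat.card_zpowers, hj]
      exact (h3.mono (by simpa using h2)).mul (isPiNum_of_prime_mem hr hπ))
    (card_sup_dvd_of_le_normalizer hn)) a (mem_sup_left (mem_zpowers a)) (j * a⁻¹ * j⁻¹)
    (mul_mem (mul_mem (mem_sup_right (mem_zpowers j)) (inv_mem (mem_sup_left (mem_zpowers a))))
      (inv_mem (mem_sup_right (mem_zpowers j)))) h3 (by rwa [SE.orderOf_conj, orderOf_inv])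
  rw [← mul_assoc, ← mul_assoc, haj, ← mul_inv_rev, orderOf_inv, ← pow_two,
    (Nat.Coprime.orderOf_pow (by rw [hj]; exact hodd.coprime_two_right)), hj] at h5
  exact hr2 (h5 r hr dvd_rfl)

end Cfsg.Agent.Inv.PC
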