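import Mathlib
import Cfsg.Prelude.Def_SylowChains
import Cfsg.Agent.Inv.SPE

/-!
# Strongly `p`-embedded subgroups and the graph on the Sylow `p`-subgroups
-/

set_option autoImplicit false

namespace Cfsg.Agent.Inv.SE

open Subgroup

variable {G : Type*} [Group G]

/-- Adjacency in the graph on the Sylow `p`-subgroups. -/
def SylowAdj {p : ℕ} (S T : Sylow p G) : Prop :=
  S ≠ T ∧ (S : Subgroup G) ⊓ (T : Subgroup G) ≠ ⊥

theorem isSylowChainConnected_iff {p : ℕ} :
    IsSylowChainConnected p G ↔ ∀ S T : Sylow p G, Relation.ReflTransGen SylowAdj S T := by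
  constructor
  · intro h S T
    obtain ⟨n, c, h0, hn, -, hc⟩ := h S T
    rw [← h0, ← hn]
    have : ∀ i : Fin (n + 1), Relation.ReflTransGen SylowAdj (c 0) (c i) := by
      intro i
      induction i using Fin.induction with
      | zero => exact Relation.ReflTransGen.refl
      | succ i ih => exact ih.tail (hc i)
    exact this _
  · intro h S T
    by_cases hST : S = T
    · exact ⟨0, fun _ => S, rfl, hST, fun _ => inf_le_left, fun i => i.elim0⟩
    by_cases h1 : (S : Subgroup G) ⊓ (T : Subgroup G) = ⊥
    · obtain ⟨l, hl, hlast⟩ := List.exists_isChain_cons_of_relationReflTransGen (h S T)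
      refine ⟨l.length, fun i => (S :: l).get (i.cast (by simp)), rfl, ?_, ?_, ?_⟩
      · rw [← hlast, List.getLast_eq_getElem]
        simp
      · intro i
        rw [h1]; exact bot_le
      · intro i
        have := List.isChain_iff_getElem.mp hl i (by simp)
        exact this
    · refine ⟨1, ![S, T], rfl, rfl, ?_, ?_⟩
      · intro i
        fin_cases i
        · exact inf_le_left
        · exact inf_le_right
      · intro i
        fin_cases i
        exact ⟨hST, h1⟩

theorem SylowAdj.symm {p : ℕ} {S T : Sylow p G} (h : SylowAdj S T) : SylowAdj T S :=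
  ⟨h.1.symm, by rw [inf_comm]; exact h.2⟩

theorem SylowAdj.smul {p : ℕ} {S T : Sylow p G} (h : SylowAdj S T) (g : G) :
    SylowAdj (g • S) (g • T) := by
  refine ⟨fun h1 => h.1 (smul_left_cancel g h1), fun h1 => h.2 ?_⟩
  rw [eq_bot_iff] at h1 ⊢
  intro x hx
  have : g * x * g⁻¹ ∈ ((g • S : Sylow p G) : Subgroup G) ⊓ ((g • T : Sylow p G) : Subgroup G) :=
    ⟨mem_smul_sylow.mpr (by simpa [mul_assoc] using hx.1),
      mem_smul_sylow.mpr (by simpa [mul_assoc] using hx.2)⟩
  simpa using h1 this

theorem not_isSylowChainConnected_iff [Finite G] {p : ℕ} [Fact p.Prime] :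
    ¬ IsSylowChainConnected p G ↔ ∃ H : Subgroup G, StrEmb p H := by
  rw [isSylowChainConnected_iff]
  constructor
  · intro h
    push Not at h
    obtain ⟨S, T, hST⟩ := h
    have hsm : ∀ (g : G) (A B : Sylow p G), Relation.ReflTransGen SylowAdj A B →
        Relation.ReflTransGen SylowAdj (g • A) (g • B) := fun g A B hAB =>
      by
        induction hAB with
        | refl => exact Relation.ReflTransGen.refl
        | tail _ hbc ih => exact ih.tail (SylowAdj.smul hbc g)
    have hsy : ∀ A B : Sylow p G, Relation.ReflTransGen SylowAdj A B →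
        Relation.ReflTransGen SylowAdj B A := fun A B hAB =>
      by
        induction hAB with
        | refl => exact Relation.ReflTransGen.refl
        | tail _ hbc ih => exact Relation.ReflTransGen.head (SylowAdj.symm hbc) ih
    let H : Subgroup G :=
      { carrier := {g | Relation.ReflTransGen SylowAdj S (g • S)}
        one_mem' := by simpa using Relation.ReflTransGen.refl
        mul_mem' := fun {a b} ha hb => by
          have := hsm a _ _ hb
          rw [← mul_smul] at this
          exact Relation.ReflTransGen.trans ha this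
        inv_mem' := fun {a} ha => by
          have := hsm a⁻¹ _ _ ha
          rw [inv_smul_smul] at this
          exact hsy _ _ this }
    refine ⟨H, StrEmb.of_normalizer_sylow ?_ ?_ S ?_⟩
    · intro h1
      obtain ⟨g, rfl⟩ := MulAction.exists_smul_eq G S T
      have : g ∈ H := by rw [h1]; trivial
      exact hST this
    · by_contra hp
      apply hST
      have h1 : ∀ A : Sylow p G, (A : Subgroup G) = ⊥ := fun A => by
        by_contra h2
        exact hp ((dvd_card_of_pgroup A.2 h2).trans (card_subgroup_dvd_card _))
      have : S = T := Sylow.ext (by rw [h1, h1])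
      rw [this]
    · intro A hA h1 g hg
      change Relation.ReflTransGen SylowAdj S (g • S)
      by_cases h2 : S = g • S
      · rw [← h2]
      refine Relation.ReflTransGen.single ⟨h2, fun h3 => h1 ?_⟩
      rw [eq_bot_iff, ← h3]
      intro a ha
      exact ⟨hA ha, mem_smul_sylow.mpr (hA ((mem_normalizer_iff''.mp hg a).mp ha))⟩
  · rintro ⟨H, h⟩ hc
    obtain ⟨P, hP⟩ := h.exists_sylow_le
    obtain ⟨g, hg⟩ := h.exists_not_mem
    have h1 : ∀ T : Sylow p G, Relation.ReflTransGen SylowAdj P T → (T : Subgroup G) ≤ H := by
      intro T hT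
      induction hT with
      | refl => exact hP
      | tail _ hbc ih =>
        obtain ⟨x, hx, hx1⟩ := (bot_or_exists_ne_one _).resolve_left hbc.2
        exact h.pgroup_le (Sylow.isPGroup' _) hx.2 (ih hx.1) hx1
    obtain ⟨x, hx, hxp⟩ := exists_mem_orderOf_eq (P.dvd_card_of_dvd_card h.dvd_card)
    refine hg (h.mem_of_conj g x hxp (hP hx) (h1 _ (hc P (g • P)) ?_))
    have hx' : x ∈ P := hx
    exact mem_smul_sylow.mpr (by simpa [mul_assoc] using hx')

end Cfsg.Agent.Inv.SE
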