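import Mathlib
import Cfsg.Agent.Inv.TwoAlt
import Cfsg.Agent.Wal.Defs
import Cfsg.Agent.Ch.Orthogonality
import Cfsg.Agent.Blk.ZStar
import Cfsg.Agent.GT.TransferSylow

/-!
# A 2-central involution whose weak closure in its centralizer is `Z₂ × A₅`
-/

set_option autoImplicit false

namespace Cfsg.Agent.Inv.WA

open Subgroup Cfsg.Agent.GT Cfsg.Agent.Inv.Alt Cfsg.Agent.Inv.TA
open scoped commutatorElement

variable {G : Type*} [Group G] [Finite G]

/-- The conjugates of a 2-central element centralizing a 2-subgroup are odd in number. -/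
theorem odd_ncard_fixed {B : Subgroup G} (hB : IsPGroup 2 B) {t : G}
    (hodd : ¬ 2 ∣ (centralizer ({t} : Set G)).index) :
    ¬ 2 ∣ {x | IsConj t x ∧ ∀ b ∈ B, b * x = x * b}.ncard := by
  let _ : MulAction B {x // IsConj t x} :=
    { smul := fun b x => ⟨b * x * (b : G)⁻¹, x.2.trans (isConj_iff.2 ⟨b, rfl⟩)⟩
      one_smul := fun x => Subtype.ext (by change ((1 : B) : G) * x * ((1 : B) : G)⁻¹ = x; simp)
      mul_smul := fun a b x => Subtype.ext (by
        change ((a * b : B) : G) * x * ((a * b : B) : G)⁻¹ = a * (b * x * (b : G)⁻¹) * (a : G)⁻¹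
        simp [mul_assoc]) }
  have h1 := hB.card_modEq_card_fixedPoints {x // IsConj t x}
  rw [Ch.card_isConj_eq_index] at h1
  have h2 : Nat.card (MulAction.fixedPoints B {x // IsConj t x}) =
      {x | IsConj t x ∧ ∀ b ∈ B, b * x = x * b}.ncard := by
    rw [Nat.card_coe_set_eq, ← Set.ncard_image_of_injective _ Subtype.val_injective]
    congr 1
    ext x
    constructor
    · rintro ⟨y, hy, rfl⟩
      exact ⟨y.2, fun b hb => mul_inv_eq_iff_eq_mul.1 (congrArg Subtype.val (hy ⟨b, hb⟩))⟩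
    · rintro ⟨hx, h⟩
      exact ⟨⟨x, hx⟩, fun b => Subtype.ext (mul_inv_eq_iff_eq_mul.2 (h b b.2)), rfl⟩
  rw [← h2]
  exact fun h => hodd ((h1.dvd_iff dvd_rfl).2 h)

/-- The alternating group of degree 5. -/
abbrev A5 := alternatingGroup (Fin 5)

/-- The hypothesis, with `W = ⟨t⟩ × ψ(A₅)`. -/
structure Hyp (t : G) (S : Sylow 2 G) (W : Subgroup G) (ψ : A5 →* G) : Prop where
  ord : orderOf t = 2
  cent : ∀ s ∈ (S : Subgroup G), s * t = t * s
  W_eq : W = closure {x : G | ∃ g : G, x = g * t * g⁻¹ ∧ x * t = t * x}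
  inj : Function.Injective ψ
  ψ_mem : ∀ a, ψ a ∈ W
  ne : ∀ a, ψ a ≠ t
  cases : ∀ w ∈ W, ∃ a, w = ψ a ∨ w = t * ψ a
  ab : Wal.AbSyl W

namespace Hyp

variable {t : G} {S : Sylow 2 G} {W : Subgroup G} {ψ : A5 →* G} (h : Hyp t S W ψ)
include h

omit [Finite G] in
theorem sq : t * t = 1 := sq_of_ord h.ord

omit [Finite G] in
theorem mem_W {x : G} (hx : IsConj t x) (hc : x * t = t * x) : x ∈ W := by
  obtain ⟨g, rfl⟩ := isConj_iff.1 hx
  rw [h.W_eq]
  exact subset_closure ⟨g, rfl, hc⟩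

omit [Finite G] in
theorem t_mem : t ∈ W := h.mem_W (IsConj.refl t) rfl

omit [Finite G] in
theorem comm {w : G} (hw : w ∈ W) : w * t = t * w := by
  have : W ≤ centralizer ({t} : Set G) := by
    rw [h.W_eq, closure_le]
    rintro x ⟨g, -, hx⟩
    exact mem_centralizer_singleton_iff.2 hx
  exact mem_centralizer_singleton_iff.1 (this hw)

omit [Finite G] in
theorem ord_of {x : G} (hx : IsConj t x) : orderOf x = 2 := by
  obtain ⟨g, rfl⟩ := isConj_iff.1 hx
  rw [SE.orderOf_conj, h.ord]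

theorem idx : ¬ 2 ∣ (centralizer ({t} : Set G)).index := fun hd =>
  S.not_dvd_index (hd.trans (index_dvd_of_le fun x hx =>
    mem_centralizer_singleton_iff.2 (h.cent x hx)))

omit [Finite G] in
theorem mul_self (a : A5) : t * ψ a * (t * ψ a) = ψ (a * a) := by
  calc t * ψ a * (t * ψ a) = t * (ψ a * t) * ψ a := by group
    _ = t * t * (ψ a * ψ a) := by rw [h.comm (h.ψ_mem a)]; group
    _ = _ := by rw [h.sq, one_mul, map_mul]

omit [Finite G] in
theorem ne' (a b : A5) : t * ψ a ≠ ψ b := fun e =>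
  h.ne (b * a⁻¹) (by rw [map_mul, ← e, map_inv]; group)

omit [Finite G] in
theorem conj_tψ (g a : A5) : ψ g * (t * ψ a) * (ψ g)⁻¹ = t * ψ (g * a * g⁻¹) := by
  rw [← mul_assoc, h.comm (h.ψ_mem g)]
  simp [mul_assoc]

/-- Elements of the class lying in a common 2-subgroup commute. -/
theorem comm_of_pgroup {P : Subgroup G} (hP : IsPGroup 2 P) {x y : G} (hx : IsConj t x)
    (hy : IsConj t y) (hxP : x ∈ P) (hyP : y ∈ P) : x * y = y * x := by
  obtain ⟨g, -, hg⟩ := SE.exists_conj_le_sylow (H := ⊤) S le_top hP le_top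
  have key : ∀ z, IsConj t z → z ∈ P → g * z * g⁻¹ ∈ W := fun z hz hzP =>
    h.mem_W (hz.trans (isConj_iff.2 ⟨g, rfl⟩)) (h.cent _ (hg z hzP))
  have := congrArg Subtype.val (h.ab.comm (P := (S : Subgroup G).subgroupOf W) S.2.comap_subtype
    (a := ⟨_, key x hx hxP⟩) (b := ⟨_, key y hy hyP⟩) (hg x hxP) (hg y hyP))
  calc x * y = g⁻¹ * (g * x * g⁻¹ * (g * y * g⁻¹)) * g := by group
    _ = g⁻¹ * (g * y * g⁻¹ * (g * x * g⁻¹)) * g := congrArg (fun z => g⁻¹ * z * g) this
    _ = _ := by group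

theorem both : IsConj t (ψ d5) ∧ IsConj t (t * ψ d5) := by
  classical
  have D := data5
  have c1 : ∀ a : A5, a * a = 1 → a ≠ 1 → IsConj (ψ d5) (ψ a) := fun a ha ha1 => by
    obtain ⟨g, rfl⟩ := D.conj a ha ha1
    exact isConj_iff.2 ⟨ψ g, by simp⟩
  have c2 : ∀ a : A5, a * a = 1 → a ≠ 1 → IsConj (t * ψ d5) (t * ψ a) := fun a ha ha1 => by
    obtain ⟨g, rfl⟩ := D.conj a ha ha1
    exact isConj_iff.2 ⟨ψ g, h.conj_tψ g d5⟩
  have hsq : ∀ x, IsConj t x → x * t = t * x → x = t ∨ ∃ a : A5, a * a = 1 ∧ a ≠ 1 ∧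
      (x = ψ a ∨ x = t * ψ a) := by
    intro x hx hc
    have h2 := sq_of_ord (h.ord_of hx)
    obtain ⟨a, rfl | rfl⟩ := h.cases x (h.mem_W hx hc)
    · refine Or.inr ⟨a, h.inj (by rw [map_mul, h2, map_one]), ?_, Or.inl rfl⟩
      rintro rfl
      exact ne_of_ord (h.ord_of hx) (map_one ψ)
    · by_cases ha : a = 1
      · exact Or.inl (by rw [ha, map_one, mul_one])
      · exact Or.inr ⟨a, h.inj (by rw [← h.mul_self, h2, map_one]), ha, Or.inr rfl⟩
  have hdd : ψ d5 ^ 2 = 1 := by rw [pow_two, ← map_mul, D.dd, map_one]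
  have hB := isElementaryAbelian_four_group (s := t) (t := ψ d5) (by rw [pow_two, h.sq]) hdd
    (h.comm (h.ψ_mem _)).symm
  have hodd := odd_ncard_fixed hB.isPGroup h.idx
  have hde : d5 * e5 * (d5 * e5) = 1 := by decide +kernel
  have hde1 : d5 * e5 ≠ 1 := by decide +kernel
  have hfix : ∀ x, (∀ b ∈ zpowers t ⊔ zpowers (ψ d5), b * x = x * b) ↔
      x * t = t * x ∧ x * ψ d5 = ψ d5 * x := fun x =>
    ⟨fun hx => ⟨(hx _ (mem_sup_left (mem_zpowers _))).symm,
      (hx _ (mem_sup_right (mem_zpowers _))).symm⟩, fun hx b hb =>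
      (show zpowers t ⊔ zpowers (ψ d5) ≤ centralizer {x} from sup_le
        (zpowers_le.2 (mem_centralizer_singleton_iff.2 hx.1.symm))
        (zpowers_le.2 (mem_centralizer_singleton_iff.2 hx.2.symm))) hb x rfl |>.symm⟩
  have hcd : ∀ a : A5, a * d5 = d5 * a → ψ a * ψ d5 = ψ d5 * ψ a := fun a ha => by
    rw [← map_mul, ha, map_mul]
  have hcd' : ∀ a : A5, a * d5 = d5 * a → t * ψ a * ψ d5 = ψ d5 * (t * ψ a) := fun a ha => by
    rw [mul_assoc, hcd a ha, ← mul_assoc, ← mul_assoc, h.comm (h.ψ_mem _)]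
  have hdec : d5 * e5 * d5 = d5 * (d5 * e5) := by decide +kernel
  have h4 : ∀ u : G, ({t, u * ψ d5, u * ψ e5, u * ψ (d5 * e5)} : Set G).ncard = 4 ∨
      ∃ a, a ≠ 1 ∧ t = u * ψ a := fun u => by
    by_contra hcon
    push Not at hcon
    refine hcon.1 (Set.ncard_eq_four.2 ⟨_, _, _, _, hcon.2 _ D.d_ne, hcon.2 _ D.e_ne,
      hcon.2 _ hde1, ?_, ?_, ?_, rfl⟩) <;>
    exact fun e => absurd (h.inj (mul_left_cancel e)) (by decide +kernel)
  by_cases h1 : IsConj t (ψ d5) <;> by_cases h2 : IsConj t (t * ψ d5)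
  · exact ⟨h1, h2⟩
  · exfalso
    refine hodd ?_
    rcases h4 1 with h5 | ⟨a, -, ha⟩
    · convert (show 2 ∣ _ from h5 ▸ (by norm_num : 2 ∣ 4)) using 2
      ext x
      simp only [Set.mem_ofPred_eq, hfix, one_mul, Set.mem_insert_iff, Set.mem_singleton_iff]
      constructor
      · rintro ⟨hx, hc, hd⟩
        rcases hsq x hx hc with rfl | ⟨a, ha, ha1, rfl | rfl⟩
        · exact Or.inl rfl
        · rcases D.cent a (h.inj (by rw [map_mul, hd, map_mul])) with rfl | rfl | rfl | rfl <;>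
            simp_all
        · exact absurd (hx.trans (c2 a ha ha1).symm) h2
      · rintro (rfl | rfl | rfl | rfl)
        · exact ⟨IsConj.refl _, rfl, (h.comm (h.ψ_mem _)).symm⟩
        · exact ⟨h1, h.comm (h.ψ_mem _), rfl⟩
        · exact ⟨h1.trans (c1 _ D.ee D.e_ne), h.comm (h.ψ_mem _), hcd _ D.comm.symm⟩
        · exact ⟨h1.trans (c1 _ hde hde1), h.comm (h.ψ_mem _), hcd _ hdec⟩
    · exact absurd (by rw [ha, one_mul]) (h.ne a)
  · exfalso
    refine hodd ?_
    rcases h4 t with h5 | ⟨a, ha1, ha⟩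
    · convert (show 2 ∣ _ from h5 ▸ (by norm_num : 2 ∣ 4)) using 2
      ext x
      simp only [Set.mem_ofPred_eq, hfix, Set.mem_insert_iff, Set.mem_singleton_iff]
      have hW : ∀ a, t * ψ a * t = t * (t * ψ a) := fun a =>
        h.comm (W.mul_mem h.t_mem (h.ψ_mem a))
      constructor
      · rintro ⟨hx, hc, hd⟩
        rcases hsq x hx hc with rfl | ⟨a, ha, ha1, rfl | rfl⟩
        · exact Or.inl rfl
        · exact absurd (hx.trans (c1 a ha ha1).symm) h1
        · have : a * d5 = d5 * a := by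
            rw [← mul_assoc, h.comm (h.ψ_mem _), mul_assoc, mul_assoc, ← map_mul,
              ← map_mul] at hd
            exact h.inj (mul_left_cancel hd)
          rcases D.cent a this with rfl | rfl | rfl | rfl <;> simp_all
      · rintro (rfl | rfl | rfl | rfl)
        · exact ⟨IsConj.refl _, rfl, (h.comm (h.ψ_mem _)).symm⟩
        · exact ⟨h2, hW _, hcd' _ rfl⟩
        · exact ⟨h2.trans (c2 _ D.ee D.e_ne), hW _, hcd' _ D.comm.symm⟩
        · exact ⟨h2.trans (c2 _ hde hde1), hW _, hcd' _ hdec⟩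
    · exact absurd (h.inj (by rw [map_one]; exact left_eq_mul.1 ha)) ha1
  · exfalso
    have hle : W ≤ zpowers t := by
      rw [h.W_eq, closure_le]
      rintro x ⟨g, hg, hc⟩
      have hx : IsConj t x := isConj_iff.2 ⟨g, hg.symm⟩
      rcases hsq x hx hc with rfl | ⟨a, ha, ha1, rfl | rfl⟩
      · exact mem_zpowers _
      · exact absurd (hx.trans (c1 a ha ha1).symm) h1
      · exact absurd (hx.trans (c2 a ha ha1).symm) h2
    obtain ⟨k, hk⟩ := hle (h.ψ_mem d5)
    have h3 : t ^ (2 : ℤ) = 1 := by rw [zpow_two, h.sq]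
    rcases Int.even_or_odd' k with ⟨j, rfl | rfl⟩
    · simp only [zpow_mul, h3, one_zpow] at hk
      exact D.d_ne (h.inj (by rw [← hk, map_one]))
    · simp only [zpow_add, zpow_mul, h3, one_zpow, one_mul, zpow_one] at hk
      exact h.ne _ hk.symm

/-- All involutions of `W` are conjugate to `t`. -/
theorem isConj_of_mem {w : G} (hw : w ∈ W) (h2 : w * w = 1) (h1 : w ≠ 1) : IsConj t w := by
  obtain ⟨a, rfl | rfl⟩ := h.cases w hw
  · obtain ⟨g, rfl⟩ := data5.conj a (h.inj (by rw [map_mul, h2, map_one]))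
      (fun e => h1 (by rw [e, map_one]))
    exact h.both.1.trans (isConj_iff.2 ⟨ψ g, by simp⟩)
  · by_cases ha : a = 1
    · rw [ha, map_one, mul_one]
    obtain ⟨g, rfl⟩ := data5.conj a (h.inj (by rw [← h.mul_self, h2, map_one])) ha
    exact h.both.2.trans (isConj_iff.2 ⟨ψ g, h.conj_tψ g d5⟩)

theorem isConj_mul {s : G} (hs : IsConj t s) (hc : s * t = t * s) (hne : s ≠ t) :
    IsConj t (s * t) := by
  refine h.isConj_of_mem (W.mul_mem (h.mem_W hs hc) h.t_mem) ?_ fun e => hne ?_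
  · calc s * t * (s * t) = s * (t * s) * t := by group
      _ = s * s * (t * t) := by rw [← hc]; group
      _ = 1 := by rw [h.sq, sq_of_ord (h.ord_of hs), one_mul]
  · rw [mul_eq_one_iff_eq_inv.1 e, inv_eq_of_mul_eq_one_right h.sq]

theorem oddCore_le : pPrimeCore 2 G ≤ centralizer ({t} : Set G) := by
  set O := pPrimeCore 2 G with hO
  have hOo : Odd (Nat.card O) := odd_card_oddCore (G := G)
  have hodd : ∀ x ∈ O, Odd (orderOf x) := fun x hx =>
    hOo.of_dvd_nat (orderOf_dvd_natCard _ hx)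
  have hψ : ∀ a, ψ a ∈ O → a = 1 := by
    rcases data5.core (O.comap ψ) inferInstance with h1 | h1
    · intro a ha
      have : a ∈ O.comap ψ := ha
      rwa [h1, mem_bot] at this
    · have := hodd _ h1
      rw [h.ord_of h.both.1] at this
      exact absurd this (by decide)
  have hWO : ∀ w ∈ W, w ∈ O → w = 1 := by
    intro w hw hwO
    obtain ⟨a, rfl | rfl⟩ := h.cases w hw
    · rw [hψ a hwO, map_one]
    · refine eq_one_of_odd ?_ (hodd _ hwO)
      rw [h.mul_self, hψ (a * a) (h.mul_self a ▸ O.mul_mem hwO hwO), map_one]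
  have k1 : ∀ x ∈ O, x * t = t * x → ∀ s, IsConj t s → s * t = t * s → x * s = s * x := by
    intro x hx hxt s hs hst
    have h1 : x * s * x⁻¹ ∈ W := h.mem_W (hs.trans (isConj_iff.2 ⟨x, rfl⟩)) (by
      calc x * s * x⁻¹ * t = x * s * x⁻¹ * (t * x) * x⁻¹ := by group
        _ = x * (s * t) * x⁻¹ := by rw [← hxt]; group
        _ = x * t * s * x⁻¹ := by rw [hst]; group
        _ = _ := by rw [hxt]; group)
    have h2 := hWO _ (W.mul_mem h1 (W.inv_mem (h.mem_W hs hst))) (by
      simpa [mul_assoc] using O.mul_mem hx ((inferInstance : O.Normal).conj_mem _ (O.inv_mem hx) s))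
    calc x * s = x * s * x⁻¹ * s⁻¹ * (s * x) := by group
      _ = _ := by rw [h2, one_mul]
  have key : ∀ v, IsConj t v → v * t = t * v → O ⊓ centralizer {v} ≤ centralizer {t} := by
    intro v hv hvt x hx
    obtain ⟨g, hg⟩ := isConj_iff.1 hv.symm
    have c : ∀ a b : G, a * b = b * a →
        g * a * g⁻¹ * (g * b * g⁻¹) = g * b * g⁻¹ * (g * a * g⁻¹) := fun a b hab => by
      calc g * a * g⁻¹ * (g * b * g⁻¹) = g * (a * b) * g⁻¹ := by group
        _ = _ := by rw [hab]; group
    have := k1 _ ((inferInstance : O.Normal).conj_mem _ hx.1 g)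
      (hg ▸ c _ _ (mem_centralizer_singleton_iff.1 hx.2)) (g * t * g⁻¹)
      (isConj_iff.2 ⟨g, rfl⟩) (by have := c _ _ hvt.symm; rwa [hg] at this)
    rw [mem_centralizer_singleton_iff]
    calc x * t = g⁻¹ * (g * x * g⁻¹ * (g * t * g⁻¹)) * g := by group
      _ = _ := by rw [this]; group
  exact le_of_four_group h.ord (h.ord_of h.both.1) (h.ne _).symm (h.comm (h.ψ_mem _)).symm
    (by rw [normalizer_eq_top]; trivial) (by rw [normalizer_eq_top]; trivial) hOo.not_two_dvd_nat
    inf_le_right (key _ h.both.1 (h.comm (h.ψ_mem _)))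
    (key _ h.both.2 (h.comm (W.mul_mem h.t_mem (h.ψ_mem _))))

omit h in
theorem exists_noncomm : ∃ a : A5, a * a = 1 ∧ a ≠ 1 ∧ a * d5 ≠ d5 * a := by decide +kernel

theorem exists_component : ∃ K : Subgroup G, IsComponent K ∧ t ∉ centralizer (K : Set G) := by
  by_contra hcon
  push Not at hcon
  have hF : fittingSubgroup G ≤ centralizer ({t} : Set G) :=
    (fitting_le_pCore_sup 2).trans (sup_le (fun x hx => mem_centralizer_singleton_iff.2
      (h.cent x (((isPGroup_pCore 2).le_sylow_of_normal S) hx))) h.oddCore_le)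
  have hL : layer G ≤ centralizer ({t} : Set G) :=
    sSup_le fun K hK x hx => mem_centralizer_singleton_iff.2 (hcon K hK x hx)
  have h1 : t ∈ centralizer (generalizedFittingSubgroup G : Set G) := fun x hx =>
    mem_centralizer_singleton_iff.1 ((genFitting_eq (G := G) ▸ sup_le hL hF :
      generalizedFittingSubgroup G ≤ centralizer ({t} : Set G)) hx)
  have h2 : ∀ x, IsConj t x → x ∈ centralizer (generalizedFittingSubgroup G : Set G) := by
    intro x hx
    obtain ⟨g, rfl⟩ := isConj_iff.1 hx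
    exact (inferInstance : (centralizer (generalizedFittingSubgroup G : Set G)).Normal).conj_mem
      _ h1 g
  obtain ⟨a, ha, ha1, hne⟩ := exists_noncomm
  have h3 : IsConj t (ψ a) := h.isConj_of_mem (h.ψ_mem a) (by rw [← map_mul, ha, map_one])
    fun e => ha1 (h.inj (by rw [e, map_one]))
  exact hne (h.inj (by
    rw [map_mul, map_mul]
    exact h2 _ h.both.1 _ (centralizer_genFitting_le (h2 _ h3))))

theorem mem_normalizer {K : Subgroup G} (hK : IsComponent K) : t ∈ normalizer (K : Set G) := by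
  by_contra hn
  have hne : K ≠ K.map (MulAut.conj t).toMonoidHom := fun e => hn (mem_normalizer_iff.2 fun x =>
    ⟨fun hx => e ▸ SE.conj_mem_map_conj hx, fun hx => by
      rw [e, SE.mem_map_conj] at hx
      simpa [mul_assoc] using hx⟩)
  have h1 := (hK.map_conj t).le_centralizer_of_ne hK hne.symm
  have h2 : ¬ 2 ∣ ((S : Subgroup G) ⊓ layer G).relIndex (layer G) :=
    Tr.not_dvd_relIndex_inf_of_normal (H := ⊤) (by simpa using S.not_dvd_index) S.2 le_top
      (by rw [normalizer_eq_top])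
  have h3 := Tr.not_dvd_relIndex_inf_of_normal h2 S.2.to_inf_left hK.le_layer
    hK.layer_le_normalizer
  have h4 : 2 ∣ Nat.card K := by
    by_contra h5
    exact hK.isQuasisimple.not_isSolvable (S0205.result (Nat.odd_iff.2 (Nat.two_dvd_ne_zero.1 h5)))
  refine h3 ((hK.isQuasisimple.dvd_relIndex_centralizer Nat.prime_two h4).trans
    (relIndex_dvd_of_le_left _ fun x hx => h1 ?_))
  rw [SE.mem_map_conj, mul_assoc, h.cent x hx.1.1, inv_mul_cancel_left]
  exact hx.2

/-- `t` lies in every component it does not centralize. -/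
theorem mem_component {K : Subgroup G} (hK : IsComponent K) (ht : t ∉ centralizer (K : Set G)) :
    t ∈ K := by
  have hn : zpowers t ≤ normalizer (K : Set G) := zpowers_le.2 (h.mem_normalizer hK)
  let Y := K ⊔ zpowers t
  have htY : t ∈ Y := mem_sup_right (mem_zpowers t)
  obtain ⟨y, hy, hc, hne⟩ : ∃ y ∈ Y, y * t * y⁻¹ * t = t * (y * t * y⁻¹) ∧ y * t * y⁻¹ ≠ t := by
    by_contra hcon
    push Not at hcon
    have hiso : IsIsolatedInvolution (⟨t, htY⟩ : Y) :=
      ⟨by rw [← h.ord, ← orderOf_coe], fun g hg =>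
        Subtype.ext (hcon g g.2 (congrArg Subtype.val hg.eq).symm)⟩
    rcases hK.le_commutator_or (zpowers t) with h1 | h1
    · have h2 : ⁅K, zpowers t⁆ ≤ (oddCore Y).map Y.subtype := by
        rw [commutator_comm, commutator_le]
        rintro _ ⟨k, rfl⟩ x hx
        have h3 : t ^ (2 : ℤ) = 1 := by rw [zpow_two, h.sq]
        rcases Int.even_or_odd' k with ⟨j, rfl | rfl⟩
        · simp [zpow_mul, h3]
        · simp only [zpow_add, zpow_mul, h3, one_zpow, one_mul, zpow_one]
          exact ⟨_, hiso.commutator_mem_oddCore ⟨x, mem_sup_left hx⟩, rfl⟩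
      refine hK.isQuasisimple.not_le_of_isSolvable (S0205.result ?_) (h1.trans h2)
      rw [card_map_of_injective Y.subtype_injective]
      exact odd_card_oddCore
    · rw [commutator_comm, commutator_eq_bot_iff_le_centralizer] at h1
      exact ht (h1 (mem_zpowers t))
  obtain ⟨k, hk, z, ⟨i, rfl⟩, rfl⟩ := (PG.mem_sup_of_le_normalizer hn).1 hy
  have e : k * t ^ i * t * (k * t ^ i)⁻¹ = k * t * k⁻¹ := by group
  simp only [e] at hc hne
  have h1 : k * t * k⁻¹ * t ∈ K := by
    have := K.mul_mem hk (conj_mem_of_mem_normalizer (h.mem_normalizer hK) (K.inv_mem hk))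
    rw [inv_eq_of_mul_eq_one_right h.sq] at this
    simpa [mul_assoc] using this
  obtain ⟨g, hg⟩ := isConj_iff.1 (h.isConj_mul (isConj_iff.2 ⟨k, rfl⟩) hc hne).symm
  have h2 : t ∈ K.map (MulAut.conj g).toMonoidHom := hg ▸ SE.conj_mem_map_conj h1
  by_contra htK
  exact ht ((hK.map_conj g).le_centralizer_of_ne hK (fun e => htK (e ▸ h2)) h2)

omit [Finite G] h in
theorem not_mem_centralizer_conj {K : Subgroup G} (ht : t ∉ centralizer (K : Set G)) (g : G) :
    g * t * g⁻¹ ∉ centralizer (K.map (MulAut.conj g).toMonoidHom : Set G) := fun h => ht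
  fun x hx => by
    have := h _ (SE.conj_mem_map_conj (g := g) hx)
    calc x * t = g⁻¹ * (g * x * g⁻¹ * (g * t * g⁻¹)) * g := by group
      _ = _ := by rw [this]; group

theorem normal_component {K : Subgroup G} (hK : IsComponent K)
    (ht : t ∉ centralizer (K : Set G)) : K.Normal := by
  refine ⟨fun x hx g => ?_⟩
  by_contra hx'
  have hne : K ≠ K.map (MulAut.conj g).toMonoidHom := fun e => hx' (e ▸ SE.conj_mem_map_conj hx)
  have hK' := hK.map_conj g
  have htK := h.mem_component hK ht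
  have hs : g * t * g⁻¹ ∈ K.map (MulAut.conj g).toMonoidHom := SE.conj_mem_map_conj htK
  have hs' := not_mem_centralizer_conj ht g
  have h1 := hK.le_centralizer_of_ne hK' hne htK
  have h2 := hK'.le_centralizer_of_ne hK hne.symm hs
  obtain ⟨a, ha⟩ := isConj_iff.1 (h.isConj_mul (isConj_iff.2 ⟨g, rfl⟩) (h1 _ hs)
    fun e => ht (e ▸ h2))
  have h3 : g * t * g⁻¹ * t ∈ K.map (MulAut.conj a).toMonoidHom := ha ▸ SE.conj_mem_map_conj htK
  by_cases e : K.map (MulAut.conj a).toMonoidHom = K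
  · have := (hK.map_conj a).le_centralizer_of_ne hK' (e.symm ▸ hne) h3
    exact hs' ((mul_mem_cancel_right h1).1 this)
  · have := (hK.map_conj a).le_centralizer_of_ne hK e h3
    exact ht ((mul_mem_cancel_left h2).1 this)

/-- The normal closure of `t` is quasisimple and not centralized by `t`. -/
theorem quasisimple : IsQuasisimple (normalClosure ({t} : Set G)) ∧
    t ∉ centralizer (normalClosure ({t} : Set G) : Set G) := by
  obtain ⟨K, hK, ht⟩ := h.exists_component
  have hn := h.normal_component hK ht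
  have h1 : normalClosure ({t} : Set G) = K := by
    refine le_antisymm (normalClosure_le_normal (by simpa using h.mem_component hK ht)) ?_
    refine (hK.le_or_le_centralizer (inferInstance : (normalClosure ({t} : Set G)).Normal
      ).isSubnormal).resolve_right fun h2 => ht fun x hx => ?_
    exact (h2 hx t (subset_normalClosure rfl)).symm
  rw [h1]
  exact ⟨hK.isQuasisimple, ht⟩

end Hyp

end Cfsg.Agent.Inv.WA
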